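import Mathlib
import Cfsg.Prelude.Def_Local
import Cfsg.Agent.Helper17.TwoSeries
import Cfsg.Agent.Helper16.CharP
import Cfsg.Agent.S0012

/-!
# A group of order 320 with extraspecial `O_2` of minus type (helper17)
-/

set_option autoImplicit false

namespace Cfsg.Agent.Helper17.Ex32

open Subgroup
open scoped commutatorElement

variable {G : Type*} [Group G]

/-- the structural facts about `Z = Z(Q) ≤ Q` used below -/
structure Ctx (Q Z : Subgroup G) : Prop where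
  hZQ : Z ≤ Q
  cen : ∀ w ∈ Z, ∀ x ∈ Q, w * x = x * w
  comm : ∀ x ∈ Q, ∀ y ∈ Q, x * y * x⁻¹ * y⁻¹ ∈ Z
  sq : ∀ x ∈ Q, x * x ∈ Z
  zn : ∀ g : G, ∀ w ∈ Z, g * w * g⁻¹ ∈ Z
  qn : ∀ g : G, ∀ x ∈ Q, g * x * g⁻¹ ∈ Q

/-- the elements of `Q` centralized by `t` modulo `Z` -/
def dsub (Q Z : Subgroup G) (h : Ctx Q Z) (t : G) : Subgroup G where
  carrier := {y | y ∈ Q ∧ t * y * t⁻¹ * y⁻¹ ∈ Z}
  one_mem' := ⟨Q.one_mem, by simpa using Z.one_mem⟩
  mul_mem' := by
    rintro a b ⟨ha, ha'⟩ ⟨hb, hb'⟩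
    refine ⟨Q.mul_mem ha hb, ?_⟩
    have h1 : t * (a * b) * t⁻¹ * (a * b)⁻¹
        = (t * a * t⁻¹ * a⁻¹) * (a * (t * b * t⁻¹ * b⁻¹) * a⁻¹) := by group
    rw [h1]
    exact Z.mul_mem ha' (h.zn a _ hb')
  inv_mem' := by
    rintro a ⟨ha, ha'⟩
    refine ⟨Q.inv_mem ha, ?_⟩
    have h1 : t * a⁻¹ * t⁻¹ * a⁻¹⁻¹ = a⁻¹ * (t * a * t⁻¹ * a⁻¹)⁻¹ * a⁻¹⁻¹ := by group
    rw [h1]
    exact h.zn a⁻¹ _ (Z.inv_mem ha')

theorem mem_dsub {Q Z : Subgroup G} (h : Ctx Q Z) (t y : G) :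
    y ∈ dsub Q Z h t ↔ y ∈ Q ∧ t * y * t⁻¹ * y⁻¹ ∈ Z := Iff.rfl

theorem dsub_le {Q Z : Subgroup G} (h : Ctx Q Z) (t : G) : dsub Q Z h t ≤ Q := fun _ hy => hy.1

theorem conj_theta {t x : G} (ht : t * t = 1) :
    t * (t * x * t⁻¹ * x⁻¹) * t⁻¹ = (t * x * t⁻¹ * x⁻¹)⁻¹ := by
  have ht' : t⁻¹ = t := inv_eq_of_mul_eq_one_left ht
  calc t * (t * x * t⁻¹ * x⁻¹) * t⁻¹ = (t * t) * x * t⁻¹ * x⁻¹ * t⁻¹ := by group
    _ = x * t⁻¹ * x⁻¹ * t⁻¹ := by rw [ht, one_mul]
    _ = (t * x * t⁻¹ * x⁻¹)⁻¹ := by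
      rw [show (t * x * t⁻¹ * x⁻¹)⁻¹ = x * t * x⁻¹ * t⁻¹ by group, ht']

theorem theta_mem_dsub {Q Z : Subgroup G} (h : Ctx Q Z) {t x : G} (ht : t * t = 1) (hx : x ∈ Q) :
    t * x * t⁻¹ * x⁻¹ ∈ dsub Q Z h t := by
  have hq : t * x * t⁻¹ * x⁻¹ ∈ Q := Q.mul_mem (h.qn t x hx) (Q.inv_mem hx)
  refine ⟨hq, ?_⟩
  rw [conj_theta ht, ← mul_inv_rev]
  exact Z.inv_mem (h.sq _ hq)

theorem dsub_inf_le {Q Z : Subgroup G} (h : Ctx Q Z) {t g : G} (htg : t * g * t⁻¹ = g⁻¹)
    (hfpf : ∀ y ∈ Q, (g * g) * y * (g * g)⁻¹ * y⁻¹ ∈ Z → y ∈ Z) :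
    dsub Q Z h t ⊓ (dsub Q Z h t).map (MulAut.conj g).toMonoidHom ≤ Z := by
  intro x hx
  rw [Subgroup.mem_inf] at hx
  obtain ⟨hx1, hx2⟩ := hx
  obtain ⟨y, hy, rfl⟩ := Subgroup.mem_map.mp hx2
  have hyQ : y ∈ Q := hy.1
  have hw1 : t * y * t⁻¹ * y⁻¹ ∈ Z := hy.2
  simp only [MulEquiv.coe_toMonoidHom, MulAut.conj_apply] at hx1 ⊢
  have hw2 : t * (g * y * g⁻¹) * t⁻¹ * (g * y * g⁻¹)⁻¹ ∈ Z := hx1.2
  have e1 : t * (g * y * g⁻¹) * t⁻¹ = (t * g * t⁻¹) * (t * y * t⁻¹) * (t * g * t⁻¹)⁻¹ := by group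
  rw [e1, htg] at hw2
  have key : g ^ 2 * y * (g ^ 2)⁻¹ * y⁻¹
      = ((t * y * t⁻¹ * y⁻¹)⁻¹ * (g * (g⁻¹ * (t * y * t⁻¹) * g⁻¹⁻¹ * (g * y * g⁻¹)⁻¹) * g⁻¹))⁻¹ := by
    group
  have hyZ : y ∈ Z := by
    have h0 := hfpf y hyQ
    rw [← pow_two] at h0
    apply h0
    rw [key]
    exact Z.inv_mem (Z.mul_mem (Z.inv_mem hw1) (h.zn g _ hw2))
  exact h.zn g y hyZ

theorem card_dsub_le [Finite G] {Q Z : Subgroup G} (h : Ctx Q Z) (hQ : Nat.card Q = 32)
    (hZ : Nat.card Z = 2) {t g : G} (htg : t * g * t⁻¹ = g⁻¹)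
    (hfpf : ∀ y ∈ Q, (g * g) * y * (g * g)⁻¹ * y⁻¹ ∈ Z → y ∈ Z) :
    Nat.card (dsub Q Z h t) ≤ 8 := by
  set D := dsub Q Z h t with hD
  set D2 := D.map (MulAut.conj g).toMonoidHom with hD2
  have hDQ : D ≤ Q := dsub_le h t
  have hD2Q : D2 ≤ Q := by
    intro x hx
    obtain ⟨y, hy, rfl⟩ := Subgroup.mem_map.mp hx
    simp only [MulEquiv.coe_toMonoidHom, MulAut.conj_apply]
    exact h.qn g y (hDQ hy)
  have hcard2 : Nat.card D2 = Nat.card D :=
    Subgroup.card_map_of_injective (MulAut.conj g).injective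
  have hinf : D ⊓ D2 ≤ Z := dsub_inf_le h htg hfpf
  have hm : Nat.card ↥(D ⊓ D2) ≤ 2 := hZ ▸ Subgroup.card_le_of_le hinf
  have r0 := Subgroup.relIndex_mul_relIndex ⊥ (D ⊓ D2) Q bot_le (inf_le_left.trans hDQ)
  have r1 := Subgroup.relIndex_mul_relIndex ⊥ D Q bot_le hDQ
  have r2 := Subgroup.relIndex_mul_relIndex ⊥ D2 Q bot_le hD2Q
  rw [Subgroup.relIndex_bot_left, Subgroup.relIndex_bot_left, hQ] at r0 r1 r2
  rw [hcard2] at r2
  have r3 : (D ⊓ D2).relIndex Q ≤ D.relIndex Q * D2.relIndex Q := Subgroup.relIndex_inf_le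
  set d := Nat.card D
  set m := Nat.card ↥(D ⊓ D2)
  set a := (D ⊓ D2).relIndex Q
  set b := D.relIndex Q
  set c := D2.relIndex Q
  have hdpos : 0 < d := Nat.card_pos
  have hbc : b = c := by
    have : d * b = d * c := by rw [r1, r2]
    exact Nat.eq_of_mul_eq_mul_left hdpos this
  rw [← hbc] at r3
  by_contra hlt
  push Not at hlt
  have hb3 : b ≤ 3 := by
    by_contra hb
    push Not at hb
    nlinarith
  have ha : 16 ≤ a := by
    by_contra ha
    push Not at ha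
    nlinarith
  nlinarith


section Main

variable [Finite G]

theorem mul_self_of_card_two {Z : Subgroup G} (hZ : Nat.card Z = 2) {w : G} (hw : w ∈ Z) :
    w * w = 1 := by
  have h1 : (⟨w, hw⟩ : Z) ^ Nat.card Z = 1 := pow_card_eq_one'
  rw [hZ] at h1
  have h2 := congrArg Subtype.val h1
  simpa [pow_two] using h2

theorem eq_of_card_two {Z : Subgroup G} (hZ : Nat.card Z = 2) {a b : G} (ha : a ∈ Z) (hb : b ∈ Z)
    (ha1 : a ≠ 1) (hb1 : b ≠ 1) : a = b := by
  obtain ⟨y, _, hy⟩ := (Nat.card_eq_two_iff' (1 : Z)).mp hZ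
  have h1 : (⟨a, ha⟩ : Z) = y := hy _ (fun h => ha1 (congrArg Subtype.val h))
  have h2 : (⟨b, hb⟩ : Z) = y := hy _ (fun h => hb1 (congrArg Subtype.val h))
  exact congrArg Subtype.val (h1.trans h2.symm)

theorem conj_eq_of_card_two {Z : Subgroup G} (hZ : Nat.card Z = 2)
    (zn : ∀ g : G, ∀ w ∈ Z, g * w * g⁻¹ ∈ Z) (x : G) {w : G} (hw : w ∈ Z) : x * w * x⁻¹ = w := by
  by_cases h1 : w = 1
  · rw [h1]; simp
  · apply eq_of_card_two hZ (zn x w hw) hw _ h1
    intro h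
    apply h1
    have : w = x⁻¹ * (x * w * x⁻¹) * x := by group
    rw [this, h]; simp

theorem card_M (hG : Nat.card G = 320) (Q : Subgroup G) [Q.Normal] (hQ : Nat.card Q = 32)
    {hh : G} (h5 : hh ^ 5 = 1) (h1 : hh ≠ 1) :
    Q ⊓ zpowers hh = ⊥ ∧ Nat.card ↥(Q ⊔ zpowers hh) = 160 ∧ (Q ⊔ zpowers hh).Normal := by
  haveI : Fact (Nat.Prime 5) := ⟨by norm_num⟩
  have ho : orderOf hh = 5 := orderOf_eq_prime h5 h1
  have hc : Nat.card (zpowers hh) = 5 := by rw [Nat.card_zpowers, ho]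
  have hinf : Q ⊓ zpowers hh = ⊥ := Subgroup.inf_eq_bot_of_coprime (by rw [hQ, hc]; decide)
  have hcard : Nat.card ↥(Q ⊔ zpowers hh) = 160 := by
    rw [TwoSeries.card_sup_of_inf_bot Q (zpowers hh) hinf, hQ, hc]
  refine ⟨hinf, hcard, ?_⟩
  apply Subgroup.normal_of_index_eq_two
  have := Subgroup.card_mul_index (Q ⊔ zpowers hh)
  rw [hcard, hG] at this
  omega

theorem not_cent (hG : Nat.card G = 320) (Q : Subgroup G) [hQn : Q.Normal] (hQ : Nat.card Q = 32)
    (hF : Q = Cfsg.fittingSubgroup G) {hh : G} (h5 : hh ^ 5 = 1) (h1 : hh ≠ 1)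
    (hc : Q ≤ centralizer ({hh} : Set G)) : False := by
  obtain ⟨hinf, hcard, hMn⟩ := card_M hG Q hQ h5 h1
  have hqh : ∀ x ∈ Q, ∀ v ∈ zpowers hh, x * v = v * x := by
    intro x hx v hv
    have hx' : hh ∈ centralizer ({x} : Set G) := by
      rw [Subgroup.mem_centralizer_iff]
      intro y hy
      rw [Set.mem_singleton_iff] at hy
      rw [hy]
      exact ((Subgroup.mem_centralizer_iff.mp (hc hx)) hh (Set.mem_singleton hh)).symm
    have := (Subgroup.zpowers_le.mpr hx') hv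
    exact (Subgroup.mem_centralizer_iff.mp this) x (Set.mem_singleton x)
  have hvv : ∀ v ∈ zpowers hh, ∀ v' ∈ zpowers hh, v * v' = v' * v := by
    intro v hv v' hv'
    obtain ⟨i, rfl⟩ := Subgroup.mem_zpowers_iff.mp hv
    obtain ⟨j, rfl⟩ := Subgroup.mem_zpowers_iff.mp hv'
    exact ((Commute.refl hh).zpow_zpow i j).eq
  have hAn : (centralizer (Q : Set G) ⊓ (Q ⊔ zpowers hh)).Normal := inferInstance
  have hcomm : ∀ a ∈ centralizer (Q : Set G) ⊓ (Q ⊔ zpowers hh),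
      ∀ b ∈ centralizer (Q : Set G) ⊓ (Q ⊔ zpowers hh), a * b = b * a := by
    intro a ha b hb
    rw [Subgroup.mem_inf] at ha hb
    have ha2 : a ∈ ((Q ⊔ zpowers hh : Subgroup G) : Set G) := ha.2
    have hb2 : b ∈ ((Q ⊔ zpowers hh : Subgroup G) : Set G) := hb.2
    rw [Subgroup.normal_mul] at ha2 hb2
    obtain ⟨q, hq, u, hu, rfl⟩ := Set.mem_mul.mp ha2
    obtain ⟨q', hq', u', hu', hb'⟩ := Set.mem_mul.mp hb2
    have e1 : q * b = b * q := (Subgroup.mem_centralizer_iff.mp hb.1) q hq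
    have e2 : u * b = b * u := by
      rw [← hb']
      calc u * (q' * u') = (u * q') * u' := by rw [mul_assoc]
        _ = (q' * u) * u' := by rw [← hqh q' hq' u hu]
        _ = q' * (u * u') := by rw [mul_assoc]
        _ = q' * (u' * u) := by rw [hvv u hu u' hu']
        _ = q' * u' * u := by rw [mul_assoc]
    calc q * u * b = q * (u * b) := by rw [mul_assoc]
      _ = q * (b * u) := by rw [e2]
      _ = (q * b) * u := by rw [mul_assoc]
      _ = (b * q) * u := by rw [e1]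
      _ = b * (q * u) := by rw [mul_assoc]
  have hnil : Group.IsNilpotent ↥(centralizer (Q : Set G) ⊓ (Q ⊔ zpowers hh)) := by
    letI : CommGroup ↥(centralizer (Q : Set G) ⊓ (Q ⊔ zpowers hh)) :=
      { (inferInstance : Group ↥(centralizer (Q : Set G) ⊓ (Q ⊔ zpowers hh))) with
        mul_comm := fun a b => Subtype.ext (hcomm a a.2 b b.2) }
    exact CommGroup.isNilpotent
  have hAF : centralizer (Q : Set G) ⊓ (Q ⊔ zpowers hh) ≤ Cfsg.fittingSubgroup G :=
    le_sSup ⟨hAn, hnil⟩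
  have hhA : hh ∈ centralizer (Q : Set G) ⊓ (Q ⊔ zpowers hh) := by
    rw [Subgroup.mem_inf]
    refine ⟨?_, Subgroup.mem_sup_right (Subgroup.mem_zpowers hh)⟩
    rw [Subgroup.mem_centralizer_iff]
    intro q hq
    exact ((Subgroup.mem_centralizer_iff.mp (hc hq)) hh (Set.mem_singleton hh)).symm
  have hhQ : hh ∈ Q := by rw [hF]; exact hAF hhA
  have : hh ∈ Q ⊓ zpowers hh := Subgroup.mem_inf.mpr ⟨hhQ, Subgroup.mem_zpowers hh⟩
  rw [hinf, Subgroup.mem_bot] at this
  exact h1 this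

theorem cent_le_Z (hG : Nat.card G = 320) (Q : Subgroup G) [hQn : Q.Normal] (hQ : Nat.card Q = 32)
    (hF : Q = Cfsg.fittingSubgroup G) {Z : Subgroup G} (hZQ : Z ≤ Q) (hZ : Nat.card Z = 2)
    (hZc : ∀ x : G, ∀ w ∈ Z, x * w * x⁻¹ = w) {hh : G} (h5 : hh ^ 5 = 1) (h1 : hh ≠ 1) :
    ∀ y ∈ Q, hh * y = y * hh → y ∈ Z := by
  haveI : Fact (Nat.Prime 5) := ⟨by norm_num⟩
  have hBQ : Q ⊓ centralizer ({hh} : Set G) ≤ Q := inf_le_left
  have ho : orderOf hh = 5 := orderOf_eq_prime h5 h1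
  have hc : Nat.card (zpowers hh) = 5 := by rw [Nat.card_zpowers, ho]
  have hP : IsPGroup 5 (zpowers hh) := IsPGroup.of_card (n := 1) (by rw [hc]; rfl)
  letI : MulAction ↥(zpowers hh) ↥Q :=
    MulAction.compHom ↥Q ((MulAut.conjNormal (H := Q)).comp (zpowers hh).subtype)
  have hmod := hP.card_modEq_card_fixedPoints ↥Q
  have hset : MulAction.fixedPoints ↥(zpowers hh) ↥Q
      = (((Q ⊓ centralizer ({hh} : Set G)).subgroupOf Q : Subgroup Q) : Set Q) := by
    ext x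
    constructor
    · intro hx
      have h2 := hx ⟨hh, Subgroup.mem_zpowers hh⟩
      have h3 : ((MulAut.conjNormal (H := Q) hh) x : G) = x := congrArg Subtype.val h2
      rw [MulAut.conjNormal_apply] at h3
      show (x : G) ∈ Q ⊓ centralizer ({hh} : Set G)
      rw [Subgroup.mem_inf]
      refine ⟨x.2, ?_⟩
      rw [Subgroup.mem_centralizer_iff]
      intro y hy
      rw [Set.mem_singleton_iff] at hy
      rw [hy]
      have := congrArg (· * hh) h3
      simpa using this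
    · intro hx g
      have hx' : (x : G) ∈ Q ⊓ centralizer ({hh} : Set G) := hx
      rw [Subgroup.mem_inf] at hx'
      have h2 : hh ∈ centralizer ({(x : G)} : Set G) := by
        rw [Subgroup.mem_centralizer_iff]
        intro y hy
        rw [Set.mem_singleton_iff] at hy
        rw [hy]
        exact ((Subgroup.mem_centralizer_iff.mp hx'.2) hh (Set.mem_singleton hh)).symm
      have h3 := (Subgroup.zpowers_le.mpr h2) g.2
      have h4 : (x : G) * (g : G) = (g : G) * (x : G) :=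
        (Subgroup.mem_centralizer_iff.mp h3) x (Set.mem_singleton _)
      apply Subtype.ext
      show ((MulAut.conjNormal (H := Q) (g : G)) x : G) = x
      rw [MulAut.conjNormal_apply, ← h4]
      group
  rw [hset] at hmod
  have hcardB : Nat.card ↥((Q ⊓ centralizer ({hh} : Set G)).subgroupOf Q)
      = Nat.card ↥(Q ⊓ centralizer ({hh} : Set G)) :=
    Nat.card_congr (Subgroup.subgroupOfEquivOfLe hBQ).toEquiv
  have hmod' : Nat.card Q ≡ Nat.card ↥(Q ⊓ centralizer ({hh} : Set G)) [MOD 5] := by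
    rw [← hcardB]; exact hmod
  rw [hQ] at hmod'
  have hdvd : Nat.card ↥(Q ⊓ centralizer ({hh} : Set G)) ∣ 32 :=
    hQ ▸ Subgroup.card_dvd_of_le hBQ
  have hB2 : Nat.card ↥(Q ⊓ centralizer ({hh} : Set G)) = 2 := by
    obtain ⟨m, hm, hmB⟩ := (Nat.dvd_prime_pow Nat.prime_two).mp
      (show Nat.card ↥(Q ⊓ centralizer ({hh} : Set G)) ∣ 2 ^ 5 from hdvd)
    rw [hmB] at hmod'
    interval_cases m
    · exact absurd hmod' (by decide)
    · simpa using hmB
    · exact absurd hmod' (by decide)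
    · exact absurd hmod' (by decide)
    · exact absurd hmod' (by decide)
    · exfalso
      have hBQ' : Q ⊓ centralizer ({hh} : Set G) = Q :=
        Subgroup.eq_of_le_of_card_ge hBQ (by rw [hQ, hmB]; norm_num)
      exact not_cent hG Q hQ hF h5 h1 (hBQ' ▸ inf_le_right)
  have hZB : Z ≤ Q ⊓ centralizer ({hh} : Set G) := by
    intro w hw
    rw [Subgroup.mem_inf]
    refine ⟨hZQ hw, ?_⟩
    rw [Subgroup.mem_centralizer_iff]
    intro y hy
    rw [Set.mem_singleton_iff] at hy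
    rw [hy]
    have := hZc hh w hw
    have h' := congrArg (· * hh) this
    simpa using h'
  have hZB' : Z = Q ⊓ centralizer ({hh} : Set G) :=
    Subgroup.eq_of_le_of_card_ge hZB (by rw [hZ, hB2])
  intro y hy hyc
  rw [hZB', Subgroup.mem_inf]
  refine ⟨hy, ?_⟩
  rw [Subgroup.mem_centralizer_iff]
  intro x hx
  rw [Set.mem_singleton_iff] at hx
  rw [hx]
  exact hyc

theorem hfpf_of (hG : Nat.card G = 320) (Q : Subgroup G) [hQn : Q.Normal] (hQ : Nat.card Q = 32)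
    (hF : Q = Cfsg.fittingSubgroup G) {Z : Subgroup G} (hZQ : Z ≤ Q) (hZ : Nat.card Z = 2)
    (hZc : ∀ x : G, ∀ w ∈ Z, x * w * x⁻¹ = w) {g : G} (h5 : g ^ 5 = 1) (h1 : g ≠ 1) :
    ∀ y ∈ Q, (g * g) * y * (g * g)⁻¹ * y⁻¹ ∈ Z → y ∈ Z := by
  intro y hy hw
  obtain ⟨k, hk⟩ : ∃ k, k = g * g := ⟨_, rfl⟩
  rw [← hk] at hw
  obtain ⟨w, hw'⟩ : ∃ w, w = k * y * k⁻¹ * y⁻¹ := ⟨_, rfl⟩
  rw [← hw'] at hw
  have hww : w * w = 1 := mul_self_of_card_two hZ hw
  have hkw : k * w = w * k := by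
    have := hZc k w hw
    have h' := congrArg (· * k) this
    simpa using h'
  have hky : k * y = w * y * k := by rw [hw']; group
  have hkk : (k * k) * y = y * (k * k) := by
    calc (k * k) * y = k * (k * y) := by rw [mul_assoc]
      _ = k * (w * y * k) := by rw [hky]
      _ = (k * w) * y * k := by simp only [mul_assoc]
      _ = w * (k * y) * k := by rw [hkw]; simp only [mul_assoc]
      _ = w * (w * y * k) * k := by rw [hky]
      _ = (w * w) * y * (k * k) := by simp only [mul_assoc]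
      _ = y * (k * k) := by rw [hww, one_mul]
  have hk4 : k * k = g ^ 4 := by
    rw [hk, show (4 : ℕ) = 2 + 2 from rfl, pow_add, pow_two]
  have hk5 : (k * k) ^ 5 = 1 := by
    rw [hk4, ← pow_mul]
    calc g ^ (4 * 5) = (g ^ 5) ^ 4 := by rw [← pow_mul]
      _ = 1 := by rw [h5, one_pow]
  have hk1 : k * k ≠ 1 := by
    intro h
    apply h1
    rw [hk4] at h
    calc g = g ^ 5 * (g ^ 4)⁻¹ := by group
      _ = 1 := by rw [h5, h]; simp
  exact cent_le_Z hG Q hQ hF hZQ hZ hZc hk5 hk1 y hy hkk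

theorem exists_g (hG : Nat.card G = 320) (Q : Subgroup G) [hQn : Q.Normal] (hQ : Nat.card Q = 32)
    (hQp : Q = Cfsg.pCore 2 G) {T : G} (hT : orderOf T = 2) (hTQ : T ∉ Q) :
    ∃ g : G, g ^ 5 = 1 ∧ g ≠ 1 ∧ T * g * T⁻¹ = g⁻¹ := by
  haveI : Fact (Nat.Prime 5) := ⟨by norm_num⟩
  haveI : Fact (Nat.Prime 2) := ⟨Nat.prime_two⟩
  have hT2 : T * T = 1 := by rw [← pow_two, ← hT]; exact pow_orderOf_eq_one T
  obtain ⟨f, hf⟩ := exists_prime_orderOf_dvd_card' (G := G) 5 (by rw [hG]; decide)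
  have hf5 : f ^ 5 = 1 := by rw [← hf]; exact pow_orderOf_eq_one f
  have hf1 : f ≠ 1 := by
    intro h; rw [h, orderOf_one] at hf; exact absurd hf (by decide)
  obtain ⟨g0, hg0⟩ : ∃ g0, g0 = T * f * T⁻¹ * f⁻¹ := ⟨_, rfl⟩
  have hconj : T * g0 * T⁻¹ = g0⁻¹ := by rw [hg0]; exact conj_theta hT2
  by_cases hg0Q : g0 ∈ Q
  · exfalso
    have hcT : Nat.card (zpowers T) = 2 := by rw [Nat.card_zpowers, hT]
    have hinf : Q ⊓ zpowers T = ⊥ := by
      have hd : Nat.card ↥(Q ⊓ zpowers T) ∣ 2 := hcT ▸ Subgroup.card_dvd_of_le inf_le_right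
      rcases (Nat.dvd_prime Nat.prime_two).mp hd with h | h
      · exact Subgroup.eq_bot_of_card_eq _ h
      · exfalso
        have h3 : Q ⊓ zpowers T = zpowers T :=
          Subgroup.eq_of_le_of_card_ge inf_le_right (by rw [h, hcT])
        apply hTQ
        have h2 : T ∈ Q ⊓ zpowers T := by rw [h3]; exact Subgroup.mem_zpowers T
        exact (Subgroup.mem_inf.mp h2).1
    have hK1card : Nat.card ↥(Q ⊔ zpowers T) = 64 := by
      rw [TwoSeries.card_sup_of_inf_bot Q (zpowers T) hinf, hQ, hcT]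
    have hK1p : IsPGroup 2 ↥(Q ⊔ zpowers T) := by
      have hQ2 : IsPGroup 2 Q := IsPGroup.of_card (n := 5) (by rw [hQ]; rfl)
      have hT2' : IsPGroup 2 (zpowers T) := IsPGroup.of_card (n := 1) (by rw [hcT]; rfl)
      exact IsPGroup.to_sup_of_normal_left hQ2 hT2'
    have hTK : T ∈ Q ⊔ zpowers T := Subgroup.mem_sup_right (Subgroup.mem_zpowers T)
    have hfN : f ∈ Subgroup.normalizer ((Q ⊔ zpowers T : Subgroup G) : Set G) := by
      apply TwoSeries.mem_normalizer_of_conj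
      · have h0 : Q ⊔ zpowers T ≤ (Q ⊔ zpowers T).comap (MulAut.conj f).toMonoidHom := by
          apply sup_le
          · intro q hq
            rw [Subgroup.mem_comap]
            simp only [MulEquiv.coe_toMonoidHom, MulAut.conj_apply]
            exact Subgroup.mem_sup_left (hQn.conj_mem q hq f)
          · rw [Subgroup.zpowers_le, Subgroup.mem_comap]
            simp only [MulEquiv.coe_toMonoidHom, MulAut.conj_apply]
            have e : f * T * f⁻¹ = g0⁻¹ * T := by rw [hg0]; group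
            rw [e]
            exact Subgroup.mul_mem _ (Subgroup.inv_mem _ (Subgroup.mem_sup_left hg0Q)) hTK
        intro x hx
        have h3 := h0 hx
        rw [Subgroup.mem_comap] at h3
        simpa using h3
      · have h0 : Q ⊔ zpowers T ≤ (Q ⊔ zpowers T).comap (MulAut.conj f⁻¹).toMonoidHom := by
          apply sup_le
          · intro q hq
            rw [Subgroup.mem_comap]
            simp only [MulEquiv.coe_toMonoidHom, MulAut.conj_apply]
            exact Subgroup.mem_sup_left (hQn.conj_mem q hq f⁻¹)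
          · rw [Subgroup.zpowers_le, Subgroup.mem_comap]
            simp only [MulEquiv.coe_toMonoidHom, MulAut.conj_apply]
            have e : f⁻¹ * T * f⁻¹⁻¹ = (f⁻¹ * g0 * f⁻¹⁻¹) * T := by rw [hg0]; group
            rw [e]
            exact Subgroup.mul_mem _ (Subgroup.mem_sup_left (hQn.conj_mem g0 hg0Q f⁻¹)) hTK
        intro x hx
        have h3 := h0 hx
        rw [Subgroup.mem_comap] at h3
        simpa using h3
    have hK1N : Q ⊔ zpowers T ≤ Subgroup.normalizer ((Q ⊔ zpowers T : Subgroup G) : Set G) :=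
      Subgroup.le_normalizer
    have h64 : 64 ∣ Nat.card (Subgroup.normalizer ((Q ⊔ zpowers T : Subgroup G) : Set G)) :=
      hK1card ▸ Subgroup.card_dvd_of_le hK1N
    have h5 : 5 ∣ Nat.card (Subgroup.normalizer ((Q ⊔ zpowers T : Subgroup G) : Set G)) := by
      have h1 : zpowers f ≤ Subgroup.normalizer ((Q ⊔ zpowers T : Subgroup G) : Set G) :=
        Subgroup.zpowers_le.mpr hfN
      have h2 := Subgroup.card_dvd_of_le h1
      rwa [Nat.card_zpowers, hf] at h2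
    have h320 : 320 ∣ Nat.card (Subgroup.normalizer ((Q ⊔ zpowers T : Subgroup G) : Set G)) :=
      Nat.Coprime.mul_dvd_of_dvd_of_dvd (by decide : Nat.Coprime 64 5) h64 h5
    have hNtop : Subgroup.normalizer ((Q ⊔ zpowers T : Subgroup G) : Set G) = ⊤ := by
      apply Subgroup.eq_top_of_card_eq
      have h3 := Subgroup.card_subgroup_dvd_card
        (Subgroup.normalizer ((Q ⊔ zpowers T : Subgroup G) : Set G))
      rw [hG] at h3 ⊢
      exact Nat.dvd_antisymm h3 h320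
    have hK1n : (Q ⊔ zpowers T).Normal := Subgroup.normalizer_eq_top_iff.mp hNtop
    have hK1Q : Q ⊔ zpowers T ≤ Q := by rw [hQp]; exact hQp ▸ Helper16.le_pCore hK1n hK1p
    exact hTQ (hK1Q hTK)
  · obtain ⟨hinf, hcard, hMn⟩ := card_M hG Q hQ hf5 hf1
    have hfM : f ∈ Q ⊔ zpowers f := Subgroup.mem_sup_right (Subgroup.mem_zpowers f)
    have hg0M : g0 ∈ Q ⊔ zpowers f := by
      rw [hg0]
      exact Subgroup.mul_mem _ (hMn.conj_mem f hfM T) (Subgroup.inv_mem _ hfM)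
    have hQM : Q ≤ Q ⊔ zpowers f := le_sup_left
    have hrel : Q.relIndex (Q ⊔ zpowers f) = 5 := by
      have := Subgroup.relIndex_mul_relIndex ⊥ Q (Q ⊔ zpowers f) bot_le hQM
      rw [Subgroup.relIndex_bot_left, Subgroup.relIndex_bot_left, hQ, hcard] at this
      omega
    have hg05 : g0 ^ 5 ∈ Q := by
      have h1 := Subgroup.pow_index_mem (Q.subgroupOf (Q ⊔ zpowers f))
        (⟨g0, hg0M⟩ : ↥(Q ⊔ zpowers f))
      have h2 : (Q.subgroupOf (Q ⊔ zpowers f)).index = 5 := hrel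
      rw [h2, Subgroup.mem_subgroupOf] at h1
      simpa using h1
    refine ⟨g0 ^ 32, ?_, ?_, ?_⟩
    · have h1 : (⟨g0 ^ 5, hg05⟩ : Q) ^ Nat.card Q = 1 := pow_card_eq_one'
      rw [hQ] at h1
      have h2 := congrArg Subtype.val h1
      simp only [Subgroup.coe_pow, Subgroup.coe_one] at h2
      rw [← pow_mul] at h2 ⊢
      exact h2
    · intro h
      apply hg0Q
      have e : g0 = (g0 ^ 5) ^ 13 := by
        rw [← pow_mul]
        calc g0 = (g0 ^ 32) ^ 2 * g0 := by rw [h, one_pow, one_mul]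
          _ = g0 ^ (5 * 13) := by rw [← pow_mul, ← pow_succ]
      rw [e]
      exact Q.pow_mem hg05 13
    · rw [← conj_pow, hconj, inv_pow]

theorem final {Q Z : Subgroup G} (h : Ctx Q Z) (hQ : Nat.card Q = 32) (hZ : Nat.card Z = 2)
    {T : G} (hT2 : T * T = 1) (hD8 : Nat.card (dsub Q Z h T) = 8)
    (hDc : ∀ y ∈ dsub Q Z h T, T * y = y * T) :
    ∃ A : Subgroup G, A ≤ Q ∧ Cfsg.IsElementaryAbelian 2 A ∧ 4 < Nat.card A := by
  classical
  have hth : ∀ x ∈ Q, (T * x * T⁻¹ * x⁻¹) * (T * x * T⁻¹ * x⁻¹) = 1 := by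
    intro x hx
    have h1 := conj_theta (t := T) (x := x) hT2
    have h2 := hDc _ (theta_mem_dsub h hT2 hx)
    rw [h2] at h1
    have h3 : (T * x * T⁻¹ * x⁻¹) = (T * x * T⁻¹ * x⁻¹)⁻¹ := by
      rw [← h1]; group
    calc (T * x * T⁻¹ * x⁻¹) * (T * x * T⁻¹ * x⁻¹)
        = (T * x * T⁻¹ * x⁻¹) * (T * x * T⁻¹ * x⁻¹)⁻¹ := by rw [← h3]
      _ = 1 := mul_inv_cancel _
  have hDcard : ((dsub Q Z h T : Subgroup G) : Set G).ncard = 8 := by
    rw [← Nat.card_coe_set_eq]; exact hD8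
  have hQcard : (Q : Set G).ncard = 32 := by rw [← Nat.card_coe_set_eq]; exact hQ
  obtain ⟨x1, hx1Q, hx1D⟩ := Set.exists_mem_notMem_of_ncard_lt_ncard
    (s := ((dsub Q Z h T : Subgroup G) : Set G)) (t := (Q : Set G))
    (by rw [hDcard, hQcard]; norm_num) (Set.toFinite _)
  have hScard : (((dsub Q Z h T : Subgroup G) : Set G) ∪
      (fun y => x1⁻¹ * y) '' ((dsub Q Z h T : Subgroup G) : Set G)).ncard ≤ 16 := by
    have e1 := Set.ncard_union_le ((dsub Q Z h T : Subgroup G) : Set G)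
      ((fun y => x1⁻¹ * y) '' ((dsub Q Z h T : Subgroup G) : Set G))
    have e2 := Set.ncard_image_le (f := fun y => x1⁻¹ * y)
      (Set.toFinite ((dsub Q Z h T : Subgroup G) : Set G))
    omega
  obtain ⟨x2, hx2Q, hx2S⟩ := Set.exists_mem_notMem_of_ncard_lt_ncard
    (s := ((dsub Q Z h T : Subgroup G) : Set G) ∪
      (fun y => x1⁻¹ * y) '' ((dsub Q Z h T : Subgroup G) : Set G)) (t := (Q : Set G))
    (by rw [hQcard]; omega) (Set.toFinite _)
  have hx1D' : x1 ∉ dsub Q Z h T := hx1D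
  have hx2D : x2 ∉ dsub Q Z h T := fun hh => hx2S (Or.inl hh)
  have hx12D : x1 * x2 ∉ dsub Q Z h T :=
    fun hh => hx2S (Or.inr ⟨x1 * x2, hh, by group⟩)
  have hx1Q' : x1 ∈ Q := hx1Q
  have hx2Q' : x2 ∈ Q := hx2Q
  obtain ⟨a, ha⟩ : ∃ a, a = T * x1 * T⁻¹ * x1⁻¹ := ⟨_, rfl⟩
  obtain ⟨b, hb⟩ : ∃ b, b = T * x2 * T⁻¹ * x2⁻¹ := ⟨_, rfl⟩
  have haQ : a ∈ Q := by rw [ha]; exact Q.mul_mem (h.qn T x1 hx1Q') (Q.inv_mem hx1Q')
  have hbQ : b ∈ Q := by rw [hb]; exact Q.mul_mem (h.qn T x2 hx2Q') (Q.inv_mem hx2Q')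
  have haa : a * a = 1 := by rw [ha]; exact hth x1 hx1Q'
  have hbb : b * b = 1 := by rw [hb]; exact hth x2 hx2Q'
  have haZ : a ∉ Z := fun hh => hx1D' ((mem_dsub h T x1).mpr ⟨hx1Q', by rw [← ha]; exact hh⟩)
  have hbZ : b ∉ Z := fun hh => hx2D ((mem_dsub h T x2).mpr ⟨hx2Q', by rw [← hb]; exact hh⟩)
  obtain ⟨w, hw⟩ : ∃ w, w = x1 * b * x1⁻¹ * b⁻¹ := ⟨_, rfl⟩
  have hwZ : w ∈ Z := by rw [hw]; exact h.comm x1 hx1Q' b hbQ
  have hc : T * (x1 * x2) * T⁻¹ * (x1 * x2)⁻¹ = w * (a * b) := by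
    have e1 : T * (x1 * x2) * T⁻¹ * (x1 * x2)⁻¹ = a * w * b := by rw [hw, ha, hb]; group
    rw [e1, ← h.cen w hwZ a haQ, mul_assoc]
  have hww : w * w = 1 := mul_self_of_card_two hZ hwZ
  have hab : a * b = b * a := by
    have h1 := hth (x1 * x2) (Q.mul_mem hx1Q' hx2Q')
    rw [hc] at h1
    have hwab : w * (a * b) = (a * b) * w := h.cen w hwZ (a * b) (Q.mul_mem haQ hbQ)
    have h2 : (a * b) * (a * b) = 1 := by
      calc (a * b) * (a * b) = (w * w) * ((a * b) * (a * b)) := by rw [hww, one_mul]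
        _ = w * ((w * (a * b)) * (a * b)) := by simp only [mul_assoc]
        _ = w * (((a * b) * w) * (a * b)) := by rw [hwab]
        _ = w * (a * b) * (w * (a * b)) := by simp only [mul_assoc]
        _ = 1 := h1
    have ha' : a⁻¹ = a := inv_eq_of_mul_eq_one_left haa
    have hb' : b⁻¹ = b := inv_eq_of_mul_eq_one_left hbb
    have h3 : (a * b)⁻¹ = a * b := inv_eq_of_mul_eq_one_left h2
    calc a * b = (a * b)⁻¹ := h3.symm
      _ = b * a := by rw [mul_inv_rev, ha', hb']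
  have habZ : a * b ∉ Z := by
    intro hh
    apply hx12D
    refine (mem_dsub h T (x1 * x2)).mpr ⟨Q.mul_mem hx1Q' hx2Q', ?_⟩
    rw [hc]; exact Z.mul_mem hwZ hh
  obtain ⟨z, hzZ, hz1⟩ : ∃ z ∈ Z, z ≠ 1 := by
    by_contra hcon
    push Not at hcon
    have hbot : Z = ⊥ := (Subgroup.eq_bot_iff_forall Z).mpr hcon
    rw [hbot] at hZ
    simp at hZ
  have hzQ : z ∈ Q := h.hZQ hzZ
  have hza : z * a = a * z := h.cen z hzZ a haQ
  have hzb : z * b = b * z := h.cen z hzZ b hbQ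
  have hzz : z * z = 1 := mul_self_of_card_two hZ hzZ
  have hkcomm : ∀ x ∈ ({z, a, b} : Set G), ∀ y ∈ ({z, a, b} : Set G), x * y = y * x := by
    intro x hx y hy
    simp only [Set.mem_insert_iff, Set.mem_singleton_iff] at hx hy
    rcases hx with hx | hx | hx <;> rcases hy with hy | hy | hy <;>
      (rw [hx, hy]; first | done | exact hza | exact hzb | exact hab | exact hza.symm | exact hzb.symm | exact hab.symm)
  have hEQ : Subgroup.closure ({z, a, b} : Set G) ≤ Q := by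
    rw [Subgroup.closure_le]
    intro x hx
    simp only [Set.mem_insert_iff, Set.mem_singleton_iff] at hx
    rcases hx with hx | hx | hx
    · rw [hx]; exact hzQ
    · rw [hx]; exact haQ
    · rw [hx]; exact hbQ
  have hEcomm : ∀ x ∈ Subgroup.closure ({z, a, b} : Set G),
      ∀ y ∈ Subgroup.closure ({z, a, b} : Set G), x * y = y * x := by
    intro x hx y hy
    letI := Subgroup.closureCommGroupOfComm hkcomm
    have h1 := mul_comm (⟨x, hx⟩ : ↥(Subgroup.closure ({z, a, b} : Set G))) ⟨y, hy⟩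
    exact congrArg Subtype.val h1
  have hEsq : ∀ x ∈ Subgroup.closure ({z, a, b} : Set G), x * x = 1 := by
    intro x hx
    induction hx using Subgroup.closure_induction with
    | mem y hy =>
      simp only [Set.mem_insert_iff, Set.mem_singleton_iff] at hy
      rcases hy with hy | hy | hy
      · rw [hy]; exact hzz
      · rw [hy]; exact haa
      · rw [hy]; exact hbb
    | one => simp
    | mul u v hu hv iu iv =>
      have h1 := hEcomm u hu v hv
      calc u * v * (u * v) = u * (v * u) * v := by simp only [mul_assoc]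
        _ = u * (u * v) * v := by rw [h1]
        _ = (u * u) * (v * v) := by simp only [mul_assoc]
        _ = 1 := by rw [iu, iv, one_mul]
    | inv u hu iu =>
      have h1 : u⁻¹ = u := inv_eq_of_mul_eq_one_left iu
      rw [h1]; exact iu
  have hEel : Cfsg.IsElementaryAbelian 2 (Subgroup.closure ({z, a, b} : Set G)) := by
    refine ⟨⟨⟨fun x y => Subtype.ext (hEcomm x x.2 y y.2)⟩⟩, fun x hx => ?_⟩
    rw [pow_two]; exact hEsq x hx
  have hzE : z ∈ Subgroup.closure ({z, a, b} : Set G) := Subgroup.subset_closure (by simp)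
  have haE : a ∈ Subgroup.closure ({z, a, b} : Set G) := Subgroup.subset_closure (by simp)
  have hbE : b ∈ Subgroup.closure ({z, a, b} : Set G) := Subgroup.subset_closure (by simp)
  have h5 : 5 ≤ Nat.card ↥(Subgroup.closure ({z, a, b} : Set G)) := by
    have hsub : (({1, z, a, a * z, b} : Finset G) : Set G)
        ⊆ ((Subgroup.closure ({z, a, b} : Set G) : Subgroup G) : Set G) := by
      intro x hx
      simp only [Finset.coe_insert, Finset.coe_singleton, Set.mem_insert_iff,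
        Set.mem_singleton_iff] at hx
      rcases hx with hx | hx | hx | hx | hx
      · rw [hx]; exact Subgroup.one_mem _
      · rw [hx]; exact hzE
      · rw [hx]; exact haE
      · rw [hx]; exact Subgroup.mul_mem _ haE hzE
      · rw [hx]; exact hbE
    have hcard : ({1, z, a, a * z, b} : Finset G).card = 5 := by
      have n1 : (1 : G) ≠ z := fun hh => hz1 hh.symm
      have n2 : (1 : G) ≠ a := fun hh => haZ (hh ▸ Z.one_mem)
      have n3 : (1 : G) ≠ a * z := fun hh => haZ (by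
        have e : a = z⁻¹ := eq_inv_of_mul_eq_one_left hh.symm
        rw [e]; exact Z.inv_mem hzZ)
      have n4 : (1 : G) ≠ b := fun hh => hbZ (hh ▸ Z.one_mem)
      have n5 : z ≠ a := fun hh => haZ (hh ▸ hzZ)
      have n6 : z ≠ a * z := fun hh => haZ (by
        have e : a = 1 := by
          have e2 := congrArg (· * z⁻¹) hh
          simp only [mul_inv_cancel, mul_inv_cancel_right] at e2
          exact e2.symm
        rw [e]; exact Z.one_mem)
      have n7 : z ≠ b := fun hh => hbZ (hh ▸ hzZ)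
      have n8 : a ≠ a * z := fun hh => hz1 (by
        have e2 := congrArg (a⁻¹ * ·) hh
        simp only [inv_mul_cancel, inv_mul_cancel_left] at e2
        exact e2.symm)
      have n9 : a ≠ b := fun hh => habZ (by rw [← hh, haa]; exact Z.one_mem)
      have n10 : a * z ≠ b := fun hh => habZ (by
        rw [← hh, ← mul_assoc, haa, one_mul]; exact hzZ)
      have m4 : a * z ∉ ({b} : Finset G) := by
        simp only [Finset.mem_singleton]; exact n10
      have m3 : a ∉ ({a * z, b} : Finset G) := by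
        simp only [Finset.mem_insert, Finset.mem_singleton, not_or]; exact ⟨n8, n9⟩
      have m2 : z ∉ ({a, a * z, b} : Finset G) := by
        simp only [Finset.mem_insert, Finset.mem_singleton, not_or]; exact ⟨n5, n6, n7⟩
      have m1 : (1 : G) ∉ ({z, a, a * z, b} : Finset G) := by
        simp only [Finset.mem_insert, Finset.mem_singleton, not_or]; exact ⟨n1, n2, n3, n4⟩
      rw [Finset.card_insert_of_notMem m1, Finset.card_insert_of_notMem m2,
        Finset.card_insert_of_notMem m3, Finset.card_insert_of_notMem m4, Finset.card_singleton]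
    calc 5 = ({1, z, a, a * z, b} : Finset G).card := hcard.symm
      _ = (({1, z, a, a * z, b} : Finset G) : Set G).ncard := (Set.ncard_coe_finset _).symm
      _ ≤ ((Subgroup.closure ({z, a, b} : Set G) : Subgroup G) : Set G).ncard :=
        Set.ncard_le_ncard hsub (Set.toFinite _)
      _ = Nat.card ↥(Subgroup.closure ({z, a, b} : Set G)) := by
        rw [← Nat.card_coe_set_eq]; rfl
  exact ⟨_, hEQ, hEel, by omega⟩

theorem main' (Q : Subgroup G) (hQp : Q = Cfsg.pCore 2 G)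
    (hG : Nat.card G = 320) (hHF : Q = Cfsg.fittingSubgroup G)
    (hex : Cfsg.IsExtraspecial 2 ↥Q) (h32 : Nat.card ↥Q = 32)
    (hminus : ∀ A : Subgroup G, A ≤ Q → Cfsg.IsElementaryAbelian 2 A → Nat.card ↥A ≤ 4)
    (T : G) (hT : orderOf T = 2) (hTH : T ∉ Q)
    (V : Subgroup G) (hV : V ≤ Q ⊓ Subgroup.centralizer ({T} : Set G)) (hV4 : Nat.card ↥V = 4)
    (hVe : Cfsg.IsElementaryAbelian 2 V) :
    Nat.card ↥(Q ⊓ Subgroup.centralizer ({T} : Set G)) = 4 ∧
      Cfsg.IsElementaryAbelian 2 (Q ⊓ Subgroup.centralizer ({T} : Set G)) := by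
  haveI : Fact (Nat.Prime 2) := ⟨Nat.prime_two⟩
  haveI hQn : Q.Normal := hQp ▸ Helper16.pCore_normal 2 G
  have hQ2 : IsPGroup 2 Q := IsPGroup.of_card (n := 5) (by rw [h32]; rfl)
  obtain ⟨Z, hZdef⟩ : ∃ Z, Z = Q ⊓ centralizer (Q : Set G) := ⟨_, rfl⟩
  have hZQ : Z ≤ Q := hZdef ▸ inf_le_left
  have hcenter : ∀ c : Q, c ∈ Subgroup.center Q → (c : G) ∈ Z := by
    intro c hc
    rw [hZdef, Subgroup.mem_inf]
    refine ⟨c.2, ?_⟩
    rw [Subgroup.mem_centralizer_iff]
    intro q hq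
    have := (Subgroup.mem_center_iff.mp hc) ⟨q, hq⟩
    exact congrArg Subtype.val this
  have hZcard : Nat.card Z = 2 := by
    have h1 : Z.subgroupOf Q = Subgroup.center Q := by
      ext x
      rw [Subgroup.mem_subgroupOf, Subgroup.mem_center_iff]
      constructor
      · intro hx q
        rw [hZdef, Subgroup.mem_inf] at hx
        exact Subtype.ext ((Subgroup.mem_centralizer_iff.mp hx.2) q q.2)
      · intro hx
        exact hcenter x (Subgroup.mem_center_iff.mpr hx)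
    have h2 : Nat.card ↥(Z.subgroupOf Q) = Nat.card Z :=
      Nat.card_congr (Subgroup.subgroupOfEquivOfLe hZQ).toEquiv
    rw [← h2, h1]; exact hex.2
  have hctx : Ctx Q Z := by
    refine ⟨hZQ, ?_, ?_, ?_, ?_, ?_⟩
    · intro w hw x hx
      rw [hZdef, Subgroup.mem_inf] at hw
      exact ((Subgroup.mem_centralizer_iff.mp hw.2) x hx).symm
    · intro x hx y hy
      have h1 : ⁅(⟨x, hx⟩ : Q), ⟨y, hy⟩⁆ ∈ commutator Q := by
        rw [_root_.commutator_def]
        exact Subgroup.commutator_mem_commutator (Subgroup.mem_top _) (Subgroup.mem_top _)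
      rw [hex.1.2.2] at h1
      have h2 := hcenter _ h1
      simpa [commutatorElement_def] using h2
    · intro x hx
      have h1 := (Cfsg.Agent.S0012.result 2 hQ2).2 ⟨x, hx⟩
      rw [hex.1.2.1] at h1
      have h2 := hcenter _ h1
      simpa [pow_two] using h2
    · intro g w hw
      rw [hZdef, Subgroup.mem_inf] at hw ⊢
      exact ⟨hQn.conj_mem w hw.1 g,
        (inferInstance : (centralizer (Q : Set G)).Normal).conj_mem w hw.2 g⟩
    · intro g x hx
      exact hQn.conj_mem x hx g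
  have hZc : ∀ x : G, ∀ w ∈ Z, x * w * x⁻¹ = w :=
    fun x w hw => conj_eq_of_card_two hZcard hctx.zn x hw
  have hT2 : T * T = 1 := by rw [← pow_two, ← hT]; exact pow_orderOf_eq_one T
  obtain ⟨g, hg5, hg1, hTg⟩ := exists_g hG Q h32 hQp hT hTH
  have hfpf := hfpf_of hG Q h32 hHF hZQ hZcard hZc hg5 hg1
  have hD8 := card_dsub_le hctx h32 hZcard hTg hfpf
  have hCD : Q ⊓ centralizer ({T} : Set G) ≤ dsub Q Z hctx T := by
    intro y hy
    rw [Subgroup.mem_inf] at hy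
    refine (mem_dsub hctx T y).mpr ⟨hy.1, ?_⟩
    have h1 : T * y = y * T := (Subgroup.mem_centralizer_iff.mp hy.2) T (Set.mem_singleton T)
    have e : T * y * T⁻¹ * y⁻¹ = 1 := by rw [h1]; group
    rw [e]; exact Z.one_mem
  have h4 : 4 ∣ Nat.card ↥(Q ⊓ centralizer ({T} : Set G)) := hV4 ▸ Subgroup.card_dvd_of_le hV
  have hC32 : Nat.card ↥(Q ⊓ centralizer ({T} : Set G)) ∣ 32 :=
    h32 ▸ Subgroup.card_dvd_of_le (inf_le_left : Q ⊓ centralizer ({T} : Set G) ≤ Q)
  have hCle : Nat.card ↥(Q ⊓ centralizer ({T} : Set G)) ≤ 8 :=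
    (Subgroup.card_le_of_le hCD).trans hD8
  have hC48 : Nat.card ↥(Q ⊓ centralizer ({T} : Set G)) = 4 ∨
      Nat.card ↥(Q ⊓ centralizer ({T} : Set G)) = 8 := by
    obtain ⟨m, hm, hmC⟩ := (Nat.dvd_prime_pow Nat.prime_two).mp
      (show Nat.card ↥(Q ⊓ centralizer ({T} : Set G)) ∣ 2 ^ 5 from hC32)
    rw [hmC] at h4 hCle ⊢
    interval_cases m
    · exact absurd h4 (by decide)
    · exact absurd h4 (by decide)
    · left; rfl
    · right; rfl
    · exact absurd hCle (by decide)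
    · exact absurd hCle (by decide)
  rcases hC48 with h | h
  · have hVC : V = Q ⊓ centralizer ({T} : Set G) :=
      Subgroup.eq_of_le_of_card_ge hV (by rw [h, hV4])
    exact ⟨h, hVC ▸ hVe⟩
  · exfalso
    have hCD' : Q ⊓ centralizer ({T} : Set G) = dsub Q Z hctx T :=
      Subgroup.eq_of_le_of_card_ge hCD (by rw [h]; exact hD8)
    have hD8' : Nat.card (dsub Q Z hctx T) = 8 := by rw [← hCD']; exact h
    have hDc : ∀ y ∈ dsub Q Z hctx T, T * y = y * T := by
      intro y hy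
      rw [← hCD', Subgroup.mem_inf] at hy
      exact (Subgroup.mem_centralizer_iff.mp hy.2) T (Set.mem_singleton T)
    obtain ⟨A, hAQ, hAe, hA4⟩ := final hctx h32 hZcard hT2 hD8' hDc
    have := hminus A hAQ hAe
    omega

theorem main
    (hG : Nat.card G = 320) (hHF : Cfsg.pCore 2 G = Cfsg.fittingSubgroup G)
    (hex : Cfsg.IsExtraspecial 2 ↥(Cfsg.pCore 2 G)) (h32 : Nat.card ↥(Cfsg.pCore 2 G) = 32)
    (hminus : ∀ A : Subgroup G, A ≤ Cfsg.pCore 2 G → Cfsg.IsElementaryAbelian 2 A →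
      Nat.card ↥A ≤ 4)
    (T : G) (hT : orderOf T = 2) (hTH : T ∉ Cfsg.pCore 2 G)
    (V : Subgroup G) (hV : V ≤ Cfsg.pCore 2 G ⊓ Subgroup.centralizer ({T} : Set G))
    (hV4 : Nat.card ↥V = 4) (hVe : Cfsg.IsElementaryAbelian 2 V) :
    Nat.card ↥(Cfsg.pCore 2 G ⊓ Subgroup.centralizer ({T} : Set G)) = 4 ∧
      Cfsg.IsElementaryAbelian 2 (Cfsg.pCore 2 G ⊓ Subgroup.centralizer ({T} : Set G)) :=
  main' (Cfsg.pCore 2 G) rfl hG hHF hex h32 hminus T hT hTH V hV hV4 hVe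

end Main


end Cfsg.Agent.Helper17.Ex32
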