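import Mathlib
import Cfsg.Agent.Helper17.Chen

set_option autoImplicit false
set_option maxHeartbeats 1600000

namespace Cfsg.Agent.Helper17.Ito
open Subgroup Cfsg.Agent.Helper17.Chen

/-- counting for an action all of whose stabilizers are equal -/
theorem ito_orbit_dvd {H Y : Type*} [Group H] [Finite H] [MulAction H Y] [Finite Y]
    (K : Subgroup H) (hK : ∀ y : Y, MulAction.stabilizer H y = K) :
    K.index ∣ Nat.card Y := by
  classical
  haveI : Fintype (MulAction.orbitRel.Quotient H Y) := Fintype.ofFinite _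
  rw [Nat.card_congr (MulAction.selfEquivSigmaOrbits H Y), Nat.card_sigma]
  apply Finset.dvd_sum
  intro ω _
  have h1 := MulAction.index_stabilizer H (Quotient.out ω)
  rw [hK] at h1
  rw [h1, Nat.card_coe_set_eq]

theorem ito_orbit_dvd_set {H X : Type*} [Group H] [Finite H] [MulAction H X] (S : Set X)
    [Finite S] (hS : ∀ (h : H), ∀ x ∈ S, h • x ∈ S)
    (K : Subgroup H) (hK : ∀ x ∈ S, MulAction.stabilizer H x = K) :
    K.index ∣ S.ncard := by
  let S' : SubMulAction H X := ⟨S, fun h {x} hx => hS h x hx⟩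
  haveI : Finite S' := (inferInstance : Finite S)
  have h1 := ito_orbit_dvd (H := H) (Y := S') K (fun y => by
    rw [SubMulAction.stabilizer_of_subMul]; exact hK y y.2)
  have h2 : Nat.card S' = S.ncard := Nat.card_coe_set_eq S
  rwa [h2] at h1

theorem ito_eq_of_le {G : Type*} [Group G] [Finite G] {H K : Subgroup G} (h : H ≤ K)
    (hi : H.index = K.index) : H = K := by
  apply le_antisymm h
  rw [← relIndex_eq_one]
  have h1 := relIndex_mul_index h
  rw [hi] at h1
  have h2 : K.index ≠ 0 := index_ne_zero_of_finite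
  have : H.relIndex K * K.index = 1 * K.index := by rw [h1, one_mul]
  exact Nat.eq_of_mul_eq_mul_right (Nat.pos_of_ne_zero h2) this

theorem ito_aux1 {G : Type*} [Group G] (v h g : G)
    (hh : (v * h)⁻¹ * h * g = g * ((v * h)⁻¹ * h)) :
    v * (h * g * h⁻¹) = (h * g * h⁻¹) * v := by
  have h1 : v⁻¹ * (h * g * h⁻¹) = (h * g * h⁻¹) * v⁻¹ := by
    calc v⁻¹ * (h * g * h⁻¹) = h * ((v * h)⁻¹ * h * g) * h⁻¹ := by group
      _ = h * (g * ((v * h)⁻¹ * h)) * h⁻¹ := by rw [hh]
      _ = (h * g * h⁻¹) * v⁻¹ := by group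
  have h2 : Commute v⁻¹ (h * g * h⁻¹) := h1
  exact (Commute.inv_left_iff.mp h2).eq

theorem ito_aux2 {G : Type*} [Group G] (v h g : G) (hz : v ∈ center G) :
    (v * h)⁻¹ * h * g = g * ((v * h)⁻¹ * h) := by
  have hvc := mem_center_iff.mp hz
  have e : (v * h)⁻¹ * h = v⁻¹ := by
    rw [← hvc h, mul_inv_rev, inv_mul_cancel_right]
  rw [e]
  have : Commute v g := (hvc g).symm
  exact this.inv_left.eq

section
variable {G : Type*} [Group G] [Finite G]

theorem ito_fact1 (N : Subgroup G) (m : ℕ)
    (hm : ∀ x ∈ N, cs x = 1 ∨ cs x = m)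
    {x v : G} (hx : x ∈ N) (hxZ : x ∉ center G) (hv : v ∈ N) (hc : Commute x v)
    (hcop : (orderOf x).Coprime (orderOf v)) :
    centralizer ({x} : Set G) ≤ centralizer ({v} : Set G) := by
  obtain ⟨j, hj⟩ := exists_pow_eq_self_of_coprime (x := x) (n := orderOf v) hcop.symm
  have hxv : (x * v) ^ orderOf v = x ^ orderOf v := by
    rw [hc.mul_pow, pow_orderOf_eq_one, mul_one]
  have hxpow : ((x * v) ^ orderOf v) ^ j = x := by rw [hxv, hj]
  have hle : centralizer ({x * v} : Set G) ≤ centralizer ({x} : Set G) := by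
    intro c hc'
    rw [mem_centralizer_singleton_iff] at hc' ⊢
    have h1 : Commute c (x * v) := hc'
    have h2 : Commute c (((x * v) ^ orderOf v) ^ j) := (h1.pow_right _).pow_right _
    rw [hxpow] at h2
    exact h2.eq
  have hxvZ : x * v ∉ center G := by
    intro hz
    apply hxZ
    rw [← hxpow]
    exact pow_mem (pow_mem hz _) _
  have hcs1 : cs (x * v) = m := by
    rcases hm _ (N.mul_mem hx hv) with h | h
    · exact absurd ((cs_eq_one_iff _).mp h) hxvZ
    · exact h
  have hcs2 : cs x = m := by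
    rcases hm _ hx with h | h
    · exact absurd ((cs_eq_one_iff _).mp h) hxZ
    · exact h
  have heq : centralizer ({x * v} : Set G) = centralizer ({x} : Set G) :=
    ito_eq_of_le hle (hcs1.trans hcs2.symm)
  intro c hc'
  have h1 : c ∈ centralizer ({x * v} : Set G) := heq ▸ hc'
  rw [mem_centralizer_singleton_iff] at hc' h1 ⊢
  have k1 : Commute c x := hc'
  have k2 : Commute c (x * v) := h1
  have k3 : Commute c (x⁻¹ * (x * v)) := k1.inv_right.mul_right k2
  rw [inv_mul_cancel_left] at k3
  exact k3.eq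


theorem ito_main (N : Subgroup G) [hN : N.Normal] (m : ℕ)
    (hm : ∀ x ∈ N, cs x = 1 ∨ cs x = m)
    (r : ℕ) [hr : Fact r.Prime]
    (hrN : ∀ x : G, (∃ k : ℕ, x ^ r ^ k = 1) → x ∈ N)
    (x₀ : G) (hx₀r : ∃ k : ℕ, x₀ ^ r ^ k = 1) (hx₀ : x₀ ∉ center G) :
    (∀ v ∈ N, (orderOf v).Coprime r → v ∈ center G) ∨
    ∃ D : Subgroup G, D ≤ N ∧ (∀ a ∈ D, ∀ b ∈ D, a * b = b * a) ∧
      (∀ n ∈ N, ∃ h : G, h⁻¹ * n * h ∈ D) ∧
      (∀ n ∈ N, n ∉ center G → ∃ h : G, ∀ u ∈ N, (u * n = n * u ↔ h⁻¹ * u * h ∈ D)) := by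
  by_cases hA : ∀ v ∈ N, (orderOf v).Coprime r → v ∈ center G
  · exact Or.inl hA
  right
  push Not at hA
  obtain ⟨y, hyN, hyr, hyZ⟩ := hA
  have hcsN : ∀ x ∈ N, x ∉ center G → cs x = m := by
    intro x hx hxZ
    rcases hm x hx with h | h
    · exact absurd ((cs_eq_one_iff _).mp h) hxZ
    · exact h
  have hx₀N : x₀ ∈ N := hrN x₀ hx₀r
  -- B1
  obtain ⟨w, hwr, hwZ, hwy⟩ :
      ∃ w : G, (∃ k : ℕ, w ^ r ^ k = 1) ∧ w ∉ center G ∧ Commute w y := by
    by_contra hcon
    push Not at hcon
    have hcard : Nat.card (centralizer ({y} : Set G)) = Nat.card (centralizer ({x₀} : Set G)) := by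
      have h1 := Subgroup.card_mul_index (centralizer ({y} : Set G))
      have h2 := Subgroup.card_mul_index (centralizer ({x₀} : Set G))
      have h3 : (centralizer ({y} : Set G)).index = m := hcsN y hyN hyZ
      have h4 : (centralizer ({x₀} : Set G)).index = m := hcsN x₀ hx₀N hx₀
      have hm0 : 0 < m := by rw [← h3]; exact Nat.pos_of_ne_zero index_ne_zero_of_finite
      rw [h3] at h1; rw [h4] at h2
      exact Nat.eq_of_mul_eq_mul_right hm0 (h1.trans h2.symm)
    obtain ⟨T⟩ : Nonempty (Sylow r (centralizer ({y} : Set G))) := inferInstance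
    obtain ⟨T', hT'⟩ : ∃ T' : Subgroup G,
        T' = (T : Subgroup (centralizer ({y} : Set G))).map (centralizer ({y} : Set G)).subtype :=
      ⟨_, rfl⟩
    have hT'p : IsPGroup r T' := by rw [hT']; exact T.isPGroup'.map _
    have hT'card : Nat.card T' = r ^ (Nat.card (centralizer ({y} : Set G))).factorization r := by
      rw [hT', Subgroup.card_map_of_injective (Subgroup.subtype_injective _)]
      exact T.card_eq_multiplicity
    have hT'Cy : T' ≤ centralizer ({y} : Set G) := by rw [hT']; exact Subgroup.map_subtype_le _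
    have hT'Z : T' ≤ center G := by
      intro t ht
      by_contra htZ
      obtain ⟨k, hk⟩ := hT'p ⟨t, ht⟩
      have hk' : t ^ r ^ k = 1 := by simpa using congrArg Subtype.val hk
      have htc := hT'Cy ht
      rw [mem_centralizer_singleton_iff] at htc
      exact hcon t ⟨k, hk'⟩ htZ htc
    have hzp : IsPGroup r (zpowers x₀) := by
      obtain ⟨k, hk⟩ := hx₀r
      rintro ⟨g, hg⟩
      obtain ⟨i, rfl⟩ := Subgroup.mem_zpowers_iff.mp hg
      refine ⟨k, ?_⟩
      apply Subtype.ext
      simp only [Subgroup.coe_pow, Subgroup.coe_one]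
      rw [← zpow_natCast, ← zpow_mul, mul_comm, zpow_mul, zpow_natCast, hk, one_zpow]
    have hUp : IsPGroup r (T' ⊔ zpowers x₀ : Subgroup G) := by
      apply IsPGroup.to_sup_of_normal_left' hT'p hzp
      intro g _
      rw [Subgroup.mem_normalizer_iff]
      intro n
      constructor
      · intro hn
        have h1 := (mem_center_iff.mp (hT'Z hn)) g
        have : g * n * g⁻¹ = n := by rw [h1]; group
        rw [this]; exact hn
      · intro hn
        have h1 := (mem_center_iff.mp (hT'Z hn)) g⁻¹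
        have h2 : g⁻¹ * (g * n * g⁻¹) = n * g⁻¹ := by group
        rw [h2] at h1
        have : n = g * n * g⁻¹ := mul_right_cancel h1
        rw [this]; exact hn
    have hUle : T' ⊔ zpowers x₀ ≤ centralizer ({x₀} : Set G) := by
      apply sup_le
      · intro t ht
        rw [mem_centralizer_singleton_iff]
        exact (mem_center_iff.mp (hT'Z ht) x₀).symm
      · rw [zpowers_le, mem_centralizer_singleton_iff]
    have hlt : Nat.card T' < Nat.card (T' ⊔ zpowers x₀ : Subgroup G) := by
      by_contra hle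
      push Not at hle
      have heq := Subgroup.eq_of_le_of_card_ge (le_sup_left : T' ≤ T' ⊔ zpowers x₀) hle
      apply hx₀
      apply hT'Z
      rw [heq]
      exact (le_sup_right : zpowers x₀ ≤ T' ⊔ zpowers x₀) (mem_zpowers x₀)
    obtain ⟨j, hj⟩ := IsPGroup.iff_card.mp hUp
    have hdvd : r ^ j ∣ Nat.card (centralizer ({y} : Set G)) := by
      rw [hcard, ← hj]; exact Subgroup.card_dvd_of_le hUle
    have hjle : j ≤ (Nat.card (centralizer ({y} : Set G))).factorization r :=
      (hr.out.pow_dvd_iff_le_factorization (Nat.card_pos.ne')).mp hdvd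
    rw [hj, hT'card] at hlt
    exact absurd (Nat.pow_le_pow_right hr.out.pos hjle) (not_le.mpr hlt)
  have hwN : w ∈ N := hrN w hwr
  obtain ⟨kw, hkw⟩ := hwr
  have howr : orderOf w ∣ r ^ kw := orderOf_dvd_of_pow_eq_one hkw
  have hcop_wy : (orderOf w).Coprime (orderOf y) :=
    Nat.Coprime.coprime_dvd_left howr (Nat.Coprime.pow_left kw hyr.symm)
  have hCwy : centralizer ({w} : Set G) ≤ centralizer ({y} : Set G) :=
    ito_fact1 N m hm hwN hwZ hyN hwy hcop_wy
  have hCyw : centralizer ({y} : Set G) ≤ centralizer ({w} : Set G) :=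
    ito_fact1 N m hm hyN hyZ hwN hwy.symm hcop_wy.symm
  have hCeq : centralizer ({y} : Set G) = centralizer ({w} : Set G) := le_antisymm hCyw hCwy
  obtain ⟨C, hC⟩ : ∃ C : Subgroup G, C = centralizer ({w} : Set G) := ⟨_, rfl⟩
  have hCmem : ∀ c : G, c ∈ C ↔ c * w = w * c := by
    intro c; rw [hC, mem_centralizer_singleton_iff]
  have hCy : ∀ c ∈ C, c * y = y * c := by
    intro c hc
    rw [hC] at hc
    have := hCwy hc
    rwa [mem_centralizer_singleton_iff] at this
  have hcsw : cs w = m := hcsN w hwN hwZ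
  have hF1 : ∀ v ∈ C, v ∈ N → ∀ c ∈ C, c * v = v * c := by
    intro v hvC hvN c hc
    obtain ⟨e, t, ht, hn⟩ :=
      Nat.exists_eq_pow_mul_and_not_dvd (orderOf_pos v).ne' r hr.out.ne_one
    have hrt : Nat.Coprime r t := (Nat.Prime.coprime_iff_not_dvd hr.out).mpr ht
    have h1 : (v ^ r ^ e) ^ t = 1 := by rw [← pow_mul, ← hn, pow_orderOf_eq_one]
    have h2 : (v ^ t) ^ r ^ e = 1 := by rw [← pow_mul, mul_comm, ← hn, pow_orderOf_eq_one]
    have ho1 : orderOf (v ^ r ^ e) ∣ t := orderOf_dvd_of_pow_eq_one h1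
    have ho2 : orderOf (v ^ t) ∣ r ^ e := orderOf_dvd_of_pow_eq_one h2
    have hwv : Commute w v := ((hCmem v).mp hvC).symm
    have hyv : Commute y v := (hCy v hvC).symm
    have hc1 : centralizer ({w} : Set G) ≤ centralizer ({v ^ r ^ e} : Set G) :=
      ito_fact1 N m hm hwN hwZ (N.pow_mem hvN _) (hwv.pow_right _)
        (Nat.Coprime.coprime_dvd_left howr
          (Nat.Coprime.coprime_dvd_right ho1 (Nat.Coprime.pow_left kw hrt)))
    have hc2 : centralizer ({y} : Set G) ≤ centralizer ({v ^ t} : Set G) :=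
      ito_fact1 N m hm hyN hyZ (N.pow_mem hvN _) (hyv.pow_right _)
        (Nat.Coprime.coprime_dvd_right ho2 (Nat.Coprime.pow_right e hyr))
    have hcw : c ∈ centralizer ({w} : Set G) := hC ▸ hc
    have hcy : c ∈ centralizer ({y} : Set G) := hCeq ▸ hcw
    have k1 := hc1 hcw
    have k2 := hc2 hcy
    rw [mem_centralizer_singleton_iff] at k1 k2
    have hb := Nat.gcd_eq_gcd_ab (r ^ e) t
    have hg : Nat.gcd (r ^ e) t = 1 := Nat.Coprime.pow_left e hrt
    rw [hg] at hb
    have hv : v = (v ^ r ^ e) ^ (Nat.gcdA (r ^ e) t) * (v ^ t) ^ (Nat.gcdB (r ^ e) t) := by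
      rw [← zpow_natCast, ← zpow_natCast v t, ← zpow_mul, ← zpow_mul, ← zpow_add, ← hb]
      simp
    have K1 : Commute c (v ^ r ^ e) := k1
    have K2 : Commute c (v ^ t) := k2
    have K3 := (K1.zpow_right (Nat.gcdA (r ^ e) t)).mul_right (K2.zpow_right (Nat.gcdB (r ^ e) t))
    rw [← hv] at K3
    exact K3.eq
  have hF2 : ∀ v ∈ C, v ∈ N → v ∉ center G → centralizer ({v} : Set G) = C := by
    intro v hvC hvN hvZ
    symm
    apply ito_eq_of_le
    · intro c hc
      rw [mem_centralizer_singleton_iff]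
      exact hF1 v hvC hvN c hc
    · have h1 : cs v = m := hcsN v hvN hvZ
      have h2 : C.index = m := by rw [hC]; exact hcsw
      exact h2.trans h1.symm
  obtain ⟨D, hD⟩ : ∃ D : Subgroup G, D = C ⊓ N := ⟨_, rfl⟩
  have hDC : D ≤ C := hD ▸ inf_le_left
  have hDN : D ≤ N := hD ▸ inf_le_right
  have hDab : ∀ a ∈ D, ∀ b ∈ D, a * b = b * a := fun a ha b hb =>
    hF1 b (hDC hb) (hDN hb) a (hDC ha)
  have hZD : ∀ n ∈ N, n ∈ center G → n ∈ D := by
    intro n hn hz
    rw [hD]
    exact ⟨(hCmem n).mpr (mem_center_iff.mp hz w).symm, hn⟩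
  have hwD : w ∈ D := by rw [hD]; exact ⟨(hCmem w).mpr rfl, hwN⟩
  have hyD : y ∈ D := by rw [hD]; exact ⟨(hCmem y).mpr hwy.eq.symm, hyN⟩
  have key : ∀ g ∈ N, g ∉ center G → ∃ h : G, h⁻¹ * g * h ∈ D := by
    intro g hgN hgZ
    by_contra hcon
    push Not at hcon
    obtain ⟨M, hM⟩ : ∃ M : Subgroup G, M = normalizer (C : Set G) := ⟨_, rfl⟩
    have hCM : C ≤ M := hM ▸ le_normalizer
    have hMmem : ∀ h : G, h ∈ M ↔ ∀ c : G, c ∈ C ↔ h * c * h⁻¹ ∈ C := by
      intro h; rw [hM, mem_normalizer_iff]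
    have hgconj : ∀ h : G, h * g * h⁻¹ ∉ D := by
      intro h; have := hcon h⁻¹; rwa [inv_inv] at this
    have hstab1 : ∀ v ∈ D, ∀ h : G,
        v * (h * g * h⁻¹) = (h * g * h⁻¹) * v → v ∈ center G := by
      intro v hv h hcomm
      by_contra hvZ
      have h1 := hF2 v (hDC hv) (hDN hv) hvZ
      apply hgconj h
      rw [hD]
      apply Subgroup.mem_inf.mpr
      refine ⟨?_, hN.conj_mem g hgN h⟩
      rw [← h1, mem_centralizer_singleton_iff]
      exact hcomm.symm
    have hstab2 : ∀ v ∈ D, ∀ h : G, h ∉ M →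
        v * (h * w * h⁻¹) = (h * w * h⁻¹) * v → v ∈ center G := by
      intro v hv h hhM hcomm
      by_contra hvZ
      have h1 := hF2 v (hDC hv) (hDN hv) hvZ
      have hw'C : h * w * h⁻¹ ∈ C := by
        rw [← h1, mem_centralizer_singleton_iff]; exact hcomm.symm
      have hw'N : h * w * h⁻¹ ∈ N := hN.conj_mem w hwN h
      have hw'Z : h * w * h⁻¹ ∉ center G := by
        intro hz
        apply hwZ
        have h2 := (inferInstance : (center G).Normal).conj_mem _ hz h⁻¹
        simpa [mul_assoc] using h2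
      have h2 := hF2 _ hw'C hw'N hw'Z
      apply hhM
      rw [hMmem]
      intro c
      rw [hCmem c]
      constructor
      · intro hc
        rw [← h2, mem_centralizer_singleton_iff]
        calc h * c * h⁻¹ * (h * w * h⁻¹) = h * (c * w) * h⁻¹ := by group
          _ = h * (w * c) * h⁻¹ := by rw [hc]
          _ = h * w * h⁻¹ * (h * c * h⁻¹) := by group
      · intro hc
        rw [← h2, mem_centralizer_singleton_iff] at hc
        have : h * (c * w) * h⁻¹ = h * (w * c) * h⁻¹ := by
          calc h * (c * w) * h⁻¹ = h * c * h⁻¹ * (h * w * h⁻¹) := by group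
            _ = h * w * h⁻¹ * (h * c * h⁻¹) := hc
            _ = h * (w * c) * h⁻¹ := by group
        exact mul_left_cancel (mul_right_cancel this)
    obtain ⟨q, hq⟩ : ∃ q : ℕ, q = C.relIndex M := ⟨_, rfl⟩
    have hCidx : C.index = m := by rw [hC]; exact hcsw
    have hqm : q * M.index = m := by rw [hq, relIndex_mul_index hCM, hCidx]
    have hm0 : 0 < m := by rw [← hCidx]; exact Nat.pos_of_ne_zero index_ne_zero_of_finite
    have hcardG : Nat.card G = Nat.card C * m := by rw [← hCidx, Subgroup.card_mul_index]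
    have hcardM : Nat.card M = Nat.card C * q := by
      have h1 := Subgroup.card_mul_index M
      have hMi : 0 < M.index := Nat.pos_of_ne_zero index_ne_zero_of_finite
      have : Nat.card M * M.index = Nat.card C * q * M.index := by
        rw [h1, hcardG, ← hqm]; ring
      exact Nat.eq_of_mul_eq_mul_right hMi this
    have hQ : ∀ E : Subgroup G, E ≤ D → ((E ⊓ center G).subgroupOf E).index ∣ q := by
      intro E hED
      have c1 : ((E ⊓ center G).subgroupOf E).index ∣ m := by
        have h0 := ito_orbit_dvd (H := E) (Y := G ⧸ centralizer ({g} : Set G))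
          ((E ⊓ center G).subgroupOf E) (by
            intro q'
            obtain ⟨h, rfl⟩ := QuotientGroup.mk_surjective q'
            ext ⟨v, hv⟩
            rw [MulAction.mem_stabilizer_iff, mem_subgroupOf]
            change ((v * h : G) : G ⧸ centralizer ({g} : Set G)) = (h : G ⧸ centralizer ({g} : Set G))
              ↔ v ∈ E ⊓ center G
            rw [QuotientGroup.eq, mem_centralizer_singleton_iff, mem_inf]
            constructor
            · intro hh
              exact ⟨hv, hstab1 v (hED hv) h (ito_aux1 v h g hh)⟩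
            · rintro ⟨_, hz⟩
              exact ito_aux2 v h g hz)
        have h1 : Nat.card (G ⧸ centralizer ({g} : Set G)) = m := hcsN g hgN hgZ
        rwa [h1] at h0
      have c2 : ((E ⊓ center G).subgroupOf E).index ∣ m - q := by
        obtain ⟨S, hSdef⟩ : ∃ S : Set (G ⧸ C), S = {q' | ∀ h ∈ M, q' ≠ (h : G ⧸ C)} := ⟨_, rfl⟩
        have hS := ito_orbit_dvd_set (H := E) (X := G ⧸ C) S (by
            rintro ⟨v, hv⟩ q' hq'
            rw [hSdef] at hq' ⊢
            intro h hh heq
            obtain ⟨h₀, rfl⟩ := QuotientGroup.mk_surjective q'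
            change ((v * h₀ : G) : G ⧸ C) = (h : G ⧸ C) at heq
            rw [QuotientGroup.eq] at heq
            apply hq' h₀ ?_ rfl
            have h1 : (v * h₀)⁻¹ * h ∈ M := hCM heq
            have h2 : v ∈ M := hCM (hDC (hED hv))
            have h3 : v * h₀ ∈ M := by
              have := M.mul_mem hh (M.inv_mem h1)
              simpa using this
            have := M.mul_mem (M.inv_mem h2) h3
            simpa using this)
          ((E ⊓ center G).subgroupOf E) (by
            intro q' hq'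
            rw [hSdef] at hq'
            obtain ⟨h, rfl⟩ := QuotientGroup.mk_surjective q'
            have hhM : h ∉ M := fun hh => hq' h hh rfl
            ext ⟨v, hv⟩
            rw [MulAction.mem_stabilizer_iff, mem_subgroupOf]
            change ((v * h : G) : G ⧸ C) = (h : G ⧸ C) ↔ v ∈ E ⊓ center G
            rw [QuotientGroup.eq, hCmem, mem_inf]
            constructor
            · intro hh
              exact ⟨hv, hstab2 v (hED hv) h hhM (ito_aux1 v h w hh)⟩
            · rintro ⟨_, hz⟩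
              exact ito_aux2 v h w hz)
        have hpre : (QuotientGroup.mk ⁻¹' S : Set G) = (M : Set G)ᶜ := by
          ext x
          rw [hSdef]
          simp only [Set.mem_preimage, Set.mem_compl_iff, SetLike.mem_coe, Set.mem_ofPred_eq]
          constructor
          · intro hx hxM; exact hx x hxM rfl
          · intro hx h hh heq
            rw [QuotientGroup.eq] at heq
            apply hx
            have := M.mul_mem hh (M.inv_mem (hCM heq))
            simpa using this
        have hcnt := QuotientGroup.card_preimage_mk C S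
        rw [hpre] at hcnt
        have hcompl : Nat.card ((M : Set G)ᶜ : Set G) + Nat.card M = Nat.card G := by
          have h1 := Set.ncard_add_ncard_compl (M : Set G)
          rw [← Nat.card_coe_set_eq, ← Nat.card_coe_set_eq] at h1
          rw [add_comm]; exact h1
        have hSn : S.ncard = m - q := by
          rw [← Nat.card_coe_set_eq]
          have h1 : Nat.card C * Nat.card S + Nat.card C * q = Nat.card C * m := by
            rw [← hcnt, ← hcardM, ← hcardG]; exact hcompl
          have hC0 : 0 < Nat.card C := Nat.card_pos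
          have h2 : Nat.card C * (Nat.card S + q) = Nat.card C * m := by rw [mul_add, h1]
          have h3 := Nat.eq_of_mul_eq_mul_left hC0 h2
          omega
        rw [← hSn]; exact hS
      have hqle : q ≤ m := Nat.le_of_dvd hm0 (Dvd.intro _ hqm)
      have h3 := Nat.dvd_sub c1 c2
      rwa [show m - (m - q) = q by omega] at h3
    have hP : ∀ E : Subgroup G, E ≤ D → (∀ h ∈ M, ∀ v ∈ E, h * v * h⁻¹ ∈ E) →
        q ∣ Nat.card E - Nat.card (E ⊓ center G : Subgroup G) := by
      intro E hED hEinv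
      let inst : MulAction M G :=
        { smul := fun h v => (h : G) * v * (h : G)⁻¹
          one_smul := fun v => by
            show ((1 : M) : G) * v * ((1 : M) : G)⁻¹ = v
            simp
          mul_smul := fun a b v => by
            show ((a * b : M) : G) * v * ((a * b : M) : G)⁻¹
              = (a : G) * ((b : G) * v * (b : G)⁻¹) * (a : G)⁻¹
            simp [mul_assoc] }
      obtain ⟨S, hSdef⟩ : ∃ S : Set G, S = {v | v ∈ E ∧ v ∉ center G} := ⟨_, rfl⟩
      have hS := @ito_orbit_dvd_set M G _ _ inst S _ (by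
          intro h v hv
          rw [hSdef] at hv ⊢
          show (h : G) * v * (h : G)⁻¹ ∈ _
          refine ⟨hEinv h h.2 v hv.1, fun hz => hv.2 ?_⟩
          have h2 := (inferInstance : (center G).Normal).conj_mem _ hz (h : G)⁻¹
          simpa [mul_assoc] using h2)
        (C.subgroupOf M) (by
          intro v hv
          rw [hSdef] at hv
          ext h
          rw [MulAction.mem_stabilizer_iff, mem_subgroupOf,
            ← hF2 v (hDC (hED hv.1)) (hDN (hED hv.1)) hv.2, mem_centralizer_singleton_iff]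
          show (h : G) * v * (h : G)⁻¹ = v ↔ _
          constructor
          · intro hh
            calc (h : G) * v = (h : G) * v * (h : G)⁻¹ * h := by group
              _ = v * h := by rw [hh]
          · intro hh
            rw [hh]; group)
      have hSn : S.ncard = Nat.card E - Nat.card (E ⊓ center G : Subgroup G) := by
        have h1 : S = (E : Set G) \ ((E ⊓ center G : Subgroup G) : Set G) := by
          ext v
          rw [hSdef]
          simp only [Set.mem_ofPred_eq, Set.mem_sdiff, SetLike.mem_coe, mem_inf, not_and]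
          constructor
          · rintro ⟨h1, h2⟩; exact ⟨h1, fun _ => h2⟩
          · rintro ⟨h1, h2⟩; exact ⟨h1, h2 h1⟩
        have e1 : (E : Set G).ncard = Nat.card E := (Nat.card_coe_set_eq (E : Set G)).symm
        have e2 : ((E ⊓ center G : Subgroup G) : Set G).ncard
            = Nat.card (E ⊓ center G : Subgroup G) :=
          (Nat.card_coe_set_eq ((E ⊓ center G : Subgroup G) : Set G)).symm
        rw [h1, Set.ncard_sdiff (by intro v hv; exact hv.1), e1, e2]
      rw [← hSn, hq]; exact hS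
    have hE : ∀ E : Subgroup G, E ≤ D → (∀ h ∈ M, ∀ v ∈ E, h * v * h⁻¹ ∈ E) →
        (∃ v ∈ E, v ∉ center G) →
        ∃ a z : ℕ, Nat.card E = a * z ∧ a ∣ q ∧ q ∣ a * z - z ∧ 1 < a := by
      rintro E hED hEinv ⟨v, hvE, hvZ⟩
      have h1 := Subgroup.card_mul_index ((E ⊓ center G).subgroupOf E)
      rw [Nat.card_congr
        (Subgroup.subgroupOfEquivOfLe (inf_le_left : E ⊓ center G ≤ E)).toEquiv] at h1
      refine ⟨((E ⊓ center G).subgroupOf E).index, Nat.card (E ⊓ center G : Subgroup G),
        ?_, hQ E hED, ?_, ?_⟩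
      · rw [← h1, mul_comm]
      · rw [mul_comm, h1]; exact hP E hED hEinv
      · by_contra hle
        have h0 : ((E ⊓ center G).subgroupOf E).index ≠ 0 := index_ne_zero_of_finite
        have h2 : ((E ⊓ center G).subgroupOf E).index = 1 := by omega
        rw [index_eq_one, subgroupOf_eq_top] at h2
        exact hvZ (h2 hvE).2
    -- the two torsion subgroups
    obtain ⟨α, t, ht, hnD⟩ :=
      Nat.exists_eq_pow_mul_and_not_dvd (Nat.card_pos (α := D)).ne' r hr.out.ne_one
    have hrt : Nat.Coprime r t := (Nat.Prime.coprime_iff_not_dvd hr.out).mpr ht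
    have hMD : ∀ h ∈ M, ∀ v ∈ D, h * v * h⁻¹ ∈ D := by
      intro h hh v hv
      rw [hD]
      exact ⟨((hMmem h).mp hh v).mp (hDC hv), hN.conj_mem v (hDN hv) h⟩
    have hEsub : ∀ n : ℕ, ∃ E : Subgroup G, ∀ v : G, v ∈ E ↔ (v ∈ D ∧ v ^ n = 1) := by
      intro n
      refine ⟨{ carrier := {v | v ∈ D ∧ v ^ n = 1}
                mul_mem' := ?_
                one_mem' := ⟨D.one_mem, one_pow _⟩
                inv_mem' := ?_ }, fun v => Iff.rfl⟩
      · rintro a b ⟨ha, ha'⟩ ⟨hb, hb'⟩
        refine ⟨D.mul_mem ha hb, ?_⟩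
        rw [(show Commute a b from hDab a ha b hb).mul_pow, ha', hb', one_mul]
      · rintro a ⟨ha, ha'⟩
        exact ⟨D.inv_mem ha, by rw [inv_pow, ha', inv_one]⟩
    obtain ⟨E1, hE1⟩ := hEsub (r ^ α)
    obtain ⟨E2, hE2⟩ := hEsub t
    have hE1D : E1 ≤ D := fun v hv => ((hE1 v).mp hv).1
    have hE2D : E2 ≤ D := fun v hv => ((hE2 v).mp hv).1
    have hE1inv : ∀ h ∈ M, ∀ v ∈ E1, h * v * h⁻¹ ∈ E1 := by
      intro h hh v hv
      obtain ⟨h1, h2⟩ := (hE1 v).mp hv
      exact (hE1 _).mpr ⟨hMD h hh v h1, by rw [conj_pow, h2]; group⟩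
    have hE2inv : ∀ h ∈ M, ∀ v ∈ E2, h * v * h⁻¹ ∈ E2 := by
      intro h hh v hv
      obtain ⟨h1, h2⟩ := (hE2 v).mp hv
      exact (hE2 _).mpr ⟨hMD h hh v h1, by rw [conj_pow, h2]; group⟩
    have hwE1 : w ∈ E1 := by
      refine (hE1 w).mpr ⟨hwD, ?_⟩
      have h1 : orderOf w ∣ r ^ α * t := hnD ▸ Subgroup.orderOf_dvd_natCard D hwD
      have h2 : Nat.Coprime (orderOf w) t :=
        Nat.Coprime.coprime_dvd_left howr (Nat.Coprime.pow_left kw hrt)
      exact orderOf_dvd_iff_pow_eq_one.mp (h2.dvd_of_dvd_mul_right h1)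
    have hyE2 : y ∈ E2 := by
      refine (hE2 y).mpr ⟨hyD, ?_⟩
      have h1 : orderOf y ∣ r ^ α * t := hnD ▸ Subgroup.orderOf_dvd_natCard D hyD
      have h2 : Nat.Coprime (orderOf y) (r ^ α) := Nat.Coprime.pow_right α hyr
      exact orderOf_dvd_iff_pow_eq_one.mp (h2.dvd_of_dvd_mul_left h1)
    obtain ⟨a1, z1, hc1, ha1q, hqa1, ha1⟩ := hE E1 hE1D hE1inv ⟨w, hwE1, hwZ⟩
    obtain ⟨a2, z2, hc2, ha2q, hqa2, ha2⟩ := hE E2 hE2D hE2inv ⟨y, hyE2, hyZ⟩
    -- E1 is an r-group
    have hE1p : IsPGroup r E1 := by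
      rintro ⟨v, hv⟩
      refine ⟨α, ?_⟩
      apply Subtype.ext
      simpa using ((hE1 v).mp hv).2
    obtain ⟨i, hi⟩ := IsPGroup.iff_card.mp hE1p
    have hE2c : Nat.Coprime (Nat.card E2) r := by
      rw [Nat.coprime_comm, Nat.Prime.coprime_iff_not_dvd hr.out]
      intro hdvd
      obtain ⟨⟨x, hx⟩, hox⟩ := exists_prime_orderOf_dvd_card' r hdvd
      have h1 : x ^ t = 1 := ((hE2 x).mp hx).2
      have h2 : orderOf x = r := by
        rw [← hox]; exact (Subgroup.orderOf_mk x hx).symm
      apply ht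
      rw [← h2]
      exact orderOf_dvd_of_pow_eq_one h1
    rw [hc1] at hi
    rw [hc2] at hE2c
    have ha1r : ∃ i1, a1 = r ^ i1 := by
      obtain ⟨i1, _, h⟩ := (Nat.dvd_prime_pow hr.out).mp (Dvd.intro _ hi)
      exact ⟨i1, h⟩
    have hz1r : ∃ j1, z1 = r ^ j1 := by
      obtain ⟨j1, _, h⟩ := (Nat.dvd_prime_pow hr.out).mp (Dvd.intro_left _ hi)
      exact ⟨j1, h⟩
    obtain ⟨i1, hi1⟩ := ha1r
    obtain ⟨j1, hj1⟩ := hz1r
    have ha2c : Nat.Coprime a2 r := Nat.Coprime.coprime_dvd_left (Dvd.intro _ rfl) hE2c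
    have hz2c : Nat.Coprime z2 r := Nat.Coprime.coprime_dvd_left (Dvd.intro_left _ rfl) hE2c
    obtain ⟨b1, rfl⟩ : ∃ b1, a1 = b1 + 1 := ⟨a1 - 1, by omega⟩
    obtain ⟨b2, rfl⟩ : ∃ b2, a2 = b2 + 1 := ⟨a2 - 1, by omega⟩
    have e1 : (b1 + 1) * z1 - z1 = z1 * b1 := by
      rw [Nat.add_mul, one_mul, Nat.add_sub_cancel, mul_comm]
    have e2 : (b2 + 1) * z2 - z2 = z2 * b2 := by
      rw [Nat.add_mul, one_mul, Nat.add_sub_cancel, mul_comm]
    rw [e1] at hqa1
    rw [e2] at hqa2
    have d1 : (b1 + 1) ∣ b2 := by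
      have h1 : (b1 + 1) ∣ z2 * b2 := ha1q.trans hqa2
      have h2 : Nat.Coprime (b1 + 1) z2 := by
        rw [hi1]; exact Nat.Coprime.pow_left i1 hz2c.symm
      exact h2.dvd_of_dvd_mul_left h1
    have d2 : (b2 + 1) ∣ b1 := by
      have h1 : (b2 + 1) ∣ z1 * b1 := ha2q.trans hqa1
      have h2 : Nat.Coprime (b2 + 1) z1 := by
        rw [hj1]; exact Nat.Coprime.pow_right j1 ha2c
      exact h2.dvd_of_dvd_mul_left h1
    have l1 := Nat.le_of_dvd (by omega) d1
    have l2 := Nat.le_of_dvd (by omega) d2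
    omega
  refine ⟨D, hDN, hDab, ?_, ?_⟩
  · intro n hn
    by_cases hz : n ∈ center G
    · exact ⟨1, by simpa using hZD n hn hz⟩
    · exact key n hn hz
  · intro n hn hz
    obtain ⟨h, hh⟩ := key n hn hz
    refine ⟨h, fun u hu => ?_⟩
    have hvZ : h⁻¹ * n * h ∉ center G := by
      intro hz'
      apply hz
      have h2 := (inferInstance : (center G).Normal).conj_mem _ hz' h
      simpa [mul_assoc] using h2
    have h1 := hF2 _ (hDC hh) (hDN hh) hvZ
    have h3 : h⁻¹ * u * h ∈ N := by
      have := hN.conj_mem u hu h⁻¹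
      simpa using this
    constructor
    · intro hcomm
      rw [hD]
      apply Subgroup.mem_inf.mpr
      refine ⟨?_, h3⟩
      rw [← h1, mem_centralizer_singleton_iff]
      calc h⁻¹ * u * h * (h⁻¹ * n * h) = h⁻¹ * (u * n) * h := by group
        _ = h⁻¹ * (n * u) * h := by rw [hcomm]
        _ = h⁻¹ * n * h * (h⁻¹ * u * h) := by group
    · intro hmem
      have h4 := hDC hmem
      rw [← h1, mem_centralizer_singleton_iff] at h4
      have : h⁻¹ * (u * n) * h = h⁻¹ * (n * u) * h := by
        calc h⁻¹ * (u * n) * h = h⁻¹ * u * h * (h⁻¹ * n * h) := by group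
          _ = h⁻¹ * n * h * (h⁻¹ * u * h) := h4
          _ = h⁻¹ * (n * u) * h := by group
      exact mul_left_cancel (mul_right_cancel this)

end

theorem ito {H : Type*} [Group H] [Finite H] (r : ℕ) [hr : Fact r.Prime] (m : ℕ)
    (hm : ∀ x : H, cs x = 1 ∨ cs x = m)
    (x₀ : H) (hx₀r : ∃ k : ℕ, x₀ ^ r ^ k = 1) (hx₀ : x₀ ∉ center H) :
    Group.IsNilpotent H := by
  rcases ito_main (⊤ : Subgroup H) m (fun x _ => hm x) r (fun x _ => mem_top x) x₀ hx₀r hx₀
    with hA | ⟨D, -, hDab, hconj, -⟩
  · have hp : IsPGroup r (H ⧸ center H) := by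
      intro q
      obtain ⟨x, rfl⟩ := QuotientGroup.mk_surjective q
      obtain ⟨e, t, ht, hn⟩ :=
        Nat.exists_eq_pow_mul_and_not_dvd (orderOf_pos x).ne' r hr.out.ne_one
      refine ⟨e, ?_⟩
      rw [← QuotientGroup.mk_pow, QuotientGroup.eq_one_iff]
      apply hA _ (mem_top _)
      have h1 : (x ^ r ^ e) ^ t = 1 := by rw [← pow_mul, ← hn, pow_orderOf_eq_one]
      have hrt : Nat.Coprime r t := (Nat.Prime.coprime_iff_not_dvd hr.out).mpr ht
      exact Nat.Coprime.coprime_dvd_left (orderOf_dvd_of_pow_eq_one h1) hrt.symm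
    haveI := hp.isNilpotent
    exact Subgroup.isNilpotent_of_ker_le_center (QuotientGroup.mk' (center H))
      (by rw [QuotientGroup.ker_mk'])
  · have hDtop : D = ⊤ := eq_top_of_forall_conj_mem D (fun g => hconj g (mem_top g))
    have hcomm : ∀ a b : H, a * b = b * a := fun a b =>
      hDab a (hDtop ▸ mem_top a) b (hDtop ▸ mem_top b)
    exact Subgroup.isNilpotent_of_ker_le_center (1 : H →* Unit)
      (fun a _ => mem_center_iff.mpr (fun b => hcomm b a))

theorem ito_normal {G : Type*} [Group G] [Finite G] (r : ℕ) [hr : Fact r.Prime]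
    (R : Sylow r G) (hR : ¬ (R : Subgroup G) ≤ center G) (N : Subgroup G) [hN : N.Normal]
    (hRN : (R : Subgroup G) ≤ N) (m : ℕ)
    (h : ∀ x ∈ N, cs x = 1 ∨ cs x = m) : Group.IsNilpotent N := by
  have hrN : ∀ x : G, (∃ k : ℕ, x ^ r ^ k = 1) → x ∈ N := by
    rintro x ⟨k, hk⟩
    have hidx : ¬ r ∣ N.index := by
      intro hd
      apply R.not_dvd_index
      rw [← relIndex_mul_index hRN]
      exact Dvd.dvd.mul_left hd _
    rw [← QuotientGroup.eq_one_iff (N := N)]
    have h1 : ((x : G ⧸ N)) ^ r ^ k = 1 := by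
      rw [← QuotientGroup.mk_pow, hk, QuotientGroup.mk_one]
    have h2 : orderOf (x : G ⧸ N) ∣ r ^ k := orderOf_dvd_of_pow_eq_one h1
    have h3 : orderOf (x : G ⧸ N) ∣ N.index := orderOf_dvd_natCard _
    have h4 : Nat.Coprime (r ^ k) N.index :=
      Nat.Coprime.pow_left k ((Nat.Prime.coprime_iff_not_dvd hr.out).mpr hidx)
    have h5 : orderOf (x : G ⧸ N) = 1 :=
      Nat.Coprime.eq_one_of_dvd (Nat.Coprime.coprime_dvd_left h2 h4) h3
    exact orderOf_eq_one_iff.mp h5
  obtain ⟨x₀, hx₀R, hx₀Z⟩ : ∃ x₀ ∈ (R : Subgroup G), x₀ ∉ center G := by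
    by_contra hcon
    push Not at hcon
    exact hR hcon
  have hx₀r : ∃ k : ℕ, x₀ ^ r ^ k = 1 := by
    obtain ⟨k, hk⟩ := R.isPGroup' ⟨x₀, hx₀R⟩
    exact ⟨k, by simpa using congrArg Subtype.val hk⟩
  have hx₀N : x₀ ∈ N := hRN hx₀R
  rcases ito_main N m h r hrN x₀ hx₀r hx₀Z with hA | ⟨D, hDN, hDab, hconj, hcent⟩
  · have hp : IsPGroup r (N ⧸ (center G).subgroupOf N) := by
      intro q
      obtain ⟨x, rfl⟩ := QuotientGroup.mk_surjective q
      obtain ⟨e, t, ht, hn⟩ :=
        Nat.exists_eq_pow_mul_and_not_dvd (orderOf_pos x).ne' r hr.out.ne_one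
      refine ⟨e, ?_⟩
      rw [← QuotientGroup.mk_pow, QuotientGroup.eq_one_iff, mem_subgroupOf]
      apply hA _ (x ^ r ^ e).2
      have h1 : ((x ^ r ^ e : N) : G) ^ t = 1 := by
        have h0 : (x ^ r ^ e) ^ t = 1 := by rw [← pow_mul, ← hn, pow_orderOf_eq_one]
        have := congrArg Subtype.val h0
        simpa using this
      have hrt : Nat.Coprime r t := (Nat.Prime.coprime_iff_not_dvd hr.out).mpr ht
      exact Nat.Coprime.coprime_dvd_left (orderOf_dvd_of_pow_eq_one h1) hrt.symm
    haveI := hp.isNilpotent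
    refine Subgroup.isNilpotent_of_ker_le_center (QuotientGroup.mk' ((center G).subgroupOf N)) ?_
    rw [QuotientGroup.ker_mk']
    intro a ha
    rw [mem_subgroupOf] at ha
    rw [mem_center_iff]
    intro b
    apply Subtype.ext
    simp only [Subgroup.coe_mul]
    exact mem_center_iff.mp ha b
  · have hab_of : (∃ h : G, ∀ u ∈ N, h⁻¹ * u * h ∈ D) → Group.IsNilpotent N := by
      rintro ⟨h, hh⟩
      have hcomm : ∀ a b : N, a * b = b * a := by
        intro a b
        apply Subtype.ext
        simp only [Subgroup.coe_mul]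
        have h1 := hDab _ (hh a a.2) _ (hh b b.2)
        have : h⁻¹ * ((a : G) * b) * h = h⁻¹ * ((b : G) * a) * h := by
          calc h⁻¹ * ((a : G) * b) * h = h⁻¹ * a * h * (h⁻¹ * b * h) := by group
            _ = h⁻¹ * b * h * (h⁻¹ * a * h) := h1
            _ = h⁻¹ * ((b : G) * a) * h := by group
        exact mul_left_cancel (mul_right_cancel this)
      exact Subgroup.isNilpotent_of_ker_le_center (1 : N →* Unit)
        (fun a _ => mem_center_iff.mpr (fun b => hcomm b a))
    by_cases hx₀c : ∀ u ∈ N, u * x₀ = x₀ * u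
    · obtain ⟨h, hh⟩ := hcent x₀ hx₀N hx₀Z
      exact hab_of ⟨h, fun u hu => (hh u hu).mp (hx₀c u hu)⟩
    · push Not at hx₀c
      obtain ⟨u₀, hu₀N, hu₀⟩ := hx₀c
      apply ito (H := N) r ((D.subgroupOf N).index) ?_ ⟨x₀, hx₀N⟩ ?_ ?_
      · intro x
        by_cases hxZ : (x : G) ∈ center G
        · left
          rw [cs_eq_one_iff, mem_center_iff]
          intro b
          apply Subtype.ext
          simp only [Subgroup.coe_mul]
          exact mem_center_iff.mp hxZ b
        · right
          obtain ⟨h, hh⟩ := hcent x x.2 hxZ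
          have heq : centralizer ({x} : Set N) =
              (D.subgroupOf N).comap ((MulAut.conjNormal h⁻¹ : MulAut N)).toMonoidHom := by
            ext u
            rw [mem_centralizer_singleton_iff, mem_comap, mem_subgroupOf]
            have e1 : (((MulAut.conjNormal h⁻¹ : MulAut N)).toMonoidHom u : G)
                = h⁻¹ * u * h := by
              show ((MulAut.conjNormal h⁻¹ u : N) : G) = _
              rw [MulAut.conjNormal_apply, inv_inv]
            rw [e1, ← hh u u.2]
            constructor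
            · intro hc
              have := congrArg Subtype.val hc
              simpa using this
            · intro hc
              apply Subtype.ext
              simpa using hc
          show (centralizer ({x} : Set N)).index = _
          rw [heq]
          exact index_comap_of_surjective _ (MulEquiv.surjective _)
      · obtain ⟨k, hk⟩ := hx₀r
        exact ⟨k, Subtype.ext (by simpa using hk)⟩
      · intro hz
        have h1 := mem_center_iff.mp hz ⟨u₀, hu₀N⟩
        apply hu₀
        have := congrArg Subtype.val h1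
        simpa using this


end Cfsg.Agent.Helper17.Ito
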