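import Mathlib

/-!
# Schur–Zassenhaus conjugacy for an abelian normal Hall subgroup, and the Frattini argument
for complements (helper17)
-/

set_option autoImplicit false

namespace Cfsg.Agent.Helper17.SZConj

open Subgroup MulOpposite MulAction
open scoped Pointwise

universe u

/-- the class of a transversal -/
noncomputable def cls {G : Type*} [Group G] (H : Subgroup G) [IsMulCommutative H] [H.FiniteIndex]
    (T : H.LeftTransversal) : H.QuotientDiff := Quotient.mk'' T

theorem smul_cls {G : Type*} [Group G] (H : Subgroup G) [IsMulCommutative H] [H.FiniteIndex]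
    [H.Normal] (g : G) (T : H.LeftTransversal) : g • cls H T = cls H (op g⁻¹ • T) := rfl

/-- complements of an abelian normal Hall subgroup are conjugate -/
theorem sz_conj {G : Type*} [Group G] [Finite G] (H : Subgroup G) [IsMulCommutative H] [H.Normal]
    (hH : Nat.Coprime (Nat.card H) H.index) (K₁ K₂ : Subgroup G)
    (h₁ : IsComplement' H K₁) (h₂ : IsComplement' H K₂) :
    ∃ h : H, K₂ = K₁.map (MulAut.conj (h : G)).toMonoidHom := by
  have key : ∀ (K : Subgroup G) (hK : IsComplement' H K),
      stabilizer G (cls H ⟨(K : Set G), hK.symm⟩) = K := by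
    intro K hK
    symm
    apply Subgroup.eq_of_le_of_card_ge
    · intro k hk
      rw [mem_stabilizer_iff, smul_cls]
      congr 1
      apply Subtype.ext
      show op k⁻¹ • (K : Set G) = K
      ext x
      rw [Set.mem_smul_set_iff_inv_smul_mem]
      simp only [← op_inv, inv_inv, op_smul_eq_mul, SetLike.mem_coe]
      exact K.mul_mem_cancel_right hk
    · have h3 := (isComplement'_stabilizer_of_coprime
        (α := cls H ⟨(K : Set G), hK.symm⟩) hH).card_mul_card
      have h4 := hK.card_mul_card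
      rw [← h4] at h3
      have hpos : 0 < Nat.card H := Nat.card_pos
      exact (Nat.eq_of_mul_eq_mul_left hpos h3).le
  obtain ⟨h, hh⟩ := exists_smul_eq hH (cls H ⟨(K₁ : Set G), h₁.symm⟩)
    (cls H ⟨(K₂ : Set G), h₂.symm⟩)
  refine ⟨h, ?_⟩
  conv_lhs => rw [← key K₂ h₂]
  conv_rhs => rw [← key K₁ h₁]
  rw [← hh]
  exact stabilizer_smul_eq_stabilizer_map_conj (h : G) _

theorem mem_normalizer_of_conj' {G : Type*} [Group G] (X : Subgroup G) (g : G)
    (h1 : ∀ x ∈ X, g * x * g⁻¹ ∈ X)
    (h2 : ∀ x ∈ X, g⁻¹ * x * g ∈ X) : g ∈ Subgroup.normalizer (X : Set G) := by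
  rw [Subgroup.mem_normalizer_iff]
  intro x
  constructor
  · exact h1 x
  · intro hx
    have := h2 _ hx
    simpa [mul_assoc] using this

/-- Frattini argument for complements of an abelian normal Hall subgroup `N` of a normal
subgroup `A` -/
theorem frattini_compl {G : Type*} [Group G] [Finite G] (N A : Subgroup G) [hN : N.Normal]
    [hA : A.Normal] (hNA : N ≤ A) (hNab : ∀ x ∈ N, ∀ y ∈ N, x * y = y * x)
    (hcop : (Nat.card N).Coprime (N.relIndex A)) :
    ∃ H : Subgroup G, H ≤ A ∧ N ⊓ H = ⊥ ∧ Nat.card H = N.relIndex A ∧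
      N ⊔ Subgroup.normalizer (H : Set G) = ⊤ := by
  haveI : IsMulCommutative (N.subgroupOf A) :=
    ⟨⟨fun a b => Subtype.ext (Subtype.ext (hNab a.1.1 a.2 b.1.1 b.2))⟩⟩
  have hcardN' : Nat.card (N.subgroupOf A) = Nat.card N :=
    Nat.card_congr (Subgroup.subgroupOfEquivOfLe hNA).toEquiv
  have hcop' : (Nat.card (N.subgroupOf A)).Coprime (N.subgroupOf A).index := by
    rw [hcardN']; exact hcop
  obtain ⟨H₀, hH₀⟩ := Subgroup.exists_right_complement'_of_coprime hcop'
  refine ⟨H₀.map A.subtype, Subgroup.map_subtype_le _, ?_, ?_, ?_⟩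
  · rw [eq_bot_iff]
    intro x hx
    rw [Subgroup.mem_inf] at hx
    obtain ⟨y, hy, rfl⟩ := Subgroup.mem_map.mp hx.2
    have h1 : y ∈ N.subgroupOf A ⊓ H₀ :=
      Subgroup.mem_inf.mpr ⟨Subgroup.mem_subgroupOf.mpr hx.1, hy⟩
    rw [hH₀.disjoint.eq_bot, Subgroup.mem_bot] at h1
    rw [h1]; simp
  · rw [Subgroup.card_map_of_injective A.subtype_injective]
    have h1 := hH₀.card_mul_card
    have h2 := Subgroup.card_mul_index (N.subgroupOf A)
    rw [← h2] at h1
    exact Nat.eq_of_mul_eq_mul_left Nat.card_pos h1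
  · rw [eq_top_iff]
    intro g _
    have hc : IsComplement' (N.subgroupOf A)
        (H₀.map (MulAut.conjNormal g : MulAut A).toMonoidHom) := by
      apply Subgroup.isComplement'_of_card_mul_and_disjoint
      · have hφ : Function.Injective ((MulAut.conjNormal g : MulAut A).toMonoidHom) :=
          MulEquiv.injective (MulAut.conjNormal g : MulAut A)
        rw [Subgroup.card_map_of_injective hφ]
        exact hH₀.card_mul_card
      · rw [disjoint_iff, eq_bot_iff]
        intro y hy
        rw [Subgroup.mem_inf] at hy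
        obtain ⟨z, hz, rfl⟩ := Subgroup.mem_map.mp hy.2
        have hzN : z ∈ N.subgroupOf A := by
          have h1 := Subgroup.mem_subgroupOf.mp hy.1
          have h2 : (((MulAut.conjNormal g : MulAut A) z : A) : G) = g * z * g⁻¹ :=
            MulAut.conjNormal_apply g z
          have h3 := hN.conj_mem' _ h1 g
          rw [Subgroup.mem_subgroupOf]
          have h4 : g⁻¹ * (((MulAut.conjNormal g : MulAut A).toMonoidHom z : A) : G) * g
              = (z : G) := by
            show g⁻¹ * (((MulAut.conjNormal g : MulAut A) z : A) : G) * g = (z : G)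
            rw [h2]; group
          rw [← h4]; exact h3
        have h5 : z ∈ N.subgroupOf A ⊓ H₀ := Subgroup.mem_inf.mpr ⟨hzN, hz⟩
        rw [hH₀.disjoint.eq_bot, Subgroup.mem_bot] at h5
        rw [h5]; simp
    obtain ⟨n, hn⟩ := sz_conj (N.subgroupOf A) hcop' H₀ _ hH₀ hc
    have hnN : ((n : A) : G) ∈ N := Subgroup.mem_subgroupOf.mp n.2
    have hmem : ((n : A) : G)⁻¹ * g ∈
        Subgroup.normalizer ((H₀.map A.subtype : Subgroup G) : Set G) := by
      apply mem_normalizer_of_conj'
      · intro x hx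
        obtain ⟨z, hz, rfl⟩ := Subgroup.mem_map.mp hx
        have h1 : (MulAut.conjNormal g : MulAut A).toMonoidHom z ∈
            H₀.map (MulAut.conjNormal g : MulAut A).toMonoidHom := Subgroup.mem_map_of_mem _ hz
        rw [hn] at h1
        obtain ⟨w, hw, hwz⟩ := Subgroup.mem_map.mp h1
        have h2 : ((n : A) : G) * (w : G) * ((n : A) : G)⁻¹ = g * (z : G) * g⁻¹ := by
          have h3 := congrArg (fun t : A => (t : G)) hwz
          simpa using h3
        refine Subgroup.mem_map.mpr ⟨w, hw, ?_⟩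
        show (w : G) = ((n : A) : G)⁻¹ * g * (z : G) * (((n : A) : G)⁻¹ * g)⁻¹
        have h4 : ((n : A) : G)⁻¹ * g * (z : G) * (((n : A) : G)⁻¹ * g)⁻¹
            = ((n : A) : G)⁻¹ * (g * (z : G) * g⁻¹) * ((n : A) : G) := by group
        rw [h4, ← h2]; group
      · intro x hx
        obtain ⟨z, hz, rfl⟩ := Subgroup.mem_map.mp hx
        have h1 : (MulAut.conj (n : A)).toMonoidHom z ∈
            H₀.map (MulAut.conj (n : A)).toMonoidHom := Subgroup.mem_map_of_mem _ hz
        rw [← hn] at h1
        obtain ⟨w, hw, hwz⟩ := Subgroup.mem_map.mp h1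
        have h2 : g * (w : G) * g⁻¹ = ((n : A) : G) * (z : G) * ((n : A) : G)⁻¹ := by
          have h3 := congrArg (fun t : A => (t : G)) hwz
          simpa using h3
        refine Subgroup.mem_map.mpr ⟨w, hw, ?_⟩
        show (w : G) = (((n : A) : G)⁻¹ * g)⁻¹ * (z : G) * (((n : A) : G)⁻¹ * g)
        have h4 : (((n : A) : G)⁻¹ * g)⁻¹ * (z : G) * (((n : A) : G)⁻¹ * g)
            = g⁻¹ * (((n : A) : G) * (z : G) * ((n : A) : G)⁻¹) * g := by group
        rw [h4, ← h2]; group
    have hg : g = ((n : A) : G) * (((n : A) : G)⁻¹ * g) := by group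
    rw [hg]
    exact Subgroup.mul_mem_sup hnN hmem


end Cfsg.Agent.Helper17.SZConj
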