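import Mathlib
import Cfsg.Prelude.Def_Local
import Cfsg.Agent.Helper17.TwoSeries
import Cfsg.Agent.Helper17.SZConj

/-!
# `p`-solvable groups whose maximal subgroups are `p`-nilpotent or of prime index (helper17)
-/

set_option autoImplicit false

namespace Cfsg.Agent.Helper17.PSeries

open Subgroup Cfsg.Agent.Helper17.TwoSeries Cfsg.Agent.Helper17.SZConj

universe u

/-- the hypothesis on maximal subgroups -/
def HypP (p : ℕ) (G : Type u) [Group G] : Prop :=
  ∀ M : Subgroup G, IsCoatom M →
    (∃ K : Subgroup ↥M, K.Normal ∧ ¬ p ∣ Nat.card K ∧ ∃ k : ℕ, K.index = p ^ k) ∨ (M.index).Prime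

/-- the conclusion -/
def GoodP (p : ℕ) (G : Type u) [Group G] : Prop :=
  ∃ A B C D : Subgroup G, A.Normal ∧ B.Normal ∧ C.Normal ∧ D.Normal ∧ A ≤ B ∧ B ≤ C ∧ C ≤ D ∧
    ¬ p ∣ Nat.card A ∧ (∃ k : ℕ, A.relIndex B = p ^ k) ∧ ¬ p ∣ B.relIndex C ∧
    (∃ k : ℕ, C.relIndex D = p ^ k) ∧ ¬ p ∣ D.index

variable {G : Type u} [Group G] [Finite G]

theorem hypP_quot (p : ℕ) [hp : Fact p.Prime] (N : Subgroup G) [N.Normal] (h : HypP p G) :
    HypP p (G ⧸ N) := by
  intro Mb hMb
  have hsurj : Function.Surjective (QuotientGroup.mk' N) := QuotientGroup.mk'_surjective N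
  have hM : IsCoatom (Mb.comap (QuotientGroup.mk' N)) := by
    constructor
    · intro h1
      apply hMb.1
      rw [← Subgroup.map_comap_eq_self_of_surjective hsurj Mb, h1, ← MonoidHom.range_eq_map]
      exact MonoidHom.range_eq_top.mpr hsurj
    · intro L hL
      have h2 : Mb ≤ L.map (QuotientGroup.mk' N) := by
        rw [← Subgroup.map_comap_eq_self_of_surjective hsurj Mb]
        exact Subgroup.map_mono hL.le
      have h3 : Mb ≠ L.map (QuotientGroup.mk' N) := by
        intro h3
        have : L ≤ Mb.comap (QuotientGroup.mk' N) := by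
          rw [h3]; exact Subgroup.le_comap_map _ L
        exact absurd this (not_le_of_gt hL)
      have h4 := hMb.2 (L.map (QuotientGroup.mk' N)) (lt_of_le_of_ne h2 h3)
      have hker : (QuotientGroup.mk' N).ker ≤ L := by
        refine le_trans ?_ hL.le
        intro x hx
        rw [Subgroup.mem_comap, MonoidHom.mem_ker.mp hx]
        exact one_mem _
      have h5 : (L.map (QuotientGroup.mk' N)).comap (QuotientGroup.mk' N) = L := by
        rw [Subgroup.comap_map_eq, sup_of_le_left hker]
      rw [← h5, h4, Subgroup.comap_top]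
  rcases h _ hM with ⟨K, hKn, hKodd, k, hk⟩ | hpr
  · left
    have hφ : Function.Surjective ((QuotientGroup.mk' N).subgroupComap Mb) :=
      (QuotientGroup.mk' N).subgroupComap_surjective_of_surjective Mb hsurj
    refine ⟨K.map ((QuotientGroup.mk' N).subgroupComap Mb), hKn.map _ hφ, ?_, ?_⟩
    · intro h2
      exact hKodd (dvd_trans h2 (Subgroup.card_map_dvd K _))
    · have h6 := Subgroup.index_map_dvd K hφ
      rw [hk] at h6
      obtain ⟨j, -, hj⟩ := (Nat.dvd_prime_pow hp.out).mp h6
      exact ⟨j, hj⟩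
  · right
    rwa [Subgroup.index_comap_of_surjective Mb hsurj] at hpr

theorem psolv_quot (p : ℕ) [hp : Fact p.Prime] (N : Subgroup G) [N.Normal]
    (h : Cfsg.IsPSolvable p G) : Cfsg.IsPSolvable p (G ⧸ N) := by
  obtain ⟨n, H, h0, hn, hmono, hnorm, hfac⟩ := h
  have hsurj : Function.Surjective (QuotientGroup.mk' N) := QuotientGroup.mk'_surjective N
  refine ⟨n, fun i => (H i).map (QuotientGroup.mk' N), ?_, ?_, ?_, ?_, ?_⟩
  · show (H 0).map (QuotientGroup.mk' N) = ⊥
    rw [h0, Subgroup.map_bot]
  · show (H (Fin.last n)).map (QuotientGroup.mk' N) = ⊤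
    rw [hn, ← MonoidHom.range_eq_map]
    exact MonoidHom.range_eq_top.mpr hsurj
  · intro i j hij
    exact Subgroup.map_mono (hmono hij)
  · intro i
    exact (hnorm i).map _ hsurj
  · intro i
    have hdvd : ((H i.castSucc).map (QuotientGroup.mk' N)).relIndex
        ((H i.succ).map (QuotientGroup.mk' N)) ∣ (H i.castSucc).relIndex (H i.succ) := by
      rw [← Subgroup.relIndex_comap]
      exact Subgroup.relIndex_dvd_of_le_left _ (Subgroup.le_comap_map _ _)
    rcases hfac i with ⟨m, hm⟩ | hc
    · left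
      rw [hm] at hdvd
      obtain ⟨m', -, h'⟩ := (Nat.dvd_prime_pow hp.out).mp hdvd
      exact ⟨m', h'⟩
    · right
      exact Nat.Coprime.coprime_dvd_left hdvd hc

theorem exists_normal_of_psolv (p : ℕ) [Nontrivial G] (h : Cfsg.IsPSolvable p G) :
    ∃ X : Subgroup G, X.Normal ∧ X ≠ ⊥ ∧ ((∃ m, Nat.card X = p ^ m) ∨ (Nat.card X).Coprime p) := by
  obtain ⟨n, H, h0, hn, hmono, hnorm, hfac⟩ := h
  by_contra hcon
  have key : ∀ i : Fin (n + 1), H i = ⊥ := by
    intro i
    induction i using Fin.induction with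
    | zero => exact h0
    | succ i ih =>
      by_contra hne
      apply hcon
      refine ⟨H i.succ, hnorm _, hne, ?_⟩
      have h1 := hfac i
      rw [ih, Subgroup.relIndex_bot_left] at h1
      exact h1
  have h2 := key (Fin.last n)
  rw [hn] at h2
  exact top_ne_bot h2

theorem relIndex_inf_eq (A B Z : Subgroup G) (hAB : A ≤ B) :
    (A ⊓ Z).relIndex (B ⊓ Z) = A.relIndex (B ⊓ Z) := by
  have h1 : A ⊓ Z = A ⊓ (B ⊓ Z) := by
    rw [← inf_assoc, inf_eq_left.mpr hAB]
  rw [h1, Subgroup.inf_relIndex_right]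

theorem relIndex_dvd_relIndex (A Y B : Subgroup G) [A.Normal] (hAB : A ≤ B) (hYB : Y ≤ B) :
    A.relIndex Y ∣ A.relIndex B := by
  have h1 := Subgroup.relIndex_mul_relIndex A (A ⊔ Y) B le_sup_left (sup_le hAB hYB)
  rw [Subgroup.relIndex_sup_left] at h1
  exact Dvd.intro _ h1

theorem goodP_of_quot (p : ℕ) [hp : Fact p.Prime] (N : Subgroup G) [N.Normal]
    (hN : ¬ p ∣ Nat.card N) (h : GoodP p (G ⧸ N)) : GoodP p G := by
  obtain ⟨Ab, Bb, Cb, Db, hA, hB, hC, hD, hAB, hBC, hCD, hAp, ⟨k, hk⟩, hBCp, ⟨l, hl⟩, hDp⟩ := h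
  refine ⟨Ab.comap (QuotientGroup.mk' N), Bb.comap (QuotientGroup.mk' N),
    Cb.comap (QuotientGroup.mk' N), Db.comap (QuotientGroup.mk' N), hA.comap _, hB.comap _,
    hC.comap _, hD.comap _, Subgroup.comap_mono hAB, Subgroup.comap_mono hBC,
    Subgroup.comap_mono hCD, ?_, ⟨k, ?_⟩, ?_, ⟨l, ?_⟩, ?_⟩
  · rw [card_comap_mk]
    intro h1
    rcases (Nat.Prime.dvd_mul hp.out).mp h1 with h2 | h2
    · exact hN h2
    · exact hAp h2
  · rw [relIndex_comap_mk, hk]
  · rw [relIndex_comap_mk]
    exact hBCp
  · rw [relIndex_comap_mk, hl]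
  · rw [Subgroup.index_comap_of_surjective _ (QuotientGroup.mk'_surjective N)]
    exact hDp

/-- if `N` is an abelian normal `p`-subgroup contained in every maximal subgroup and `G` has no
nontrivial normal `p'`-subgroup, then neither does `G ⧸ N`. -/
theorem frattiniP_case (p : ℕ) [hp : Fact p.Prime] (N : Subgroup G) [hNn : N.Normal]
    (j : ℕ) (hNcard : Nat.card N = p ^ j) (hNab : ∀ x ∈ N, ∀ y ∈ N, x * y = y * x)
    (hno : ∀ X : Subgroup G, X.Normal → X ≠ ⊥ → p ∣ Nat.card X)
    (hΦ : ∀ M : Subgroup G, IsCoatom M → N ≤ M)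
    (Ab : Subgroup (G ⧸ N)) (hAbn : Ab.Normal) (hAbp : ¬ p ∣ Nat.card Ab) : Ab = ⊥ := by
  by_contra hAb
  have hsurj : Function.Surjective (QuotientGroup.mk' N) := QuotientGroup.mk'_surjective N
  haveI hAn : (Ab.comap (QuotientGroup.mk' N)).Normal := hAbn.comap _
  have hNA : N ≤ Ab.comap (QuotientGroup.mk' N) := by
    intro x hx
    rw [Subgroup.mem_comap]
    have : (QuotientGroup.mk' N) x = 1 := (QuotientGroup.eq_one_iff x).mpr hx
    rw [this]; exact one_mem _
  have hrelA : N.relIndex (Ab.comap (QuotientGroup.mk' N)) = Nat.card Ab := by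
    have h1 := Subgroup.relIndex_mul_relIndex ⊥ N (Ab.comap (QuotientGroup.mk' N)) bot_le hNA
    rw [Subgroup.relIndex_bot_left, Subgroup.relIndex_bot_left, card_comap_mk] at h1
    exact Nat.eq_of_mul_eq_mul_left Nat.card_pos h1
  have hcop : (Nat.card N).Coprime (N.relIndex (Ab.comap (QuotientGroup.mk' N))) := by
    rw [hrelA, hNcard]
    exact Nat.Coprime.pow_left j ((Nat.Prime.coprime_iff_not_dvd hp.out).mpr hAbp)
  obtain ⟨H, hHA, hNH, hHcard, hfr⟩ := frattini_compl N _ hNA hNab hcop
  rw [hrelA] at hHcard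
  have hHne : H ≠ ⊥ := by
    intro h
    rw [h, Subgroup.card_bot] at hHcard
    exact hAb (Subgroup.card_eq_one.mp hHcard.symm)
  by_cases hnorm : Subgroup.normalizer (H : Set G) = ⊤
  · have := hno H (Subgroup.normalizer_eq_top_iff.mp hnorm) hHne
    rw [hHcard] at this
    exact hAbp this
  · obtain ⟨M, hM, hle⟩ := (eq_top_or_exists_le_coatom _).resolve_left hnorm
    have h1 : N ⊔ Subgroup.normalizer (H : Set G) ≤ M := sup_le (hΦ M hM) hle
    rw [hfr] at h1
    exact hM.1 (top_le_iff.mp h1)

/-- a `p`-group centralizes a normal subgroup of order `p` -/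
theorem not_dvd_index_centralizer (p : ℕ) [hp : Fact p.Prime] (N : Subgroup G) [hNn : N.Normal]
    (hN : Nat.card N = p) : ¬ p ∣ (Subgroup.centralizer (N : Set G)).index := by
  obtain ⟨P⟩ : Nonempty (Sylow p G) := inferInstance
  have hP : (P : Subgroup G) ≤ Subgroup.centralizer (N : Set G) := by
    letI : MulAction ↥(P : Subgroup G) ↥N :=
      MulAction.compHom ↥N ((MulAut.conjNormal (H := N)).comp (P : Subgroup G).subtype)
    have hmod := P.2.card_modEq_card_fixedPoints ↥N
    have hdvd : p ∣ Nat.card (MulAction.fixedPoints ↥(P : Subgroup G) ↥N) := by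
      rw [hN] at hmod
      exact (Nat.modEq_zero_iff_dvd).mp (hmod.symm.trans (Nat.modEq_zero_iff_dvd.mpr dvd_rfl))
    have hone : (1 : N) ∈ MulAction.fixedPoints ↥(P : Subgroup G) ↥N := by
      intro g
      show (MulAut.conjNormal (H := N) (g : G)) 1 = 1
      exact map_one _
    have hpos : 0 < Nat.card (MulAction.fixedPoints ↥(P : Subgroup G) ↥N) := by
      haveI : Nonempty (MulAction.fixedPoints ↥(P : Subgroup G) ↥N) := ⟨⟨1, hone⟩⟩
      exact Nat.card_pos
    have hge : p ≤ Nat.card (MulAction.fixedPoints ↥(P : Subgroup G) ↥N) := Nat.le_of_dvd hpos hdvd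
    have hall : MulAction.fixedPoints ↥(P : Subgroup G) ↥N = Set.univ := by
      apply Set.eq_of_subset_of_ncard_le (Set.subset_univ _) _ (Set.toFinite _)
      rw [Set.ncard_univ, hN, ← Nat.card_coe_set_eq]
      exact hge
    intro g hg
    rw [Subgroup.mem_centralizer_iff]
    intro x hx
    have h1 : (⟨x, hx⟩ : N) ∈ MulAction.fixedPoints ↥(P : Subgroup G) ↥N := by
      rw [hall]; exact Set.mem_univ _
    have h2 := h1 ⟨g, hg⟩
    have h3 : ((MulAut.conjNormal (H := N) g) ⟨x, hx⟩ : G) = x := congrArg Subtype.val h2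
    rw [MulAut.conjNormal_apply] at h3
    have h4 : g * x = x * g := by
      have := congrArg (· * g) h3
      simpa using this
    exact h4.symm
  intro h
  exact P.not_dvd_index (dvd_trans h (Subgroup.index_dvd_of_le hP))


/-- the main theorem, by induction on the order -/
theorem mainP (p : ℕ) [hp : Fact p.Prime] : ∀ (n : ℕ) (G : Type u) [Group G] [Finite G],
    Nat.card G = n → Cfsg.IsPSolvable p G → HypP p G → GoodP p G := by
  intro n
  induction n using Nat.strong_induction_on with
  | _ n ih =>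
  intro G _ _ hn hsolv hyp
  have hpp := hp.out
  by_cases htriv : Nat.card G = 1
  · refine ⟨⊤, ⊤, ⊤, ⊤, inferInstance, inferInstance, inferInstance, inferInstance, le_rfl,
      le_rfl, le_rfl, ?_, ⟨0, ?_⟩, ?_, ⟨0, ?_⟩, ?_⟩
    · rw [Subgroup.card_top, htriv]; exact hpp.not_dvd_one
    · rw [Subgroup.relIndex_self, pow_zero]
    · rw [Subgroup.relIndex_self]; exact hpp.not_dvd_one
    · rw [Subgroup.relIndex_self, pow_zero]
    · rw [Subgroup.index_top]; exact hpp.not_dvd_one
  have hquot : ∀ N : Subgroup G, ∀ [N.Normal], N ≠ ⊥ → GoodP p (G ⧸ N) := by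
    intro N _ hN
    have hlt : Nat.card (G ⧸ N) < n := by
      have h1 := Subgroup.card_eq_card_quotient_mul_card_subgroup N
      have h2 : 1 < Nat.card N := by
        have h3 : Nat.card N ≠ 1 := fun h => hN (Subgroup.card_eq_one.mp h)
        have h4 : 0 < Nat.card N := Nat.card_pos
        omega
      have h5 : 0 < Nat.card (G ⧸ N) := Nat.card_pos
      rw [← hn, h1]
      nlinarith
    exact ih _ hlt (G ⧸ N) rfl (psolv_quot p N hsolv) (hypP_quot p N hyp)
  by_cases hodd : ∃ N : Subgroup G, N.Normal ∧ N ≠ ⊥ ∧ ¬ p ∣ Nat.card N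
  · obtain ⟨N, hNn, hNne, hNodd⟩ := hodd
    haveI := hNn
    exact goodP_of_quot p N hNodd (hquot N hNne)
  have hno : ∀ X : Subgroup G, X.Normal → X ≠ ⊥ → p ∣ Nat.card X := by
    intro X hX hXne
    by_contra hXp
    exact hodd ⟨X, hX, hXne, hXp⟩
  haveI : Nontrivial G := by
    rw [← Finite.one_lt_card_iff_nontrivial]
    have : 0 < Nat.card G := Nat.card_pos
    omega
  obtain ⟨X, hXn, hXne, hX⟩ := exists_normal_of_psolv p hsolv
  have hXcard : ∃ m, Nat.card X = p ^ m := by
    rcases hX with h | h
    · exact h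
    · exfalso
      have h1 := hno X hXn hXne
      exact (Nat.Prime.coprime_iff_not_dvd hpp).mp h.symm h1
  obtain ⟨m, hm⟩ := hXcard
  -- a minimal normal subgroup inside `X`
  let S : Set (Subgroup G) := {Y | Y.Normal ∧ Y ≠ ⊥ ∧ Y ≤ X}
  have hS : S.Nonempty := ⟨X, hXn, hXne, le_rfl⟩
  obtain ⟨N, ⟨hNn, hNne, hNX⟩, hmin⟩ :=
    WellFounded.has_min (measure (fun Y : Subgroup G => Nat.card Y)).wf S hS
  haveI := hNn
  have hNmin : ∀ Y : Subgroup G, Y.Normal → Y ≤ N → Y = ⊥ ∨ Y = N := by
    intro Y hYn hYN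
    by_cases hY : Y = ⊥
    · exact Or.inl hY
    · right
      have hYS : Y ∈ S := ⟨hYn, hY, hYN.trans hNX⟩
      have := hmin Y hYS
      have h2 : Nat.card N ≤ Nat.card Y := by
        by_contra hc
        exact this (not_le.mp hc)
      exact Subgroup.eq_of_le_of_card_ge hYN h2
  have hNdvd : Nat.card N ∣ p ^ m := hm ▸ Subgroup.card_dvd_of_le hNX
  obtain ⟨j, -, hj⟩ := (Nat.dvd_prime_pow hpp).mp hNdvd
  -- `N` is abelian
  have hNcomm : ⁅N, N⁆ = ⊥ := by
    rcases hNmin ⁅N, N⁆ inferInstance (Subgroup.commutator_le_left N N) with h | h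
    · exact h
    · exfalso
      have hNp : IsPGroup p N := IsPGroup.of_card hj
      haveI : Group.IsNilpotent N := hNp.isNilpotent
      haveI : Group.IsSolvable N := inferInstance
      have hne : (⊤ : Subgroup N) ≠ ⊥ := by
        intro h'
        apply hNne
        rw [eq_bot_iff]
        intro x hx
        have h1 : (⟨x, hx⟩ : N) ∈ (⊤ : Subgroup N) := Subgroup.mem_top _
        rw [h', Subgroup.mem_bot] at h1
        exact congrArg Subtype.val h1
      have h3 := Group.IsSolvable.commutator_lt_of_ne_bot hne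
      have h4 : Subgroup.map N.subtype ⁅(⊤ : Subgroup N), (⊤ : Subgroup N)⁆ =
          Subgroup.map N.subtype (⊤ : Subgroup N) := by
        rw [Subgroup.map_commutator]
        have h6 : (⊤ : Subgroup N).map N.subtype = N := by
          rw [← MonoidHom.range_eq_map, Subgroup.range_subtype]
        rw [h6, h]
      have h5 := Subgroup.map_injective N.subtype_injective h4
      exact absurd h5 (ne_of_lt h3)
  have hNab : ∀ x ∈ N, ∀ y ∈ N, x * y = y * x := by
    intro x hx y hy
    have h1 := Subgroup.commutator_eq_bot_iff_le_centralizer.mp hNcomm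
    exact Subgroup.mem_centralizer_iff.mp (h1 hy) x hx
  -- the quotient
  obtain ⟨Ab, Bb, Cb, Db, hA, hB, hC, hD, hAB, hBC, hCD, hAp, ⟨k, hk⟩, hBCp, ⟨l, hl⟩, hDp⟩ :=
    hquot N hNne
  have hsurj : Function.Surjective (QuotientGroup.mk' N) := QuotientGroup.mk'_surjective N
  by_cases hΦ : ∀ M : Subgroup G, IsCoatom M → N ≤ M
  · have hAb : Ab = ⊥ := frattiniP_case p N j hj hNab hno hΦ Ab hA hAp
    refine ⟨⊥, Bb.comap (QuotientGroup.mk' N), Cb.comap (QuotientGroup.mk' N),
      Db.comap (QuotientGroup.mk' N), inferInstance, hB.comap _, hC.comap _, hD.comap _, bot_le,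
      Subgroup.comap_mono hBC, Subgroup.comap_mono hCD, ?_, ⟨j + k, ?_⟩, ?_, ⟨l, ?_⟩, ?_⟩
    · rw [Subgroup.card_bot]; exact hpp.not_dvd_one
    · rw [Subgroup.relIndex_bot_left, card_comap_mk, hj, pow_add]
      congr 1
      rw [← hk, hAb, Subgroup.relIndex_bot_left]
    · rw [relIndex_comap_mk]; exact hBCp
    · rw [relIndex_comap_mk, hl]
    · rw [Subgroup.index_comap_of_surjective _ hsurj]; exact hDp
  · push Not at hΦ
    obtain ⟨M, hM, hNM⟩ := hΦ
    have hsup : N ⊔ M = ⊤ := by
      apply hM.2
      refine lt_of_le_of_ne le_sup_right ?_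
      intro h
      apply hNM
      rw [h]; exact le_sup_left
    have hinfn : (N ⊓ M).Normal := by
      rw [← Subgroup.normalizer_eq_top_iff, eq_top_iff, ← hsup]
      refine sup_le ?_ ?_
      · intro n' hn'
        apply mem_normalizer_of_conj
        · intro x hx
          rw [Subgroup.mem_inf] at hx
          have h1 : n' * x * n'⁻¹ = x := by
            rw [hNab n' hn' x hx.1, mul_inv_cancel_right]
          rw [h1]; exact Subgroup.mem_inf.mpr hx
        · intro x hx
          rw [Subgroup.mem_inf] at hx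
          have h1 : n'⁻¹ * x * n' = x := by
            rw [mul_assoc, hNab x hx.1 n' hn', inv_mul_cancel_left]
          rw [h1]; exact Subgroup.mem_inf.mpr hx
      · intro m' hm'
        apply mem_normalizer_of_conj
        · intro x hx
          rw [Subgroup.mem_inf] at hx ⊢
          exact ⟨hNn.conj_mem x hx.1 m', M.mul_mem (M.mul_mem hm' hx.2) (M.inv_mem hm')⟩
        · intro x hx
          rw [Subgroup.mem_inf] at hx ⊢
          exact ⟨hNn.conj_mem' x hx.1 m', M.mul_mem (M.mul_mem (M.inv_mem hm') hx.2) hm'⟩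
    have hinf : N ⊓ M = ⊥ := by
      rcases hNmin (N ⊓ M) hinfn inf_le_left with h | h
      · exact h
      · exact absurd (h ▸ inf_le_right : N ≤ M) hNM
    have hGcard : Nat.card G = Nat.card N * Nat.card M := by
      rw [← card_sup_of_inf_bot N M hinf, hsup, Subgroup.card_top]
    rcases hyp M hM with ⟨K, hKn, hKodd, k', hk'⟩ | hpr
    · -- `M` is `p`-nilpotent
      have hK'M : K.map M.subtype ≤ M := Subgroup.map_subtype_le K
      have hK'card : Nat.card (K.map M.subtype) = Nat.card K :=
        Subgroup.card_map_of_injective M.subtype_injective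
      have hNK' : N ⊓ K.map M.subtype = ⊥ := by
        rw [eq_bot_iff, ← hinf]; exact inf_le_inf_left N hK'M
      have hCn : (N ⊔ K.map M.subtype).Normal := by
        rw [← Subgroup.normalizer_eq_top_iff, eq_top_iff, ← hsup]
        refine sup_le (le_sup_left.trans Subgroup.le_normalizer) ?_
        have key : ∀ m ∈ M, ∀ x ∈ N ⊔ K.map M.subtype, m * x * m⁻¹ ∈ N ⊔ K.map M.subtype := by
          intro m hm' x hx
          rw [Subgroup.mem_sup_of_normal_left] at hx
          obtain ⟨y, hy, z, hz, rfl⟩ := hx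
          have h1 : m * (y * z) * m⁻¹ = (m * y * m⁻¹) * (m * z * m⁻¹) := by group
          rw [h1]
          refine Subgroup.mul_mem_sup (hNn.conj_mem y hy m) ?_
          obtain ⟨z0, hz0, rfl⟩ := Subgroup.mem_map.mp hz
          exact Subgroup.mem_map.mpr ⟨⟨m, hm'⟩ * z0 * ⟨m, hm'⟩⁻¹, hKn.conj_mem z0 hz0 _, rfl⟩
        intro m' hm'
        apply mem_normalizer_of_conj
        · exact key m' hm'
        · intro x hx
          have := key m'⁻¹ (M.inv_mem hm') x hx
          simpa using this
      have hCcard : Nat.card ↥(N ⊔ K.map M.subtype) = Nat.card N * Nat.card K := by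
        rw [card_sup_of_inf_bot N _ hNK', hK'card]
      have hMcard : Nat.card M = Nat.card K * p ^ k' := by
        rw [← hk', Subgroup.card_mul_index]
      refine ⟨⊥, N, N ⊔ K.map M.subtype, ⊤, inferInstance, hNn, hCn, inferInstance, bot_le,
        le_sup_left, le_top, ?_, ⟨j, ?_⟩, ?_, ⟨k', ?_⟩, ?_⟩
      · rw [Subgroup.card_bot]; exact hpp.not_dvd_one
      · rw [Subgroup.relIndex_bot_left, hj]
      · rw [Subgroup.relIndex_sup_left, ← Subgroup.inf_relIndex_right, hNK',
          Subgroup.relIndex_bot_left, hK'card]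
        exact hKodd
      · rw [Subgroup.relIndex_top_right]
        have h1 := Subgroup.card_mul_index (N ⊔ K.map M.subtype)
        rw [hCcard, hGcard, hMcard] at h1
        have hpos : 0 < Nat.card N * Nat.card K := Nat.mul_pos Nat.card_pos Nat.card_pos
        have h2 : Nat.card N * Nat.card K * (N ⊔ K.map M.subtype).index =
            Nat.card N * Nat.card K * p ^ k' := by
          rw [h1]; ring
        exact Nat.eq_of_mul_eq_mul_left hpos h2
      · rw [Subgroup.index_top]; exact hpp.not_dvd_one
    · -- `M` has prime index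
      have hMidx : M.index = Nat.card N := by
        have h1 := Subgroup.card_mul_index M
        rw [hGcard] at h1
        have hpos : 0 < Nat.card M := Nat.card_pos
        have h2 : Nat.card M * M.index = Nat.card M * Nat.card N := by rw [h1]; ring
        exact Nat.eq_of_mul_eq_mul_left hpos h2
      have hNp : Nat.card N = p := by
        rw [hMidx, hj] at hpr
        have hj0 : j ≠ 0 := by
          rintro rfl
          rw [pow_zero] at hpr
          exact Nat.not_prime_one hpr
        have h1 : p ∣ p ^ j := dvd_pow_self p hj0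
        rw [hj]; exact ((Nat.prime_dvd_prime_iff_eq hpp hpr).mp h1).symm
      have hMp : M.index = p := hMidx.trans hNp
      haveI hZn : (Subgroup.centralizer (N : Set G)).Normal := Subgroup.normal_centralizer
      have hNZ : N ≤ Subgroup.centralizer (N : Set G) := by
        intro x hx
        rw [Subgroup.mem_centralizer_iff]
        intro y hy
        exact hNab y hy x hx
      have hZidx : ¬ p ∣ (Subgroup.centralizer (N : Set G)).index :=
        not_dvd_index_centralizer p N hNp
      haveI hAn : (Ab.comap (QuotientGroup.mk' N)).Normal := hA.comap _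
      haveI hBn : (Bb.comap (QuotientGroup.mk' N)).Normal := hB.comap _
      haveI hCn : (Cb.comap (QuotientGroup.mk' N)).Normal := hC.comap _
      haveI hDn : (Db.comap (QuotientGroup.mk' N)).Normal := hD.comap _
      have hNA : N ≤ Ab.comap (QuotientGroup.mk' N) := by
        intro x hx
        rw [Subgroup.mem_comap]
        have : (QuotientGroup.mk' N) x = 1 := (QuotientGroup.eq_one_iff x).mpr hx
        rw [this]; exact one_mem _
      have hrelA : N.relIndex (Ab.comap (QuotientGroup.mk' N)) = Nat.card Ab := by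
        have h1 := Subgroup.relIndex_mul_relIndex ⊥ N (Ab.comap (QuotientGroup.mk' N)) bot_le hNA
        rw [Subgroup.relIndex_bot_left, Subgroup.relIndex_bot_left, card_comap_mk] at h1
        exact Nat.eq_of_mul_eq_mul_left Nat.card_pos h1
      have hXn : (Ab.comap (QuotientGroup.mk' N) ⊓ Subgroup.centralizer (N : Set G) ⊓ M).Normal := by
        rw [← Subgroup.normalizer_eq_top_iff, eq_top_iff, ← hsup]
        refine sup_le ?_ ?_
        · intro n' hn'
          apply mem_normalizer_of_conj
          · intro x hx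
            have hxZ : x ∈ Subgroup.centralizer (N : Set G) :=
              (Subgroup.mem_inf.mp (Subgroup.mem_inf.mp hx).1).2
            have h1 : n' * x * n'⁻¹ = x := by
              have h2 := Subgroup.mem_centralizer_iff.mp hxZ n' hn'
              rw [h2, mul_inv_cancel_right]
            rw [h1]; exact hx
          · intro x hx
            have hxZ : x ∈ Subgroup.centralizer (N : Set G) :=
              (Subgroup.mem_inf.mp (Subgroup.mem_inf.mp hx).1).2
            have h1 : n'⁻¹ * x * n' = x := by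
              have h2 := Subgroup.mem_centralizer_iff.mp hxZ n' hn'
              rw [mul_assoc, ← h2, inv_mul_cancel_left]
            rw [h1]; exact hx
        · intro m' hm'
          have hAZn : (Ab.comap (QuotientGroup.mk' N) ⊓ Subgroup.centralizer (N : Set G)).Normal :=
            inferInstance
          apply mem_normalizer_of_conj
          · intro x hx
            rw [Subgroup.mem_inf] at hx ⊢
            exact ⟨hAZn.conj_mem x hx.1 m', M.mul_mem (M.mul_mem hm' hx.2) (M.inv_mem hm')⟩
          · intro x hx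
            rw [Subgroup.mem_inf] at hx ⊢
            exact ⟨hAZn.conj_mem' x hx.1 m', M.mul_mem (M.mul_mem (M.inv_mem hm') hx.2) hm'⟩
      have hXcard : ¬ p ∣ Nat.card
          ↥(Ab.comap (QuotientGroup.mk' N) ⊓ Subgroup.centralizer (N : Set G) ⊓ M) := by
        have h1 : Nat.card ↥(Ab.comap (QuotientGroup.mk' N) ⊓ Subgroup.centralizer (N : Set G) ⊓ M)
            ∣ Nat.card ↥(Ab.comap (QuotientGroup.mk' N) ⊓ M) :=
          Subgroup.card_dvd_of_le (inf_le_inf_right M inf_le_left)
        have h0 : N ⊓ (Ab.comap (QuotientGroup.mk' N) ⊓ M) = ⊥ := by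
          rw [eq_bot_iff, ← hinf]; exact inf_le_inf_left N inf_le_right
        have h2 : Nat.card ↥(Ab.comap (QuotientGroup.mk' N) ⊓ M) =
            N.relIndex (Ab.comap (QuotientGroup.mk' N) ⊓ M) := by
          rw [← Subgroup.inf_relIndex_right, h0, Subgroup.relIndex_bot_left]
        have h3 : N.relIndex (Ab.comap (QuotientGroup.mk' N) ⊓ M) ∣
            N.relIndex (Ab.comap (QuotientGroup.mk' N)) :=
          relIndex_dvd_relIndex N _ _ hNA inf_le_left
        intro h4
        apply hAp
        rw [← hrelA]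
        rw [h2] at h1
        exact dvd_trans h4 (h1.trans h3)
      have hX : Ab.comap (QuotientGroup.mk' N) ⊓ Subgroup.centralizer (N : Set G) ⊓ M = ⊥ := by
        by_contra hne
        exact hXcard (hno _ hXn hne)
      have hAZ : Ab.comap (QuotientGroup.mk' N) ⊓ Subgroup.centralizer (N : Set G) = N := by
        symm
        apply Subgroup.eq_of_le_of_card_ge (le_inf hNA hNZ)
        have h1 := Subgroup.relIndex_mul_relIndex ⊥
          (Ab.comap (QuotientGroup.mk' N) ⊓ Subgroup.centralizer (N : Set G) ⊓ M)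
          (Ab.comap (QuotientGroup.mk' N) ⊓ Subgroup.centralizer (N : Set G)) bot_le inf_le_left
        rw [Subgroup.relIndex_bot_left, Subgroup.relIndex_bot_left, Subgroup.inf_relIndex_left,
          hX, Subgroup.card_bot, one_mul] at h1
        have h5 : M.relIndex (Ab.comap (QuotientGroup.mk' N) ⊓ Subgroup.centralizer (N : Set G))
            ≤ M.relIndex ⊤ := by
          apply Subgroup.relIndex_le_of_le_right le_top
          rw [Subgroup.relIndex_top_right, hMp]; exact hpp.ne_zero
        rw [Subgroup.relIndex_top_right, hMp] at h5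
        rw [← h1, hNp]; exact h5
      refine ⟨⊥, Bb.comap (QuotientGroup.mk' N) ⊓ Subgroup.centralizer (N : Set G),
        Cb.comap (QuotientGroup.mk' N) ⊓ Subgroup.centralizer (N : Set G),
        Db.comap (QuotientGroup.mk' N) ⊓ Subgroup.centralizer (N : Set G),
        inferInstance, inferInstance, inferInstance, inferInstance, bot_le,
        inf_le_inf_right _ (Subgroup.comap_mono hBC), inf_le_inf_right _ (Subgroup.comap_mono hCD),
        ?_, ?_, ?_, ?_, ?_⟩
      · rw [Subgroup.card_bot]; exact hpp.not_dvd_one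
      · have h1 := Subgroup.relIndex_mul_relIndex ⊥
          (Ab.comap (QuotientGroup.mk' N) ⊓ Subgroup.centralizer (N : Set G))
          (Bb.comap (QuotientGroup.mk' N) ⊓ Subgroup.centralizer (N : Set G)) bot_le
          (inf_le_inf_right _ (Subgroup.comap_mono hAB))
        rw [Subgroup.relIndex_bot_left, relIndex_inf_eq _ _ _ (Subgroup.comap_mono hAB), hAZ,
          hNp] at h1
        have h2 : (Ab.comap (QuotientGroup.mk' N)).relIndex
            (Bb.comap (QuotientGroup.mk' N) ⊓ Subgroup.centralizer (N : Set G)) ∣ p ^ k := by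
          rw [← hk, ← relIndex_comap_mk N Ab Bb]
          exact relIndex_dvd_relIndex _ _ _ (Subgroup.comap_mono hAB) inf_le_left
        obtain ⟨k2, -, hk2⟩ := (Nat.dvd_prime_pow hpp).mp h2
        refine ⟨k2 + 1, ?_⟩
        rw [← h1, hk2]; ring
      · rw [relIndex_inf_eq _ _ _ (Subgroup.comap_mono hBC)]
        intro h1
        apply hBCp
        rw [← relIndex_comap_mk N Bb Cb]
        exact dvd_trans h1 (relIndex_dvd_relIndex _ _ _ (Subgroup.comap_mono hBC) inf_le_left)
      · rw [relIndex_inf_eq _ _ _ (Subgroup.comap_mono hCD)]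
        have h2 : (Cb.comap (QuotientGroup.mk' N)).relIndex
            (Db.comap (QuotientGroup.mk' N) ⊓ Subgroup.centralizer (N : Set G)) ∣ p ^ l := by
          rw [← hl, ← relIndex_comap_mk N Cb Db]
          exact relIndex_dvd_relIndex _ _ _ (Subgroup.comap_mono hCD) inf_le_left
        obtain ⟨l2, -, hl2⟩ := (Nat.dvd_prime_pow hpp).mp h2
        exact ⟨l2, hl2⟩
      · have h1 := Subgroup.relIndex_inf_mul_relIndex (Db.comap (QuotientGroup.mk' N))
          (Subgroup.centralizer (N : Set G)) ⊤
        rw [inf_top_eq, Subgroup.relIndex_top_right, Subgroup.relIndex_top_right] at h1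
        rw [← h1]
        intro h2
        rcases (Nat.Prime.dvd_mul hpp).mp h2 with h3 | h3
        · apply hDp
          rw [← Subgroup.index_comap_of_surjective Db hsurj]
          exact dvd_trans h3 (Subgroup.relIndex_dvd_index_of_normal _ _)
        · exact hZidx h3


end Cfsg.Agent.Helper17.PSeries
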