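import Mathlib
import Cfsg.Prelude.Def_CaseTheorems
import Cfsg.Agent.S4208
import Cfsg.Agent.S0065

set_option autoImplicit false

namespace Cfsg.Agent.Helper17.SecRank4

/-- an elementary abelian section of a group of sectional `2`-rank at most `k` has order at most
`2 ^ k` (subgroup form). -/
theorem section_le {S : Type*} [Group S] [Finite S] {k : ℕ}
    (hr : Cfsg.SectionalPRankLE 2 k S) (H N : Subgroup S)
    (hconj : ∀ h ∈ H, ∀ n ∈ N, h * n * h⁻¹ ∈ N)
    (hcomm : ∀ a ∈ H, ∀ b ∈ H, a * b * a⁻¹ * b⁻¹ ∈ N) (hsq : ∀ a ∈ H, a ^ 2 ∈ N) :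
    N.relIndex H ≤ 2 ^ k := by
  have hnorm : (N.subgroupOf H).Normal := by
    constructor
    intro n hn g
    rw [Subgroup.mem_subgroupOf] at hn ⊢
    exact hconj g g.2 n hn
  have hA : IsMulCommutative (⊤ : Subgroup (H ⧸ N.subgroupOf H)) := by
    refine ⟨⟨?_⟩⟩
    rintro ⟨a, -⟩ ⟨b, -⟩
    apply Subtype.ext
    show a * b = b * a
    induction a using QuotientGroup.induction_on with
    | H a =>
    induction b using QuotientGroup.induction_on with
    | H b =>
    rw [← QuotientGroup.mk_mul, ← QuotientGroup.mk_mul, QuotientGroup.eq, Subgroup.mem_subgroupOf]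
    have h1 := hcomm _ (H.inv_mem b.2) _ (H.inv_mem a.2)
    have e : ((a * b)⁻¹ * (b * a) : H) = b⁻¹ * a⁻¹ * b⁻¹⁻¹ * a⁻¹⁻¹ := by group
    rw [e]
    exact h1
  have h2 := hr H (N.subgroupOf H) ⊤ hA (by
    intro a _
    induction a using QuotientGroup.induction_on with
    | H a =>
    rw [← QuotientGroup.mk_pow]
    apply (QuotientGroup.eq_one_iff _).mpr
    rw [Subgroup.mem_subgroupOf]
    exact hsq a a.2)
  rw [Subgroup.card_top] at h2
  have h3 : Nat.card (H ⧸ N.subgroupOf H) = N.relIndex H := rfl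
  omega

/-- a non-abelian finite `2`-group has Frattini quotient of order at least `4`. -/
theorem four_le_index_frattini {X : Type*} [Group X] [Finite X] (hX : IsPGroup 2 X)
    (hna : ¬ IsMulCommutative X) : 4 ≤ (frattini X).index := by
  by_contra hlt
  push Not at hlt
  obtain ⟨n, hn⟩ : ∃ n, (frattini X).index = 2 ^ n := hX.index _
  have hn1 : n ≤ 1 := by
    by_contra h
    push Not at h
    have : 2 ^ 2 ≤ 2 ^ n := Nat.pow_le_pow_right (by norm_num) h
    omega
  obtain ⟨x, hx⟩ : ∃ x : X, Subgroup.zpowers x ⊔ frattini X = ⊤ := by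
    by_cases hF : frattini X = ⊤
    · exact ⟨1, by rw [hF]; simp⟩
    · obtain ⟨x, hx⟩ : ∃ x, x ∉ frattini X := by
        by_contra h
        push Not at h
        exact hF (eq_top_iff.mpr fun y _ => h y)
      refine ⟨x, ?_⟩
      have hidx : (frattini X).index = 2 := by
        interval_cases n
        · exfalso
          rw [pow_zero] at hn
          exact hF (Subgroup.index_eq_one.mp hn)
        · simpa using hn
      have h1 := Subgroup.relIndex_mul_index
        (le_sup_right : frattini X ≤ Subgroup.zpowers x ⊔ frattini X)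
      have h2 : (frattini X).relIndex (Subgroup.zpowers x ⊔ frattini X) ≠ 1 := by
        intro h
        rw [Subgroup.relIndex_eq_one] at h
        exact hx (h (Subgroup.mem_sup_left (Subgroup.mem_zpowers x)))
      rw [hidx] at h1
      have h3 : (Subgroup.zpowers x ⊔ frattini X).index = 1 := by
        rcases (Nat.dvd_prime Nat.prime_two).mp (Dvd.intro _ h1) with h | h
        · exact absurd h h2
        · rw [h] at h1
          omega
      exact Subgroup.index_eq_one.mp h3
  have hx2 : Subgroup.zpowers x = ⊤ := frattini_nongenerating hx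
  apply hna
  refine ⟨⟨fun a b => ?_⟩⟩
  obtain ⟨i, rfl⟩ := Subgroup.mem_zpowers_iff.mp (hx2 ▸ Subgroup.mem_top a)
  obtain ⟨j, rfl⟩ := Subgroup.mem_zpowers_iff.mp (hx2 ▸ Subgroup.mem_top b)
  exact zpow_mul_comm x i j

lemma mem_map_center {S : Type*} [Group S] (P : Subgroup S) (x : S) :
    x ∈ (Subgroup.center ↥P).map P.subtype ↔ x ∈ P ∧ ∀ y ∈ P, y * x = x * y := by
  constructor
  · rintro ⟨⟨z, hz⟩, hzc, rfl⟩
    refine ⟨hz, fun y hy => ?_⟩
    have := Subgroup.mem_center_iff.mp hzc ⟨y, hy⟩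
    exact congrArg Subtype.val this
  · rintro ⟨hx, hc⟩
    refine ⟨⟨x, hx⟩, ?_, rfl⟩
    rw [SetLike.mem_coe, Subgroup.mem_center_iff]
    intro y
    exact Subtype.ext (hc y y.2)

/-- a centre of order two has a unique non-identity element. -/
lemma center_two {S : Type*} [Group S] (P : Subgroup S)
    (hZP : Nat.card ↥(Subgroup.center ↥P) = 2) :
    ∃ z : S, z ∈ P ∧ z ≠ 1 ∧ (∀ y ∈ P, y * z = z * y) ∧
      ∀ x ∈ P, (∀ y ∈ P, y * x = x * y) → x = 1 ∨ x = z := by
  obtain ⟨⟨⟨z, hzP⟩, hz⟩, hz1, huniq⟩ := (Nat.card_eq_two_iff' (1 : ↥(Subgroup.center ↥P))).mp hZP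
  refine ⟨z, hzP, ?_, ?_, ?_⟩
  · rintro rfl
    exact hz1 rfl
  · intro y hy
    have := Subgroup.mem_center_iff.mp hz ⟨y, hy⟩
    exact congrArg Subtype.val this
  · intro x hx hc
    by_cases hx1 : x = 1
    · exact Or.inl hx1
    · right
      have hxc : (⟨x, hx⟩ : ↥P) ∈ Subgroup.center ↥P := by
        rw [Subgroup.mem_center_iff]
        intro y
        exact Subtype.ext (hc y y.2)
      have := huniq ⟨⟨x, hx⟩, hxc⟩ (by
        intro h
        apply hx1
        have := congrArg (fun t : ↥(Subgroup.center ↥P) => ((t : ↥P) : S)) h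
        exact this)
      have := congrArg (fun t : ↥(Subgroup.center ↥P) => ((t : ↥P) : S)) this
      exact this

end Cfsg.Agent.Helper17.SecRank4
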