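import Mathlib
import Cfsg.Prelude.Def_CaseTheorems
import Cfsg.Agent.Helper17.SecRank4
import Cfsg.Agent.S4400

set_option autoImplicit false

namespace Cfsg.Agent.Helper17.SecRank4

/-- subgroup-form bound on elementary abelian sections. -/
def SecLE (k : ℕ) (S : Type*) [Group S] : Prop :=
  ∀ H N : Subgroup S, (∀ h ∈ H, ∀ n ∈ N, h * n * h⁻¹ ∈ N) →
    (∀ a ∈ H, ∀ b ∈ H, a * b * a⁻¹ * b⁻¹ ∈ N) → (∀ a ∈ H, a ^ 2 ∈ N) → N.relIndex H ≤ 2 ^ k

theorem secLE_of_sectional {S : Type*} [Group S] [Finite S] {k : ℕ}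
    (hr : Cfsg.SectionalPRankLE 2 k S) : SecLE k S :=
  fun H N c m s => section_le hr H N c m s

theorem secLE_subgroup {S : Type*} [Group S] {k : ℕ} (hr : SecLE k S) (T : Subgroup S) :
    SecLE k ↥T := by
  intro H N c m s
  have c' : ∀ h ∈ H.map T.subtype, ∀ n ∈ N.map T.subtype, h * n * h⁻¹ ∈ N.map T.subtype := by
    rintro _ ⟨h, hh, rfl⟩ _ ⟨n, hn, rfl⟩
    exact ⟨h * n * h⁻¹, c h hh n hn, by simp⟩
  have m' : ∀ a ∈ H.map T.subtype, ∀ b ∈ H.map T.subtype, a * b * a⁻¹ * b⁻¹ ∈ N.map T.subtype := by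
    rintro _ ⟨a, ha, rfl⟩ _ ⟨b, hb, rfl⟩
    exact ⟨a * b * a⁻¹ * b⁻¹, m a ha b hb, by simp⟩
  have s' : ∀ a ∈ H.map T.subtype, a ^ 2 ∈ N.map T.subtype := by
    rintro _ ⟨a, ha, rfl⟩
    exact ⟨a ^ 2, s a ha, by simp⟩
  have h := hr _ _ c' m' s'
  rwa [Subgroup.relIndex_map_map_of_injective _ _ T.subtype_injective] at h

theorem sectional_of_secLE {X : Type*} [Group X] {k : ℕ} (h : SecLE k X) :
    Cfsg.SectionalPRankLE 2 k X := by
  intro H N _ A hA hexp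
  have h1 := secLE_subgroup h H
  have c' : ∀ h ∈ A.comap (QuotientGroup.mk' N), ∀ n ∈ N, h * n * h⁻¹ ∈ N :=
    fun h _ n hn => (inferInstance : N.Normal).conj_mem n hn h
  have m' : ∀ a ∈ A.comap (QuotientGroup.mk' N), ∀ b ∈ A.comap (QuotientGroup.mk' N),
      a * b * a⁻¹ * b⁻¹ ∈ N := by
    intro a ha b hb
    have hab := hA.is_comm.comm (⟨QuotientGroup.mk' N a, ha⟩ : A) ⟨QuotientGroup.mk' N b, hb⟩
    have hab' : QuotientGroup.mk' N a * QuotientGroup.mk' N b =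
        QuotientGroup.mk' N b * QuotientGroup.mk' N a := congrArg Subtype.val hab
    rw [← QuotientGroup.eq_one_iff, ← QuotientGroup.mk'_apply, map_mul, map_mul, map_mul,
      map_inv, map_inv, hab']
    group
  have s' : ∀ a ∈ A.comap (QuotientGroup.mk' N), a ^ 2 ∈ N := by
    intro a ha
    have := hexp (QuotientGroup.mk' N a) ha
    rw [← map_pow] at this
    exact (QuotientGroup.eq_one_iff _).mp this
  have h2 := h1 _ _ c' m' s'
  have e : N.relIndex (A.comap (QuotientGroup.mk' N)) = Nat.card A := by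
    have e1 : (⊥ : Subgroup (↥H ⧸ N)).comap (QuotientGroup.mk' N) = N := by
      rw [MonoidHom.comap_bot, QuotientGroup.ker_mk']
    have e2 : ((⊥ : Subgroup (↥H ⧸ N)).comap (QuotientGroup.mk' N)).relIndex
        (A.comap (QuotientGroup.mk' N)) = Nat.card A := by
      rw [Subgroup.relIndex_comap,
        Subgroup.map_comap_eq_self_of_surjective (QuotientGroup.mk'_surjective N),
        Subgroup.relIndex_bot_left]
    rw [e1] at e2
    exact e2
  rw [e] at h2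
  exact h2

/-- sections of two commuting subgroups with trivial intersection multiply. -/
theorem prod_section {S : Type*} [Group S] {k : ℕ} (hr : SecLE k S)
    (H₁ N₁ H₂ N₂ : Subgroup S)
    (hcomm : ∀ a ∈ H₁, ∀ b ∈ H₂, a * b = b * a) (hint : H₁ ⊓ H₂ = ⊥)
    (c1 : ∀ h ∈ H₁, ∀ n ∈ N₁, h * n * h⁻¹ ∈ N₁)
    (m1 : ∀ a ∈ H₁, ∀ b ∈ H₁, a * b * a⁻¹ * b⁻¹ ∈ N₁) (s1 : ∀ a ∈ H₁, a ^ 2 ∈ N₁)
    (c2 : ∀ h ∈ H₂, ∀ n ∈ N₂, h * n * h⁻¹ ∈ N₂)
    (m2 : ∀ a ∈ H₂, ∀ b ∈ H₂, a * b * a⁻¹ * b⁻¹ ∈ N₂) (s2 : ∀ a ∈ H₂, a ^ 2 ∈ N₂) :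
    N₁.relIndex H₁ * N₂.relIndex H₂ ≤ 2 ^ k := by
  let φ : ↥H₁ × ↥H₂ →* S := MonoidHom.noncommCoprod H₁.subtype H₂.subtype
    (fun a b => hcomm a a.2 b b.2)
  have hφ : ∀ g : ↥H₁ × ↥H₂, φ g = (g.1 : S) * (g.2 : S) := fun g => rfl
  have hinj : Function.Injective φ := by
    rw [injective_iff_map_eq_one]
    rintro ⟨a, b⟩ hab
    rw [hφ] at hab
    have ha : (a : S) ∈ H₁ ⊓ H₂ := by
      refine Subgroup.mem_inf.mpr ⟨a.2, ?_⟩
      have : (a : S) = (b : S)⁻¹ := eq_inv_of_mul_eq_one_left hab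
      rw [this]
      exact H₂.inv_mem b.2
    rw [hint, Subgroup.mem_bot] at ha
    have hb : (b : S) = 1 := by
      have h1 : (a : S) * (b : S) = 1 := hab
      rw [ha, one_mul] at h1
      exact h1
    exact Prod.ext (Subtype.ext ha) (Subtype.ext hb)
  obtain ⟨K, hK⟩ : ∃ K : Subgroup (↥H₁ × ↥H₂), K = (N₁.subgroupOf H₁).prod (N₂.subgroupOf H₂) :=
    ⟨_, rfl⟩
  have hKmem : ∀ g : ↥H₁ × ↥H₂, g ∈ K ↔ (g.1 : S) ∈ N₁ ∧ (g.2 : S) ∈ N₂ := by
    intro g
    rw [hK, Subgroup.mem_prod, Subgroup.mem_subgroupOf, Subgroup.mem_subgroupOf]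
  have c' : ∀ h ∈ (⊤ : Subgroup (↥H₁ × ↥H₂)).map φ, ∀ n ∈ K.map φ, h * n * h⁻¹ ∈ K.map φ := by
    rintro _ ⟨g, -, rfl⟩ _ ⟨n, hn, rfl⟩
    have hn' := (hKmem n).mp hn
    exact ⟨g * n * g⁻¹, (hKmem _).mpr ⟨c1 _ g.1.2 _ hn'.1, c2 _ g.2.2 _ hn'.2⟩, by simp⟩
  have m' : ∀ a ∈ (⊤ : Subgroup (↥H₁ × ↥H₂)).map φ, ∀ b ∈ (⊤ : Subgroup (↥H₁ × ↥H₂)).map φ,
      a * b * a⁻¹ * b⁻¹ ∈ K.map φ := by
    rintro _ ⟨a, -, rfl⟩ _ ⟨b, -, rfl⟩
    exact ⟨a * b * a⁻¹ * b⁻¹, (hKmem _).mpr ⟨m1 _ a.1.2 _ b.1.2, m2 _ a.2.2 _ b.2.2⟩, by simp⟩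
  have s' : ∀ a ∈ (⊤ : Subgroup (↥H₁ × ↥H₂)).map φ, a ^ 2 ∈ K.map φ := by
    rintro _ ⟨a, -, rfl⟩
    exact ⟨a ^ 2, (hKmem _).mpr ⟨s1 _ a.1.2, s2 _ a.2.2⟩, by simp⟩
  have h := hr _ _ c' m' s'
  rw [Subgroup.relIndex_map_map_of_injective _ _ hinj, Subgroup.relIndex_top_right, hK,
    Subgroup.index_prod] at h
  exact h

/-- conjugate of a subgroup. -/
def cj {S : Type*} [Group S] (g : S) (H : Subgroup S) : Subgroup S :=
  H.map (MulAut.conj g).toMonoidHom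

theorem mem_cj {S : Type*} [Group S] (g : S) (H : Subgroup S) (x : S) :
    x ∈ cj g H ↔ g⁻¹ * x * g ∈ H := by
  constructor
  · rintro ⟨y, hy, rfl⟩
    have : g⁻¹ * (MulAut.conj g).toMonoidHom y * g = y := by
      simp [MulAut.conj_apply, mul_assoc]
    rw [this]
    exact hy
  · intro h
    exact ⟨g⁻¹ * x * g, h, by simp [MulAut.conj_apply, mul_assoc]⟩

theorem conj_mem_cj {S : Type*} [Group S] (g : S) (H : Subgroup S) {x : S} (hx : x ∈ H) :
    g * x * g⁻¹ ∈ cj g H := by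
  rw [mem_cj]
  have : g⁻¹ * (g * x * g⁻¹) * g = x := by group
  rw [this]
  exact hx

theorem cj_eq_of_mem_normalizer {S : Type*} [Group S] {g : S} {H : Subgroup S}
    (hg : g ∈ Subgroup.normalizer (H : Set S)) : cj g H = H := by
  ext x
  rw [mem_cj]
  exact ((Subgroup.mem_normalizer_iff''.mp hg) x).symm

/-- the configuration: `P ≤ S₀` normalized by `S₀`, non-abelian, with centre `{1, z}`. -/
structure Good {S : Type*} [Group S] (S₀ P : Subgroup S) (z : S) : Prop where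
  le : P ≤ S₀
  norm : ∀ s ∈ S₀, ∀ x ∈ P, s * x * s⁻¹ ∈ P
  nonab : ∃ a ∈ P, ∃ b ∈ P, a * b ≠ b * a
  zmem : z ∈ P
  zne : z ≠ 1
  zcen : ∀ y ∈ P, y * z = z * y
  zuniq : ∀ x ∈ P, (∀ y ∈ P, y * x = x * y) → x = 1 ∨ x = z

theorem Good.conj {S : Type*} [Group S] {S₀ P : Subgroup S} {z : S} (h : Good S₀ P z) (g : S) :
    Good (cj g S₀) (cj g P) (g * z * g⁻¹) := by
  have key : ∀ x : S, g⁻¹ * (g * x * g⁻¹) * g = x := fun x => by group
  refine ⟨?_, ?_, ?_, conj_mem_cj g P h.zmem, ?_, ?_, ?_⟩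
  · intro x hx
    rw [mem_cj] at hx ⊢
    exact h.le hx
  · intro s hs x hx
    rw [mem_cj] at hs hx ⊢
    have := h.norm _ hs _ hx
    have e : g⁻¹ * (s * x * s⁻¹) * g = g⁻¹ * s * g * (g⁻¹ * x * g) * (g⁻¹ * s * g)⁻¹ := by group
    rw [e]
    exact this
  · obtain ⟨a, ha, b, hb, hab⟩ := h.nonab
    refine ⟨g * a * g⁻¹, conj_mem_cj g P ha, g * b * g⁻¹, conj_mem_cj g P hb, ?_⟩
    intro h1
    apply hab
    have e1 : g * a * g⁻¹ * (g * b * g⁻¹) = g * (a * b) * g⁻¹ := by group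
    have e2 : g * b * g⁻¹ * (g * a * g⁻¹) = g * (b * a) * g⁻¹ := by group
    rw [e1, e2] at h1
    exact mul_left_cancel (mul_right_cancel h1)
  · intro h1
    apply h.zne
    have : g * z * g⁻¹ = g * 1 * g⁻¹ := by rw [h1]; group
    exact mul_left_cancel (mul_right_cancel this)
  · intro y hy
    rw [mem_cj] at hy
    have := h.zcen _ hy
    have e1 : y * (g * z * g⁻¹) = g * ((g⁻¹ * y * g) * z) * g⁻¹ := by group
    have e2 : g * z * g⁻¹ * y = g * (z * (g⁻¹ * y * g)) * g⁻¹ := by group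
    rw [e1, e2, this]
  · intro x hx hc
    rw [mem_cj] at hx
    have h1 := h.zuniq _ hx (by
      intro y hy
      have := hc (g * y * g⁻¹) (conj_mem_cj g P hy)
      have e1 : y * (g⁻¹ * x * g) = g⁻¹ * ((g * y * g⁻¹) * x) * g := by group
      have e2 : g⁻¹ * x * g * y = g⁻¹ * (x * (g * y * g⁻¹)) * g := by group
      rw [e1, e2, this])
    rcases h1 with h1 | h1
    · left
      have : x = g * (g⁻¹ * x * g) * g⁻¹ := by group
      rw [this, h1]; group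
    · right
      have : x = g * (g⁻¹ * x * g) * g⁻¹ := by group
      rw [this, h1]

theorem Good.mono {S : Type*} [Group S] {S₀ P D : Subgroup S} {z : S} (h : Good S₀ P z)
    (hD : D ≤ S₀) (hPD : P ≤ D) : Good D P z :=
  ⟨hPD, fun s hs x hx => h.norm s (hD hs) x hx, h.nonab, h.zmem, h.zne, h.zcen, h.zuniq⟩

theorem Good.sq {S : Type*} [Group S] {S₀ P : Subgroup S} {z : S} (h : Good S₀ P z) :
    z * z = 1 := by
  rcases h.zuniq (z * z) (P.mul_mem h.zmem h.zmem) (by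
    intro y hy
    rw [← mul_assoc, h.zcen y hy, mul_assoc, h.zcen y hy, mul_assoc]) with h1 | h1
  · exact h1
  · exfalso
    apply h.zne
    have : z * z = 1 * z := by rw [h1, one_mul]
    exact mul_right_cancel this

theorem card_center_eq_two_of (G : Type*) [Group G] (z : G) (hz1 : z ≠ 1)
    (hzc : ∀ y : G, y * z = z * y) (hu : ∀ x : G, (∀ y : G, y * x = x * y) → x = 1 ∨ x = z) :
    Nat.card (Subgroup.center G) = 2 := by
  rw [Nat.card_eq_two_iff' (1 : Subgroup.center G)]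
  have hzm : z ∈ Subgroup.center G := by
    rw [Subgroup.mem_center_iff]
    exact hzc
  refine ⟨⟨z, hzm⟩, ?_, ?_⟩
  · intro h
    exact hz1 (congrArg Subtype.val h)
  · rintro ⟨x, hx⟩ hx1
    have h1 := hu x (Subgroup.mem_center_iff.mp hx)
    rcases h1 with h1 | h1
    · exact absurd (Subtype.ext h1) hx1
    · exact Subtype.ext h1

/-- relative form of `S4400`. -/
theorem rel_main {S : Type*} [Group S] [Finite S] (h2 : IsPGroup 2 S) (hr : SecLE 4 S)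
    {S₀ P Q : Subgroup S} {z w : S} (hP : Good S₀ P z) (hQ : Good S₀ Q w) (hzw : z ≠ w) :
    (∀ p ∈ P, ∀ q ∈ Q, p * q = q * p) ∧ P ⊓ Q = ⊥ ∧
    ∀ c ∈ S₀, (∀ p ∈ P, p * c = c * p) → (∀ q ∈ Q, q * c = c * q) →
      c = 1 ∨ c = z ∨ c = w ∨ c = z * w := by
  haveI hPn : (P.subgroupOf S₀).Normal := by
    constructor
    intro n hn g
    rw [Subgroup.mem_subgroupOf] at hn ⊢
    exact hP.norm g g.2 n hn
  haveI hQn : (Q.subgroupOf S₀).Normal := by
    constructor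
    intro n hn g
    rw [Subgroup.mem_subgroupOf] at hn ⊢
    exact hQ.norm g g.2 n hn
  have hP1 : ¬ IsMulCommutative ↥(P.subgroupOf S₀) := by
    intro hc
    obtain ⟨a, ha, b, hb, hab⟩ := hP.nonab
    have := hc.is_comm.comm (⟨⟨a, hP.le ha⟩, Subgroup.mem_subgroupOf.mpr ha⟩ : P.subgroupOf S₀)
      ⟨⟨b, hP.le hb⟩, Subgroup.mem_subgroupOf.mpr hb⟩
    exact hab (congrArg (fun t : P.subgroupOf S₀ => ((t : S₀) : S)) this)
  have hQ1 : ¬ IsMulCommutative ↥(Q.subgroupOf S₀) := by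
    intro hc
    obtain ⟨a, ha, b, hb, hab⟩ := hQ.nonab
    have := hc.is_comm.comm (⟨⟨a, hQ.le ha⟩, Subgroup.mem_subgroupOf.mpr ha⟩ : Q.subgroupOf S₀)
      ⟨⟨b, hQ.le hb⟩, Subgroup.mem_subgroupOf.mpr hb⟩
    exact hab (congrArg (fun t : Q.subgroupOf S₀ => ((t : S₀) : S)) this)
  have hP2 : Nat.card ↥(Subgroup.center ↥(P.subgroupOf S₀)) = 2 := by
    apply card_center_eq_two_of _ ⟨⟨z, hP.le hP.zmem⟩, Subgroup.mem_subgroupOf.mpr hP.zmem⟩
    · intro h
      exact hP.zne (congrArg (fun t : P.subgroupOf S₀ => ((t : S₀) : S)) h)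
    · rintro ⟨⟨y, hy0⟩, hy⟩
      apply Subtype.ext
      apply Subtype.ext
      exact hP.zcen y (Subgroup.mem_subgroupOf.mp hy)
    · rintro ⟨⟨x, hx0⟩, hx⟩ hc
      have h1 := hP.zuniq x (Subgroup.mem_subgroupOf.mp hx) (by
        intro y hy
        have := hc ⟨⟨y, hP.le hy⟩, Subgroup.mem_subgroupOf.mpr hy⟩
        exact congrArg (fun t : P.subgroupOf S₀ => ((t : S₀) : S)) this)
      rcases h1 with h1 | h1
      · left
        apply Subtype.ext
        apply Subtype.ext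
        exact h1
      · right
        apply Subtype.ext
        apply Subtype.ext
        exact h1
  have hQ2 : Nat.card ↥(Subgroup.center ↥(Q.subgroupOf S₀)) = 2 := by
    apply card_center_eq_two_of _ ⟨⟨w, hQ.le hQ.zmem⟩, Subgroup.mem_subgroupOf.mpr hQ.zmem⟩
    · intro h
      exact hQ.zne (congrArg (fun t : Q.subgroupOf S₀ => ((t : S₀) : S)) h)
    · rintro ⟨⟨y, hy0⟩, hy⟩
      apply Subtype.ext
      apply Subtype.ext
      exact hQ.zcen y (Subgroup.mem_subgroupOf.mp hy)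
    · rintro ⟨⟨x, hx0⟩, hx⟩ hc
      have h1 := hQ.zuniq x (Subgroup.mem_subgroupOf.mp hx) (by
        intro y hy
        have := hc ⟨⟨y, hQ.le hy⟩, Subgroup.mem_subgroupOf.mpr hy⟩
        exact congrArg (fun t : Q.subgroupOf S₀ => ((t : S₀) : S)) this)
      rcases h1 with h1 | h1
      · left
        apply Subtype.ext
        apply Subtype.ext
        exact h1
      · right
        apply Subtype.ext
        apply Subtype.ext
        exact h1
  have hne : (Subgroup.center ↥(P.subgroupOf S₀)).map (P.subgroupOf S₀).subtype ≠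
      (Subgroup.center ↥(Q.subgroupOf S₀)).map (Q.subgroupOf S₀).subtype := by
    intro h
    have h1 : (⟨z, hP.le hP.zmem⟩ : S₀) ∈
        (Subgroup.center ↥(P.subgroupOf S₀)).map (P.subgroupOf S₀).subtype := by
      rw [mem_map_center]
      refine ⟨Subgroup.mem_subgroupOf.mpr hP.zmem, ?_⟩
      rintro ⟨y, hy0⟩ hy
      apply Subtype.ext
      exact hP.zcen y (Subgroup.mem_subgroupOf.mp hy)
    rw [h, mem_map_center] at h1
    obtain ⟨h3, h4⟩ := h1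
    have h5 := hQ.zuniq z (Subgroup.mem_subgroupOf.mp h3) (by
      intro y hy
      have := h4 ⟨y, hQ.le hy⟩ (Subgroup.mem_subgroupOf.mpr hy)
      exact congrArg Subtype.val this)
    rcases h5 with h5 | h5
    · exact hP.zne h5
    · exact hzw h5
  obtain ⟨r1, r2, r3⟩ := Cfsg.Agent.S4400.result (h2.to_subgroup S₀)
    (sectional_of_secLE (secLE_subgroup hr S₀)) (P.subgroupOf S₀) (Q.subgroupOf S₀) hP1 hQ1 hP2 hQ2 hne
  have c1 : ∀ p ∈ P, ∀ q ∈ Q, p * q = q * p := by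
    intro p hp q hq
    have h1 := Subgroup.commutator_eq_bot_iff_le_centralizer.mp r1
    have h3 : (⟨p, hP.le hp⟩ : S₀) ∈ Subgroup.centralizer ((Q.subgroupOf S₀ : Subgroup S₀) : Set S₀) :=
      h1 (Subgroup.mem_subgroupOf.mpr hp)
    have := (Subgroup.mem_centralizer_iff.mp h3) ⟨q, hQ.le hq⟩ (Subgroup.mem_subgroupOf.mpr hq)
    exact (congrArg Subtype.val this).symm
  have c2 : P ⊓ Q = ⊥ := by
    rw [eq_bot_iff]
    intro x hx
    obtain ⟨hx1, hx2⟩ := Subgroup.mem_inf.mp hx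
    have h1 : (⟨x, hP.le hx1⟩ : S₀) ∈ P.subgroupOf S₀ ⊓ Q.subgroupOf S₀ :=
      Subgroup.mem_inf.mpr ⟨Subgroup.mem_subgroupOf.mpr hx1, Subgroup.mem_subgroupOf.mpr hx2⟩
    rw [r2, Subgroup.mem_bot] at h1
    rw [Subgroup.mem_bot]
    exact congrArg Subtype.val h1
  refine ⟨c1, c2, ?_⟩
  intro c hc hcP hcQ
  have h1 : (⟨c, hc⟩ : S₀) ∈ Subgroup.centralizer
      ((P.subgroupOf S₀ ⊔ Q.subgroupOf S₀ : Subgroup S₀) : Set S₀) := by
    have h3 : P.subgroupOf S₀ ⊔ Q.subgroupOf S₀ ≤ Subgroup.centralizer ({(⟨c, hc⟩ : S₀)} : Set S₀) := by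
      refine sup_le ?_ ?_
      · rintro ⟨x, hx0⟩ hx
        rw [Subgroup.mem_centralizer_iff]
        intro h hh
        rw [Set.mem_singleton_iff] at hh
        rw [hh]
        apply Subtype.ext
        exact (hcP x (Subgroup.mem_subgroupOf.mp hx)).symm
      · rintro ⟨x, hx0⟩ hx
        rw [Subgroup.mem_centralizer_iff]
        intro h hh
        rw [Set.mem_singleton_iff] at hh
        rw [hh]
        apply Subtype.ext
        exact (hcQ x (Subgroup.mem_subgroupOf.mp hx)).symm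
    rw [Subgroup.mem_centralizer_iff]
    intro h hh
    have := (Subgroup.mem_centralizer_iff.mp (h3 hh)) ⟨c, hc⟩ (Set.mem_singleton _)
    exact this.symm
  have h4 := r3 h1
  have h5 : (⟨c, hc⟩ : S₀) ∈ ((P.subgroupOf S₀ ⊔ Q.subgroupOf S₀ : Subgroup S₀) : Set S₀) := h4
  rw [Subgroup.normal_mul] at h5
  obtain ⟨⟨p, hp0⟩, hp, ⟨q, hq0⟩, hq, hpq⟩ := Set.mem_mul.mp h5
  have hp : p ∈ P := Subgroup.mem_subgroupOf.mp hp
  have hq : q ∈ Q := Subgroup.mem_subgroupOf.mp hq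
  have hpq : p * q = c := congrArg Subtype.val hpq
  have hpc : ∀ y ∈ P, y * p = p * y := by
    intro y hy
    have h6 := hcP y hy
    rw [← hpq] at h6
    have h7 : y * q = q * y := c1 y hy q hq
    have h8 : y * p * q = p * y * q := by
      rw [mul_assoc, h6, mul_assoc, mul_assoc, h7]
    exact mul_right_cancel h8
  have hqc : ∀ y ∈ Q, y * q = q * y := by
    intro y hy
    have h6 := hcQ y hy
    rw [← hpq] at h6
    have h7 : p * y = y * p := c1 p hp y hy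
    have h8 : p * (y * q) = p * (q * y) := by
      rw [← mul_assoc, h7, mul_assoc, h6, mul_assoc]
    exact mul_left_cancel h8
  rcases hP.zuniq p hp hpc with e1 | e1 <;> rcases hQ.zuniq q hq hqc with e2 | e2
  · left; rw [← hpq, e1, e2, one_mul]
  · right; right; left; rw [← hpq, e1, e2, one_mul]
  · right; left; rw [← hpq, e1, e2, mul_one]
  · right; right; right; rw [← hpq, e1, e2]

end Cfsg.Agent.Helper17.SecRank4
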