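import Mathlib
import Cfsg.Prelude.Def_CaseTheorems
import Cfsg.Agent.Helper17.SecRank4b

set_option autoImplicit false

namespace Cfsg.Agent.Helper17.SecRank4

variable {S : Type*} [Group S]

theorem comm_of_conj {x d : S} (h : x * d * x⁻¹ = d) : d * x = x * d := by
  have : x * d = x * d * x⁻¹ * x := by group
  rw [this, h]

theorem conj_of_comm {x d : S} (h : d * x = x * d) : x * d * x⁻¹ = d := by
  rw [← h]; group

/-- if `x` normalizes `A` and `B` (with `A ∩ B = 1`), and elements of `A`, `B` move `x` only inside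
`{x, x'}`, then `x` centralizes `A` or `B`. -/
theorem centralizes_one (A B : Subgroup S) (hAB : A ⊓ B = ⊥) (x x' : S) (hne : x ≠ x')
    (hxA : ∀ a ∈ A, x * a * x⁻¹ ∈ A) (hxB : ∀ b ∈ B, x * b * x⁻¹ ∈ B)
    (hA : ∀ a ∈ A, (a * x * a⁻¹ = x ∨ a * x * a⁻¹ = x') ∧ (a * x' * a⁻¹ = x ∨ a * x' * a⁻¹ = x'))
    (hB : ∀ b ∈ B, (b * x * b⁻¹ = x ∨ b * x * b⁻¹ = x')) :
    (∀ a ∈ A, a * x = x * a) ∨ (∀ b ∈ B, b * x = x * b) := by
  by_contra hcon
  push Not at hcon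
  obtain ⟨⟨a, ha, ha3⟩, ⟨b, hb, hb3⟩⟩ := hcon
  have ea : a * x * a⁻¹ = x' := by
    rcases (hA a ha).1 with h | h
    · exact absurd (comm_of_conj h).symm ha3
    · exact h
  have eb : b * x * b⁻¹ = x' := by
    rcases hB b hb with h | h
    · exact absurd (comm_of_conj h).symm hb3
    · exact h
  have ea4 : a * x' * a⁻¹ = x := by
    rcases (hA a ha).2 with h | h
    · exact h
    · exfalso
      have : a * x' * a⁻¹ = a * x * a⁻¹ := h.trans ea.symm
      exact hne (mul_left_cancel (mul_right_cancel this)).symm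
  have eab : a * b * x = x * (a * b) := by
    have : a * b * x = a * (b * x * b⁻¹) * a⁻¹ * (a * b) := by group
    rw [this, eb, ea4]
  have h1 := hxA a ha
  have h3 := hxB b hb
  have h5 : (x * a * x⁻¹) * (x * b * x⁻¹) = a * b := by
    have : (x * a * x⁻¹) * (x * b * x⁻¹) = x * (a * b) * x⁻¹ := by group
    rw [this, ← eab]; group
  have h4 : a⁻¹ * (x * a * x⁻¹) = b * (x * b * x⁻¹)⁻¹ := by
    have : a⁻¹ * (x * a * x⁻¹) =
        a⁻¹ * ((x * a * x⁻¹) * (x * b * x⁻¹)) * (x * b * x⁻¹)⁻¹ := by group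
    rw [this, h5]; group
  have h6 : a⁻¹ * (x * a * x⁻¹) ∈ A ⊓ B := by
    refine Subgroup.mem_inf.mpr ⟨A.mul_mem (A.inv_mem ha) h1, ?_⟩
    rw [h4]
    exact B.mul_mem hb (B.inv_mem h3)
  rw [hAB, Subgroup.mem_bot] at h6
  apply ha3
  have e : x * a = a * (a⁻¹ * (x * a * x⁻¹)) * x := by group
  rw [e, h6, mul_one]

/-- the main configuration: `S₀ = C(z)`, `t` normalizes `S₀` but is not in it. -/
structure Ctx (S₀ P : Subgroup S) (z t : S) : Prop where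
  good : Good S₀ P z
  cent : ∀ s, s ∈ S₀ ↔ s * z = z * s
  tN : t ∈ Subgroup.normalizer (S₀ : Set S)
  tS : t ∉ S₀

variable {S₀ P : Subgroup S} {z t : S}

theorem Ctx.good2 (c : Ctx S₀ P z t) : Good S₀ (cj t P) (t * z * t⁻¹) := by
  have h := c.good.conj t
  rwa [cj_eq_of_mem_normalizer c.tN] at h

theorem Ctx.z2_ne (c : Ctx S₀ P z t) : t * z * t⁻¹ ≠ z := by
  intro h
  apply c.tS
  rw [c.cent]
  exact (comm_of_conj h).symm

theorem Ctx.conj_central (c : Ctx S₀ P z t) {n : S}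
    (hn : n ∈ Subgroup.normalizer (S₀ : Set S)) :
    ∀ s ∈ S₀, s * (n * z * n⁻¹) = (n * z * n⁻¹) * s := by
  intro s hs
  have h1 : n⁻¹ * s * n ∈ S₀ := (Subgroup.mem_normalizer_iff''.mp hn s).mp hs
  have h2 := (c.cent _).mp h1
  have e1 : s * (n * z * n⁻¹) = n * ((n⁻¹ * s * n) * z) * n⁻¹ := by group
  have e2 : n * z * n⁻¹ * s = n * (z * (n⁻¹ * s * n)) * n⁻¹ := by group
  rw [e1, e2, h2]

theorem Ctx.zz2_comm (c : Ctx S₀ P z t) : (t * z * t⁻¹) * z = z * (t * z * t⁻¹) :=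
  (c.cent _).mp (c.good2.le c.good2.zmem)

variable [Finite S]

theorem Ctx.cen_char (h2 : IsPGroup 2 S) (hr : SecLE 4 S) (c : Ctx S₀ P z t) :
    ∀ x ∈ S₀, (∀ p ∈ P, p * x = x * p) → (∀ q ∈ cj t P, q * x = x * q) →
      x = 1 ∨ x = z ∨ x = t * z * t⁻¹ ∨ x = z * (t * z * t⁻¹) :=
  (rel_main h2 hr c.good c.good2 (Ne.symm c.z2_ne)).2.2

theorem Ctx.norm_z (h2 : IsPGroup 2 S) (hr : SecLE 4 S) (c : Ctx S₀ P z t) {n : S}
    (hn : n ∈ Subgroup.normalizer (S₀ : Set S)) :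
    n * z * n⁻¹ = z ∨ n * z * n⁻¹ = t * z * t⁻¹ := by
  have hg : Good S₀ (cj n P) (n * z * n⁻¹) := by
    have h := c.good.conj n
    rwa [cj_eq_of_mem_normalizer hn] at h
  have hw : n * z * n⁻¹ ∈ S₀ := hg.le hg.zmem
  have hcen := c.conj_central hn
  rcases c.cen_char h2 hr _ hw (fun p hp => hcen p (c.good.le hp))
    (fun q hq => hcen q (c.good2.le hq)) with h | h | h | h
  · exact absurd h hg.zne
  · exact Or.inl h
  · exact Or.inr h
  · exfalso
    have hz2 := c.good2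
    have hne1 : z ≠ n * z * n⁻¹ := by
      rw [h]
      intro h'
      apply hz2.zne
      have : z * 1 = z * (t * z * t⁻¹) := by rw [mul_one]; exact h'
      exact (mul_left_cancel this).symm
    have hne2 : t * z * t⁻¹ ≠ n * z * n⁻¹ := by
      rw [h]
      intro h'
      apply c.good.zne
      have : 1 * (t * z * t⁻¹) = z * (t * z * t⁻¹) := by rw [one_mul]; exact h'
      exact (mul_right_cancel this).symm
    have r1 := rel_main h2 hr c.good hg hne1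
    have r2 := rel_main h2 hr hz2 hg hne2
    obtain ⟨a, ha, b, hb, hab⟩ := hg.nonab
    have hV : ∀ x ∈ cj n P, ∀ s ∈ S₀, s * x = x * s := by
      intro x hx s hs
      have hx0 : x ∈ S₀ := hg.le hx
      rcases c.cen_char h2 hr x hx0 (fun p hp => r1.1 p hp x hx)
        (fun q hq => r2.1 q hq x hx) with e | e | e | e
      · rw [e]; simp
      · rw [e]; exact (c.cent s).mp hs
      · rw [e]; exact c.conj_central c.tN s hs
      · rw [e]
        have e1 := (c.cent s).mp hs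
        have e2 := c.conj_central c.tN s hs
        obtain ⟨w, hw⟩ : ∃ w, w = t * z * t⁻¹ := ⟨_, rfl⟩
        rw [← hw] at e2 ⊢
        rw [← mul_assoc, e1, mul_assoc, e2, mul_assoc]
    exact hab (hV a ha b (hg.le hb)).symm

theorem Ctx.norm_z2 (h2 : IsPGroup 2 S) (hr : SecLE 4 S) (c : Ctx S₀ P z t) {n : S}
    (hn : n ∈ Subgroup.normalizer (S₀ : Set S)) :
    n * (t * z * t⁻¹) * n⁻¹ = z ∨ n * (t * z * t⁻¹) * n⁻¹ = t * z * t⁻¹ := by
  have h := c.norm_z h2 hr (Subgroup.mul_mem _ hn c.tN)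
  have e : n * t * z * (n * t)⁻¹ = n * (t * z * t⁻¹) * n⁻¹ := by group
  rwa [e] at h

theorem Ctx.swap (h2 : IsPGroup 2 S) (hr : SecLE 4 S) (c : Ctx S₀ P z t) {n : S}
    (hn : n ∈ Subgroup.normalizer (S₀ : Set S)) (hnS : n ∉ S₀) :
    n * z * n⁻¹ = t * z * t⁻¹ ∧ n * (t * z * t⁻¹) * n⁻¹ = z := by
  have h1 : n * z * n⁻¹ ≠ z := by
    intro h
    apply hnS
    rw [c.cent]
    exact (comm_of_conj h).symm
  have h2' : n * z * n⁻¹ = t * z * t⁻¹ := (c.norm_z h2 hr hn).resolve_left h1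
  refine ⟨h2', ?_⟩
  rcases c.norm_z2 h2 hr hn with h | h
  · exact h
  · exfalso
    have : n * (t * z * t⁻¹) * n⁻¹ = n * z * n⁻¹ := h.trans h2'.symm
    exact c.z2_ne (mul_left_cancel (mul_right_cancel this))

theorem Ctx.y_central (h2 : IsPGroup 2 S) (hr : SecLE 4 S) (c : Ctx S₀ P z t) {n : S}
    (hn : n ∈ Subgroup.normalizer (S₀ : Set S)) :
    n * (z * (t * z * t⁻¹)) * n⁻¹ = z * (t * z * t⁻¹) := by
  have e : n * (z * (t * z * t⁻¹)) * n⁻¹ = (n * z * n⁻¹) * (n * (t * z * t⁻¹) * n⁻¹) := by group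
  rw [e]
  by_cases hnS : n ∈ S₀
  · have h1 : n * z * n⁻¹ = z := conj_of_comm ((c.cent n).mp hnS).symm
    have h3 : n * (t * z * t⁻¹) * n⁻¹ = t * z * t⁻¹ :=
      conj_of_comm (c.conj_central c.tN n hnS).symm
    rw [h1, h3]
  · obtain ⟨h1, h3⟩ := c.swap h2 hr hn hnS
    rw [h1, h3, c.zz2_comm]

theorem Ctx.center_N (h2 : IsPGroup 2 S) (hr : SecLE 4 S) (c : Ctx S₀ P z t) :
    ∀ x ∈ Subgroup.normalizer (S₀ : Set S),
      (∀ n ∈ Subgroup.normalizer (S₀ : Set S), n * x = x * n) →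
      x = 1 ∨ x = z * (t * z * t⁻¹) := by
  intro x hx hc
  have hS₀N : S₀ ≤ Subgroup.normalizer (S₀ : Set S) := Subgroup.le_normalizer
  have hz : z ∈ S₀ := c.good.le c.good.zmem
  have hx0 : x ∈ S₀ := by
    rw [c.cent]
    exact (hc z (hS₀N hz)).symm
  rcases c.cen_char h2 hr x hx0 (fun p hp => hc p (hS₀N (c.good.le hp)))
    (fun q hq => hc q (hS₀N (c.good2.le hq))) with e | e | e | e
  · exact Or.inl e
  · exfalso
    apply c.tS
    rw [c.cent]
    rw [e] at hc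
    exact hc t c.tN
  · exfalso
    have h1 := hc t c.tN
    rw [e] at h1
    have h3 := (c.swap h2 hr c.tN c.tS).2
    have : t * (t * z * t⁻¹) * t⁻¹ = t * z * t⁻¹ := conj_of_comm h1.symm
    exact c.z2_ne (this.symm.trans h3)
  · exact Or.inr e

theorem Ctx.map_P (c : Ctx S₀ P z t) {m : S} (hm : m * z * m⁻¹ = t * z * t⁻¹) :
    ∀ p ∈ P, m * p * m⁻¹ ∈ cj t P := by
  intro p hp
  rw [mem_cj]
  have h1 : t⁻¹ * m ∈ S₀ := by
    rw [c.cent]
    have e1 : t⁻¹ * m * z = t⁻¹ * (m * z * m⁻¹) * m := by group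
    rw [e1, hm]; group
  have := c.good.norm _ h1 p hp
  have e : t⁻¹ * (m * p * m⁻¹) * t = t⁻¹ * m * p * (t⁻¹ * m)⁻¹ := by group
  rw [e]; exact this

/-- final step in case A: an element centralizing two suitable subgroups. -/
theorem caseA_final (h2 : IsPGroup 2 S) (hr : SecLE 4 S) {S₁ S₂ A B : Subgroup S} {zi zk : S}
    (hA : Good S₁ A zi) (hB : Good S₂ B zk) (hi : ∀ a ∈ A, a ∈ S₂) (hk : ∀ b ∈ B, b ∈ S₁)
    (hne : zi ≠ zk) (x : S) (hx1 : x ∈ S₁) (hx2 : x ∈ S₂)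
    (hxA : ∀ a ∈ A, a * x = x * a) (hxB : ∀ b ∈ B, b * x = x * b) :
    x = 1 ∨ x = zi ∨ x = zk ∨ x = zi * zk := by
  have g1 : Good (S₁ ⊓ S₂) A zi := hA.mono inf_le_left (le_inf hA.le hi)
  have g2 : Good (S₁ ⊓ S₂) B zk := hB.mono inf_le_right (le_inf hk hB.le)
  exact (rel_main h2 hr g1 g2 hne).2.2 x (Subgroup.mem_inf.mpr ⟨hx1, hx2⟩) hxA hxB

end Cfsg.Agent.Helper17.SecRank4
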