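import Mathlib
import Cfsg.Prelude.Def_CaseTheorems
import Cfsg.Agent.Helper17.SecRank4c

set_option autoImplicit false
set_option maxHeartbeats 1000000

namespace Cfsg.Agent.Helper17.SecRank4

variable {S : Type*} [Group S] [Finite S] {S₀ P : Subgroup S} {z t : S}

/-- the normalizer of `S₀` is self-normalizing-free: no `u` normalizes `N(S₀)` without
normalizing `S₀`. -/
theorem Ctx.no_u (h2 : IsPGroup 2 S) (hr : SecLE 4 S) (c : Ctx S₀ P z t) (u : S)
    (hu : u ∈ Subgroup.normalizer ((Subgroup.normalizer (S₀ : Set S) : Subgroup S) : Set S))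
    (huN : u ∉ Subgroup.normalizer (S₀ : Set S)) : False := by
  obtain ⟨N₁, hN₁⟩ : ∃ N₁ : Subgroup S, N₁ = Subgroup.normalizer (S₀ : Set S) := ⟨_, rfl⟩
  obtain ⟨z₂, hz₂⟩ : ∃ z₂, z₂ = t * z * t⁻¹ := ⟨_, rfl⟩
  obtain ⟨z₃, hz₃⟩ : ∃ z₃, z₃ = u * z * u⁻¹ := ⟨_, rfl⟩
  obtain ⟨z₄, hz₄⟩ : ∃ z₄, z₄ = u * z₂ * u⁻¹ := ⟨_, rfl⟩
  obtain ⟨P₂, hP₂⟩ : ∃ P₂ : Subgroup S, P₂ = cj t P := ⟨_, rfl⟩
  rw [← hN₁] at hu huN
  have htN : t ∈ N₁ := by rw [hN₁]; exact c.tN
  have G1 : Good S₀ P z := c.good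
  have G2 : Good S₀ P₂ z₂ := by rw [hz₂, hP₂]; exact c.good2
  have hz12 : z₂ ≠ z := by rw [hz₂]; exact c.z2_ne
  have hcomm12 : z₂ * z = z * z₂ := by rw [hz₂]; exact c.zz2_comm
  have nz : ∀ n ∈ N₁, n * z * n⁻¹ = z ∨ n * z * n⁻¹ = z₂ := by
    intro n hn
    rw [hz₂]
    exact c.norm_z h2 hr (hN₁ ▸ hn)
  have nz2 : ∀ n ∈ N₁, n * z₂ * n⁻¹ = z ∨ n * z₂ * n⁻¹ = z₂ := by
    intro n hn
    rw [hz₂]
    exact c.norm_z2 h2 hr (hN₁ ▸ hn)
  have cenz : ∀ s ∈ S₀, s * z = z * s := fun s hs => (c.cent s).mp hs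
  have cenz2 : ∀ s ∈ S₀, s * z₂ = z₂ * s := by
    intro s hs
    rw [hz₂]
    exact c.conj_central c.tN s hs
  have ycen : ∀ n ∈ N₁, n * (z * z₂) * n⁻¹ = z * z₂ := by
    intro n hn
    rw [hz₂]
    exact c.y_central h2 hr (hN₁ ▸ hn)
  have cN : ∀ x ∈ N₁, (∀ n ∈ N₁, n * x = x * n) → x = 1 ∨ x = z * z₂ := by
    intro x hx hc
    rw [hz₂]
    exact c.center_N h2 hr x (hN₁ ▸ hx) (fun n hn => hc n (hN₁ ▸ hn))
  have mapP : ∀ m, m * z * m⁻¹ = z₂ → ∀ p ∈ P, m * p * m⁻¹ ∈ P₂ := by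
    intro m hm
    rw [hP₂]
    exact c.map_P (hz₂ ▸ hm)
  have r12 := rel_main h2 hr G1 G2 (Ne.symm hz12)
  have hu1 : ∀ n ∈ N₁, u⁻¹ * n * u ∈ N₁ := fun n hn =>
    (Subgroup.mem_normalizer_iff''.mp hu n).mp hn
  have hu2 : ∀ n ∈ N₁, u * n * u⁻¹ ∈ N₁ := fun n hn =>
    (Subgroup.mem_normalizer_iff.mp hu n).mp hn
  have hS₀N : S₀ ≤ N₁ := by rw [hN₁]; exact Subgroup.le_normalizer
  have G3 : Good (cj u S₀) (cj u P) z₃ := by rw [hz₃]; exact G1.conj u
  have G4 : Good (cj u S₀) (cj u P₂) z₄ := by rw [hz₄]; exact G2.conj u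
  have cent' : ∀ s, s ∈ cj u S₀ ↔ s * z₃ = z₃ * s := by
    intro s
    rw [mem_cj, c.cent, hz₃]
    constructor
    · intro h
      have e1 : s * (u * z * u⁻¹) = u * (u⁻¹ * s * u * z) * u⁻¹ := by group
      have e2 : u * z * u⁻¹ * s = u * (z * (u⁻¹ * s * u)) * u⁻¹ := by group
      rw [e1, e2, h]
    · intro h
      have e1 : u⁻¹ * s * u * z = u⁻¹ * (s * (u * z * u⁻¹)) * u := by group
      have e2 : z * (u⁻¹ * s * u) = u⁻¹ * (u * z * u⁻¹ * s) * u := by group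
      rw [e1, e2, h]
  have hS'N : cj u S₀ ≤ N₁ := by
    intro x hx
    rw [mem_cj] at hx
    have := hu2 _ (hS₀N hx)
    have e : u * (u⁻¹ * x * u) * u⁻¹ = x := by group
    rwa [e] at this
  have z34 : z₃ ≠ z₄ := by
    rw [hz₃, hz₄]
    intro h
    exact hz12 (mul_left_cancel (mul_right_cancel h)).symm
  have r34 := rel_main h2 hr G3 G4 z34
  have nz3 : ∀ n ∈ N₁, n * z₃ * n⁻¹ = z₃ ∨ n * z₃ * n⁻¹ = z₄ := by
    intro n hn
    have e : n * z₃ * n⁻¹ = u * ((u⁻¹ * n * u) * z * (u⁻¹ * n * u)⁻¹) * u⁻¹ := by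
      rw [hz₃]; group
    rcases nz _ (hu1 n hn) with h | h
    · left; rw [e, h, hz₃]
    · right; rw [e, h, hz₄]
  have nz4 : ∀ n ∈ N₁, n * z₄ * n⁻¹ = z₃ ∨ n * z₄ * n⁻¹ = z₄ := by
    intro n hn
    have e : n * z₄ * n⁻¹ = u * ((u⁻¹ * n * u) * z₂ * (u⁻¹ * n * u)⁻¹) * u⁻¹ := by
      rw [hz₄]; group
    rcases nz2 _ (hu1 n hn) with h | h
    · left; rw [e, h, hz₃]
    · right; rw [e, h, hz₄]
  have uS : u ∉ S₀ := fun h => huN (hS₀N h)
  have z3z2 : z₃ ≠ z₂ := by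
    intro h
    apply huN
    have h1 : t⁻¹ * u ∈ S₀ := by
      rw [c.cent]
      have e1 : t⁻¹ * u * z = t⁻¹ * (u * z * u⁻¹) * u := by group
      rw [e1, ← hz₃, h, hz₂]; group
    have : u = t * (t⁻¹ * u) := by group
    rw [this]
    exact Subgroup.mul_mem _ htN (hS₀N h1)
  have z4z2 : z₄ ≠ z₂ := by
    intro h
    apply huN
    have h1 : t⁻¹ * u * t ∈ S₀ := by
      rw [c.cent]
      have e1 : t⁻¹ * u * t * z = t⁻¹ * (u * (t * z * t⁻¹) * u⁻¹) * u * t := by group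
      rw [e1, ← hz₂, ← hz₄, h, hz₂]; group
    have : u = t * (t⁻¹ * u * t) * t⁻¹ := by group
    rw [this]
    exact Subgroup.mul_mem _ (Subgroup.mul_mem _ htN (hS₀N h1)) (Subgroup.inv_mem _ htN)
  have hy : z₃ * z₄ = z * z₂ := by
    have e : z₃ * z₄ = u * (z * z₂) * u⁻¹ := by rw [hz₃, hz₄]; group
    rw [e]
    have hyN : z * z₂ ∈ N₁ := hS₀N (S₀.mul_mem (G1.le G1.zmem) (G2.le G2.zmem))
    rcases cN _ (hu2 _ hyN) (by
      intro n hn
      have h1 := ycen _ (hu1 n hn)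
      have e1 : n * (u * (z * z₂) * u⁻¹) =
          u * ((u⁻¹ * n * u) * (z * z₂) * (u⁻¹ * n * u)⁻¹) * u⁻¹ * n := by group
      rw [e1, h1]) with h | h
    · exfalso
      have h1 : z * z₂ = 1 := by
        have : u * (z * z₂) * u⁻¹ = u * 1 * u⁻¹ := by rw [h]; group
        exact mul_left_cancel (mul_right_cancel this)
      apply hz12
      have h3 := G1.sq
      have : z * z₂ = z * z := by rw [h1, h3]
      exact mul_left_cancel this
    · exact h
  by_cases hcase : z * z₃ = z₃ * z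
  · -- case A
    have hz3S : z₃ ∈ S₀ := (c.cent z₃).mpr hcase.symm
    have hzS' : z ∈ cj u S₀ := (cent' z).mpr hcase
    have A1 : (∀ a ∈ P, a * z₃ = z₃ * a) ∨ (∀ b ∈ P₂, b * z₃ = z₃ * b) :=
      centralizes_one P P₂ r12.2.1 z₃ z₄ z34 (G1.norm z₃ hz3S) (G2.norm z₃ hz3S)
        (fun a ha => ⟨nz3 a (hS₀N (G1.le ha)), nz4 a (hS₀N (G1.le ha))⟩)
        (fun b hb => nz3 b (hS₀N (G2.le hb)))
    have A2 : (∀ a ∈ cj u P, a * z = z * a) ∨ (∀ b ∈ cj u P₂, b * z = z * b) :=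
      centralizes_one (cj u P) (cj u P₂) r34.2.1 z z₂ hz12.symm (G3.norm z hzS') (G4.norm z hzS')
        (fun a ha => ⟨nz a (hS'N (G3.le ha)), nz2 a (hS'N (G3.le ha))⟩)
        (fun b hb => nz b (hS'N (G4.le hb)))
    have hz2S' : z₂ ∈ cj u S₀ := (cent' z₂).mpr (cenz2 z₃ hz3S).symm
    rcases A1 with hA | hA <;> rcases A2 with hB | hB
    · -- P and cj u P
      have hi : ∀ a ∈ P, a ∈ cj u S₀ := fun a ha => (cent' a).mpr (hA a ha)
      have hk : ∀ a ∈ cj u P, a ∈ S₀ := fun a ha => (c.cent a).mpr (hB a ha)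
      rcases caseA_final h2 hr G1 G3 hi hk (Ne.symm (fun h => by
          apply uS; rw [c.cent]; rw [hz₃] at h; exact (comm_of_conj h).symm)) z₂
          (G2.le G2.zmem) hz2S' (fun p hp => cenz2 p (G1.le hp))
          (fun q hq => cenz2 q (hk q hq)) with h | h | h | h
      · exact G2.zne h
      · exact hz12 h
      · exact z3z2 h.symm
      · have : z₃ * z₄ = z₃ * 1 := by
          rw [hy, h, ← mul_assoc, G1.sq, one_mul, mul_one]
        exact G4.zne (mul_left_cancel this)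
    · -- P and cj u P₂
      have hi : ∀ a ∈ P, a ∈ cj u S₀ := fun a ha => (cent' a).mpr (hA a ha)
      have hk : ∀ a ∈ cj u P₂, a ∈ S₀ := fun a ha => (c.cent a).mpr (hB a ha)
      have z4z : z₄ ≠ z := by
        intro h
        apply huN
        have h1 : u * t ∈ S₀ := by
          rw [c.cent]
          have e1 : u * t * z = u * (t * z * t⁻¹) * u⁻¹ * (u * t) := by group
          rw [e1, ← hz₂, ← hz₄, h]
        have : u = (u * t) * t⁻¹ := by group
        rw [this]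
        exact Subgroup.mul_mem _ (hS₀N h1) (Subgroup.inv_mem _ htN)
      rcases caseA_final h2 hr G1 G4 hi hk (Ne.symm z4z) z₂
          (G2.le G2.zmem) hz2S' (fun p hp => cenz2 p (G1.le hp))
          (fun q hq => cenz2 q (hk q hq)) with h | h | h | h
      · exact G2.zne h
      · exact hz12 h
      · exact z4z2 h.symm
      · have : z₃ * z₄ = 1 * z₄ := by
          rw [hy, h, ← mul_assoc, G1.sq]
        exact G3.zne (mul_right_cancel this)
    · -- P₂ and cj u P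
      have hi : ∀ a ∈ P₂, a ∈ cj u S₀ := fun a ha => (cent' a).mpr (hA a ha)
      have hk : ∀ a ∈ cj u P, a ∈ S₀ := fun a ha => (c.cent a).mpr (hB a ha)
      rcases caseA_final h2 hr G2 G3 hi hk (Ne.symm z3z2) z
          (G1.le G1.zmem) hzS' (fun p hp => cenz p (G2.le hp))
          (fun q hq => cenz q (hk q hq)) with h | h | h | h
      · exact G1.zne h
      · exact hz12 h.symm
      · apply uS
        rw [c.cent]
        rw [hz₃] at h
        exact (comm_of_conj h.symm).symm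
      · have e : z * z₂ = z₃ := by
          rw [← hcomm12]
          have : z₂ * z = z₂ * (z₂ * z₃) := congrArg (fun w => z₂ * w) h
          rw [this, ← mul_assoc, G2.sq, one_mul]
        have : z₃ * z₄ = z₃ * 1 := by rw [hy, e, mul_one]
        exact G4.zne (mul_left_cancel this)
    · -- P₂ and cj u P₂
      have hi : ∀ a ∈ P₂, a ∈ cj u S₀ := fun a ha => (cent' a).mpr (hA a ha)
      have hk : ∀ a ∈ cj u P₂, a ∈ S₀ := fun a ha => (c.cent a).mpr (hB a ha)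
      rcases caseA_final h2 hr G2 G4 hi hk (Ne.symm z4z2) z
          (G1.le G1.zmem) hzS' (fun p hp => cenz p (G2.le hp))
          (fun q hq => cenz q (hk q hq)) with h | h | h | h
      · exact G1.zne h
      · exact hz12 h.symm
      · apply huN
        have h1 : u * t ∈ S₀ := by
          rw [c.cent]
          have e1 : u * t * z = u * (t * z * t⁻¹) * u⁻¹ * (u * t) := by group
          rw [e1, ← hz₂, ← hz₄, ← h]
        have : u = (u * t) * t⁻¹ := by group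
        rw [this]
        exact Subgroup.mul_mem _ (hS₀N h1) (Subgroup.inv_mem _ htN)
      · have e : z * z₂ = z₄ := by
          rw [← hcomm12]
          have : z₂ * z = z₂ * (z₂ * z₄) := congrArg (fun w => z₂ * w) h
          rw [this, ← mul_assoc, G2.sq, one_mul]
        have : z₃ * z₄ = 1 * z₄ := by rw [hy, e, one_mul]
        exact G3.zne (mul_right_cancel this)
  · -- case B
    have hzN : z ∈ N₁ := hS₀N (G1.le G1.zmem)
    have e4 : z * z₃ * z⁻¹ = z₄ := by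
      rcases nz3 z hzN with h | h
      · exact absurd (comm_of_conj h).symm hcase
      · exact h
    have hm : (u⁻¹ * z * u) * z * (u⁻¹ * z * u)⁻¹ = z₂ := by
      have e : (u⁻¹ * z * u) * z * (u⁻¹ * z * u)⁻¹ = u⁻¹ * (z * (u * z * u⁻¹) * z⁻¹) * u := by
        group
      rw [e, ← hz₃, e4, hz₄]; group
    have hmap : ∀ b ∈ cj u P, z * b * z⁻¹ ∈ cj u P₂ := by
      intro b hb
      rw [mem_cj] at hb ⊢
      have := mapP _ hm _ hb
      have e : u⁻¹ * (z * b * z⁻¹) * u = (u⁻¹ * z * u) * (u⁻¹ * b * u) * (u⁻¹ * z * u)⁻¹ := by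
        group
      rw [e]; exact this
    obtain ⟨a, ha, b, hb, hab⟩ := G3.nonab
    have hq2 := hmap b hb
    have hq1 := hmap (a * b * a⁻¹)
      (Subgroup.mul_mem _ (Subgroup.mul_mem _ ha hb) (Subgroup.inv_mem _ ha))
    have hd : b * (z * b * z⁻¹) ∈ S₀ := by
      rw [c.cent]
      apply comm_of_conj
      have h1 : z * (b * (z * b * z⁻¹)) * z⁻¹ = (z * b * z⁻¹) * ((z * z) * b * (z * z)⁻¹) := by
        group
      rw [h1, G1.sq, inv_one, mul_one, one_mul]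
      exact (r34.1 b hb _ hq2).symm
    have haN : a ∈ N₁ := hS'N (G3.le ha)
    have hd2 : a * (b * (z * b * z⁻¹)) * a⁻¹ ∈ S₀ := by
      rw [hN₁] at haN
      exact (Subgroup.mem_normalizer_iff.mp haN _).mp hd
    have e5 : a * (b * (z * b * z⁻¹)) * a⁻¹ = (a * b * a⁻¹) * (z * b * z⁻¹) := by
      have : a * (b * (z * b * z⁻¹)) * a⁻¹ = (a * b * a⁻¹) * (a * (z * b * z⁻¹) * a⁻¹) := by group
      rw [this, conj_of_comm (r34.1 a ha _ hq2).symm]
    rw [e5] at hd2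
    have h7 : z * ((a * b * a⁻¹) * (z * b * z⁻¹)) * z⁻¹ = (a * b * a⁻¹) * (z * b * z⁻¹) :=
      conj_of_comm ((c.cent _).mp hd2)
    have e6 : z * ((a * b * a⁻¹) * (z * b * z⁻¹)) * z⁻¹ = (z * (a * b * a⁻¹) * z⁻¹) * b := by
      have : z * ((a * b * a⁻¹) * (z * b * z⁻¹)) * z⁻¹ =
          (z * (a * b * a⁻¹) * z⁻¹) * ((z * z) * b * (z * z)⁻¹) := by group
      rw [this, G1.sq, inv_one, mul_one, one_mul]
    rw [e6] at h7
    have E : b * (z * (a * b * a⁻¹) * z⁻¹) = (a * b * a⁻¹) * (z * b * z⁻¹) := by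
      rw [r34.1 b hb _ hq1]
      exact h7
    have e7 : (a * b * a⁻¹)⁻¹ * b = (z * b * z⁻¹) * (z * (a * b * a⁻¹) * z⁻¹)⁻¹ := by
      have : (a * b * a⁻¹)⁻¹ * b = (a * b * a⁻¹)⁻¹ * (b * (z * (a * b * a⁻¹) * z⁻¹)) *
          (z * (a * b * a⁻¹) * z⁻¹)⁻¹ := by group
      rw [this, E]; group
    have h6 : (a * b * a⁻¹)⁻¹ * b ∈ cj u P ⊓ cj u P₂ := by
      refine Subgroup.mem_inf.mpr ⟨?_, ?_⟩
      · exact Subgroup.mul_mem _ (Subgroup.inv_mem _
          (Subgroup.mul_mem _ (Subgroup.mul_mem _ ha hb) (Subgroup.inv_mem _ ha))) hb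
      · rw [e7]
        exact Subgroup.mul_mem _ hq2 (Subgroup.inv_mem _ hq1)
    rw [r34.2.1, Subgroup.mem_bot] at h6
    apply hab
    have e8 : b * a = (a * b * a⁻¹) * ((a * b * a⁻¹)⁻¹ * b) * a := by group
    rw [e8, h6]; group

end Cfsg.Agent.Helper17.SecRank4
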